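import Mathlib
import Cfsg.Prelude.Def_OddOrderLocal
import Cfsg.Prelude.Def_Solvable
import Cfsg.Prelude.Def_LieExceptional
import Cfsg.Prelude.Def_Involutions
import Cfsg.Prelude.Def_Exceptional

/-!
# S4064 (CTI-groups): piece statements

`CTI G` : every element centralizer is a TI-subset.  Conclusion `Concl G`.
Notation: `C(x) = Subgroup.centralizer {x}`, `NM M = Subgroup.normalizer (M : Set G)` (called `H`),
`DU H u = H ⊓ u H u⁻¹`, `nInv H` = number of involutions of `H`.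

First-level pieces are standalone statements.  Second-level pieces (sub-assemblies) take the
first-level statements they need as hypotheses (`X.{u} → ...`), so nobody waits for anybody.
-/

set_option autoImplicit false
universe u

namespace Cfsg.Agent.Lib.Helper30.CTIStmt

/-- the hypothesis of S4064 -/
def CTI (G : Type u) [Group G] : Prop :=
  ∀ x : G, Cfsg.IsTISubset (Subgroup.centralizer ({x} : Set G) : Set G)

/-- the conclusion of S4064 -/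
def Concl (G : Type u) [Group G] : Prop :=
  Group.IsNilpotent G ∨
    (∃ H : Subgroup G, Cfsg.IsFrobeniusComplement H ∧
      (IsCyclic H ∨ ∃ m : ℕ, Odd m ∧ Nonempty (H ≃* Multiplicative (ZMod m) × QuaternionGroup 2))) ∨
    (∃ n : ℕ, 2 ≤ n ∧ Nonempty (G ≃* Matrix.ProjectiveSpecialLinearGroup (Fin 2) (GaloisField 2 n)))

/-- the normalizer of a subgroup -/
abbrev NM {G : Type u} [Group G] (M : Subgroup G) : Subgroup G := Subgroup.normalizer (M : Set G)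

/-- `H ∩ u H u⁻¹` -/
abbrev DU {G : Type u} [Group G] (H : Subgroup G) (u : G) : Subgroup G :=
  H ⊓ H.map (MulAut.conj u).toMonoidHom

/-- number of involutions of `H` -/
noncomputable abbrev nInv {G : Type u} [Group G] (H : Subgroup G) : ℕ :=
  Nat.card {t : G // orderOf t = 2 ∧ t ∈ H}

/-! ## Part I : basics -/

/-- ENGEL. If every element commutes with all its conjugates then `G` is nilpotent.
Sketch: the normal closure of `x` is abelian (conjugates of `x` pairwise commute) and normal, so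
it lies in `Cfsg.fittingSubgroup G` (`le_sSup`); hence `fittingSubgroup G = ⊤`, nilpotent by
`Cfsg.Agent.S0008.result`.  (Or: elements of coprime order commute, all Sylows normal.) -/
def ENGEL : Prop := ∀ (G : Type u) [Group G] [Finite G],
  (∀ x g : G, Commute x (g * x * g⁻¹)) → Group.IsNilpotent G

/-- CENG. central `z ≠ 1` lies in `C(x)` and `g z g⁻¹ = z ∈ C(x)`, so every `g` normalizes `C(x)`;
as `x ∈ C(x)`, `g x g⁻¹ ∈ C(x)`. -/
def CENG : Prop := ∀ (G : Type u) [Group G] [Finite G], CTI G → Subgroup.center G ≠ ⊥ →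
  ∀ x g : G, Commute x (g * x * g⁻¹)

/-- SUB. CTI passes to subgroups: for `g, x ∈ E`, if `g ∉ N_G(C_G(x))` use CTI in `G`; otherwise
`g` normalizes `C_G(x) ∩ E = C_E(x)`. -/
def SUB : Prop := ∀ (G : Type u) [Group G] [Finite G], CTI G → ∀ E : Subgroup G, CTI E

/-- conclusion of CN -/
def CNc : Prop := ∀ (G : Type u) [Group G] [Finite G], CTI G → Cfsg.IsCNGroup G

/-- CN (sub-assembly). For `x ≠ 1`, `E = C(x)` is CTI (SUB) and `x` is a nontrivial central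
element of `E`, so `E` is nilpotent by CENG + ENGEL. -/
def CN : Prop := ENGEL.{u} → CENG.{u} → SUB.{u} → CNc.{u}

/-! ## Part II : maximal centralizers -/

/-- MCEX. every `C(x)`, `x ≠ 1`, lies in a maximal one (choose `C(w) ⊇ C(x)` of maximal order). -/
def MCEX : Prop := ∀ (G : Type u) [Group G] [Finite G] (x : G), x ≠ 1 →
  ∃ w : G, w ≠ 1 ∧ Subgroup.centralizer ({x} : Set G) ≤ Subgroup.centralizer ({w} : Set G) ∧
    ∀ w' : G, w' ≠ 1 → Subgroup.centralizer ({w} : Set G) ≤ Subgroup.centralizer ({w'} : Set G) →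
      Subgroup.centralizer ({w'} : Set G) = Subgroup.centralizer ({w} : Set G)

/-- MCCC. `M = C(w)` maximal, `y ∈ M`, `y ≠ 1` ⇒ `C(y) ≤ M`.
Sketch: `w ∈ C(y)` and `g w g⁻¹ = w` for `g ∈ M`, so (CTI at `y`) `M` normalizes `C(y)`;
`y ∈ C(w)` and `g y g⁻¹ = y` for `g ∈ C(y)`, so (CTI at `w`) `C(y)` normalizes `M`.
Both are nilpotent (CN), so `K = M ⊔ C(y)` is nilpotent (both are normal nilpotent subgroups of
`K`, so lie in `Cfsg.fittingSubgroup K`, nilpotent by `Cfsg.Agent.S0008.result`).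
Take `k ≠ 1` central in `K` (`K ≠ ⊥`): `K ≤ C(k)`, so `M ≤ C(k)`, so `C(k) = M` by maximality,
so `C(y) ≤ K ≤ M`. -/
def MCCC : Prop := ∀ (G : Type u) [Group G] [Finite G], CTI G → Cfsg.IsCNGroup G →
  ∀ w : G, w ≠ 1 →
   (∀ w' : G, w' ≠ 1 → Subgroup.centralizer ({w} : Set G) ≤ Subgroup.centralizer ({w'} : Set G) →
      Subgroup.centralizer ({w'} : Set G) = Subgroup.centralizer ({w} : Set G)) →
   ∀ y ∈ Subgroup.centralizer ({w} : Set G), y ≠ 1 →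
     Subgroup.centralizer ({y} : Set G) ≤ Subgroup.centralizer ({w} : Set G)

/-- MCHALL. A subgroup containing the centralizers of its nonidentity elements is a Hall subgroup.
Sketch: `y ∈ M` of order `p` (Cauchy), `P` a Sylow `p` of `G` containing `y`, `z ≠ 1` central in
`P`; `z ∈ C(y) ≤ M`, then `P ≤ C(z) ≤ M`; so `M.index ∣ P.index`, prime to `p`. -/
def MCHALL : Prop := ∀ (G : Type u) [Group G] [Finite G] (M : Subgroup G),
  (∀ y ∈ M, y ≠ 1 → Subgroup.centralizer ({y} : Set G) ≤ M) →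
  ∀ p : ℕ, p.Prime → p ∣ Nat.card M → ¬ p ∣ M.index

/-- the facts about a maximal centralizer `M` -/
structure MCd (G : Type u) [Group G] (M : Subgroup G) : Prop where
  nil : Group.IsNilpotent M
  cc : ∀ y ∈ M, y ≠ 1 → Subgroup.centralizer ({y} : Set G) ≤ M
  ti : ∀ g y : G, y ∈ M → y ≠ 1 → g * y * g⁻¹ ∈ M → g ∈ NM M
  hall : ∀ p : ℕ, p.Prime → p ∣ Nat.card M → ¬ p ∣ M.index

/-- conclusion of MCALL -/
def MCALLc : Prop := ∀ (G : Type u) [Group G] [Finite G], CTI G → Cfsg.IsCNGroup G →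
  ∀ x : G, x ≠ 1 → ∃ M : Subgroup G, Subgroup.centralizer ({x} : Set G) ≤ M ∧ MCd G M

/-- MCALL (sub-assembly). `M := C(w)` from MCEX; `nil` from CN, `cc` from MCCC, `ti` is CTI at
`w`, `hall` from MCHALL. -/
def MCALL : Prop := MCEX.{u} → MCCC.{u} → MCHALL.{u} → MCALLc.{u}

/-! ## Part III : the solvable case -/

/-- NO3. no three-step groups.  Sketch: `P₀ = pCore p G ≠ ⊥` is a normal `p`-subgroup; `x ≠ 1`
central in `P₀`; `M ⊇ C(x) ⊇ P₀` as given.  For all `g`, `g x g⁻¹ ∈ P₀ ≤ M`, so `g ∈ NM M` (`ti`):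
`M` is normal, nilpotent, `p ∣ |M|`, `p ∤ M.index` (`hall`).  The Sylow `p` of `M` is normal in `M`
hence characteristic hence normal in `G`, and is a Sylow `p` of `G`; so it lies in `pCore p G`
and `p ∤ (pCore p G).index`.  But `(pCore p G ⊔ A).index = p ^ n` divides `(pCore p G).index`,
so it is `1`, contradicting `pCore p G ⊔ A ≠ ⊤`. -/
def NO3 : Prop := ∀ (G : Type u) [Group G] [Finite G],
  (∀ x : G, x ≠ 1 → ∃ M : Subgroup G, Subgroup.centralizer ({x} : Set G) ≤ M ∧ MCd G M) →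
  ∀ p : ℕ, p.Prime → ¬ Cfsg.IsThreeStepGroup p G

/-- QBAD (no universe). `a 1 * xa 0 * (a 1)⁻¹ = xa (-2)`; `xa 0 * xa (-2) = a (2^n - 2)`,
`xa (-2) * xa 0 = a (2^n + 2)`; equal iff `4 = 0` in `ZMod (2 * 2^n)` iff `n ≤ 1`. -/
def QBAD : Prop := ∀ n : ℕ,
  Commute (QuaternionGroup.xa (0 : ZMod (2 * 2 ^ n)))
    (QuaternionGroup.a 1 * QuaternionGroup.xa 0 * (QuaternionGroup.a 1)⁻¹) → n ≤ 1

/-- conclusion of QN -/
def QNc : Prop := ∀ (G : Type u) [Group G] [Finite G], CTI G → ∀ (E C Q : Subgroup G),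
  C ⊔ Q = E → (∀ a ∈ C, ∀ b ∈ Q, a * b = b * a) →
  ∀ n : ℕ, Nonempty (↥Q ≃* QuaternionGroup (2 ^ n)) → n ≤ 1

/-- QN (sub-assembly). `E` is CTI (SUB).  The preimage `z` of `QuaternionGroup.a (2^n)` in `Q` is
`≠ 1` and central in `Q`, commutes with `C`, so is central in `E = C ⊔ Q`: `center E ≠ ⊥`.
CENG in `E` applied to the preimages of `xa 0` and `a 1`, transported by the iso, gives the
hypothesis of QBAD. -/
def QN : Prop := CENG.{u} → SUB.{u} → QBAD → QNc.{u}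

/-- QC0. `QuaternionGroup 1` is cyclic of order 4 (`QuaternionGroup.quaternionGroup_one_isCyclic`);
`C ⊔ Q` with `C`, `Q` commuting cyclic of coprime orders is cyclic. -/
def QC0 : Prop := ∀ (G : Type u) [Group G] [Finite G] (E C Q : Subgroup G), C ⊔ Q = E →
  (∀ a ∈ C, ∀ b ∈ Q, a * b = b * a) → IsCyclic C → Odd (Nat.card C) →
  Nonempty (↥Q ≃* QuaternionGroup 1) → IsCyclic E

/-- QC1. `m := Nat.card C`; `C ≃* Multiplicative (ZMod m)` (cyclic), `C ⊓ Q = ⊥` (coprime orders),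
`E = C ⊔ Q` is the internal direct product. -/
def QC1 : Prop := ∀ (G : Type u) [Group G] [Finite G] (E C Q : Subgroup G), C ⊔ Q = E →
  (∀ a ∈ C, ∀ b ∈ Q, a * b = b * a) → IsCyclic C → Odd (Nat.card C) →
  Nonempty (↥Q ≃* QuaternionGroup 2) →
  ∃ m : ℕ, Odd m ∧ Nonempty (↥E ≃* Multiplicative (ZMod m) × QuaternionGroup 2)

/-- conclusion of SOLV -/
def SOLVc : Prop := ∀ (G : Type u) [Group G] [Finite G], CTI G → Cfsg.IsCNGroup G →
  (∀ x : G, x ≠ 1 → ∃ M : Subgroup G, Subgroup.centralizer ({x} : Set G) ≤ M ∧ MCd G M) →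
  Group.IsSolvable G → Concl G

/-- SOLV (sub-assembly). `Cfsg.Agent.S1476.result` (solvable CN-group): nilpotent, or Frobenius
with complement `E` cyclic or `E = C ⊔ Q` (then QN gives `n ≤ 1`, QC0 / QC1 finish; mind
`2 ^ 0 = 1`, `2 ^ 1 = 2`), or three-step (NO3). -/
def SOLV : Prop := QNc.{u} → QC0.{u} → QC1.{u} → NO3.{u} → SOLVc.{u}

/-! ## Part IV : the nonsolvable case.  `M` a maximal centralizer of even order, `H = NM M`. -/

/-- N3. `M` normal nilpotent Hall of even order in a CN-group ⇒ solvable.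
Sketch: `|M|`, `M.index` coprime; Schur–Zassenhaus (`Subgroup.exists_right_complement'_of_coprime`)
gives a complement `K` of odd order; `K` is CN (subgroup of a CN-group), solvable by
`Cfsg.Agent.S0183.result`; `G ⧸ M ≃* K`; `M` nilpotent hence solvable. -/
def N3 : Prop := ∀ (G : Type u) [Group G] [Finite G], Cfsg.IsCNGroup G →
  ∀ M : Subgroup G, M.Normal → Group.IsNilpotent M → Even (Nat.card M) →
  (∀ p : ℕ, p.Prime → p ∣ Nat.card M → ¬ p ∣ M.index) → Group.IsSolvable G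

/-- N4. nilpotent Frobenius complement ⇒ solvable: `Cfsg.Agent.S0035.result` and
`Cfsg.Agent.S0042.result` give the same `N` (same carrier), normal, nilpotent, complement;
`G ⧸ N ≃* M`. -/
def N4 : Prop := ∀ (G : Type u) [Group G] [Finite G] (M : Subgroup G),
  Cfsg.IsFrobeniusComplement M → Group.IsNilpotent M → Group.IsSolvable G

/-- INVM. involutions of `H = NM M` lie in `M`: `M ⊴ H` and `|H : M|` divides `M.index`, odd. -/
def INVM : Prop := ∀ (G : Type u) [Group G] [Finite G] (M : Subgroup G), Even (Nat.card M) →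
  (∀ p : ℕ, p.Prime → p ∣ Nat.card M → ¬ p ∣ M.index) →
  ∀ s ∈ NM M, orderOf s = 2 → s ∈ M

/-- N5. `H = NM M` is strongly embedded.  If `|H ∩ g H g⁻¹|` is even take an involution `s` in it
(Cauchy): `s = g h g⁻¹`, `h ∈ H` an involution, so `h, s ∈ M`, so `g ∈ NM M`. -/
def N5 : Prop := ∀ (G : Type u) [Group G] [Finite G] (M : Subgroup G), Even (Nat.card M) →
  (∀ g y : G, y ∈ M → y ≠ 1 → g * y * g⁻¹ ∈ M → g ∈ NM M) →
  (∀ s ∈ NM M, orderOf s = 2 → s ∈ M) → NM M ≠ ⊤ →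
  Cfsg.IsStronglyEmbedded (NM M)

/-- CINV. a nilpotent group of even order has a central involution. -/
def CINV : Prop := ∀ (M : Type u) [Group M] [Finite M], Group.IsNilpotent M → Even (Nat.card M) →
  ∃ z ∈ Subgroup.center M, orderOf z = 2

/-- N6. every involution of `M` is central in `M`: by `Cfsg.Agent.S1225.result` (with `H = NM M`)
`v = d z d⁻¹` with `d ∈ H`, which normalizes `M`. -/
def N6 : Prop := ∀ (G : Type u) [Group G] [Finite G] (M : Subgroup G),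
  Cfsg.IsStronglyEmbedded (NM M) → (∃ u : G, orderOf u = 2 ∧ u ∉ NM M) →
  (∃ z ∈ M, orderOf z = 2 ∧ ∀ m ∈ M, z * m = m * z) →
  ∀ v ∈ M, orderOf v = 2 → ∀ m ∈ M, v * m = m * v

/-- stage-2 facts -/
structure SEd (G : Type u) [Group G] (M : Subgroup G) : Prop extends MCd G M where
  even : Even (Nat.card M)
  se : Cfsg.IsStronglyEmbedded (NM M)
  invM : ∀ s ∈ NM M, orderOf s = 2 → s ∈ M
  cv : ∀ v ∈ M, orderOf v = 2 → ∀ m ∈ M, v * m = m * v
  uex : ∃ u : G, orderOf u = 2 ∧ u ∉ NM M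

/-- conclusion of SE1 -/
def SE1c : Prop := ∀ (G : Type u) [Group G] [Finite G], Cfsg.IsCNGroup G → ¬ Group.IsSolvable G →
  ∀ M : Subgroup G, MCd G M → Even (Nat.card M) → SEd G M

/-- SE1 (sub-assembly). `NM M ≠ ⊤` by N3 (else `M` is normal); `invM` by INVM; `se` by N5;
`uex`: `t ∈ M` an involution (Cauchy), `g ∉ NM M`, `u := g t g⁻¹` (if `u ∈ NM M` then `u ∈ M`, so
`g ∈ NM M` by `ti`); CINV in `↥M` gives a central involution; `cv` by N6. -/
def SE1 : Prop := N3.{u} → INVM.{u} → N5.{u} → CINV.{u} → N6.{u} → SE1c.{u}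

/-- DM. `D_u ∩ M = 1`.  Sketch: `y ∈ D_u ∩ M`, `y ≠ 1`; `y' := u y u⁻¹ ∈ H` (as `u⁻¹ = u`).
`c := y y' y⁻¹ y'⁻¹ ∈ M` (`M ⊴ H`) and `c ∈ u M u⁻¹`; `M ∩ u M u⁻¹ = 1` by `ti` (`u ∉ NM M`),
so `y' ∈ C(y) ≤ M`, so `u ∈ NM M` by `ti`: contradiction. -/
def DM : Prop := ∀ (G : Type u) [Group G] [Finite G] (M : Subgroup G),
  (∀ y ∈ M, y ≠ 1 → Subgroup.centralizer ({y} : Set G) ≤ M) →
  (∀ g y : G, y ∈ M → y ≠ 1 → g * y * g⁻¹ ∈ M → g ∈ NM M) →
  ∀ u : G, orderOf u = 2 → u ∉ NM M → DU (NM M) u ⊓ M = ⊥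

/-- NCARD. `H` acts by conjugation on its involutions, transitively
(`Cfsg.Agent.S1225.result`), the stabilizer of `v` is `M` (`⊆` by `cc`, `⊇` by `cv`). -/
def NCARD : Prop := ∀ (G : Type u) [Group G] [Finite G] (M : Subgroup G),
  (∀ y ∈ M, y ≠ 1 → Subgroup.centralizer ({y} : Set G) ≤ M) →
  Cfsg.IsStronglyEmbedded (NM M) → (∃ u : G, orderOf u = 2 ∧ u ∉ NM M) →
  (∀ s ∈ NM M, orderOf s = 2 → s ∈ M) →
  (∀ v ∈ M, orderOf v = 2 → ∀ m ∈ M, v * m = m * v) → Even (Nat.card M) →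
  Nat.card (NM M) = Nat.card M * nInv (NM M)

/-- DCARD. `Cfsg.Agent.S1224.result` with `x = ↑1`, `y = ↑u`: there are `nInv H` involutions `w`
with `↑w = ↑u`; `w ↦ u⁻¹ w` maps them injectively into `{d ∈ D_u | u d u⁻¹ = d⁻¹}`.
Conversely `d ↦ d t d⁻¹` (`t ∈ M` an involution) is injective from `D_u` to the involutions of `H`
(`C(t) ≤ M`, `D_u ∩ M = 1`).  So `|D_u| = nInv H` and every `d ∈ D_u` is inverted by `u`. -/
def DCARD : Prop := ∀ (G : Type u) [Group G] [Finite G] (M : Subgroup G),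
  (∀ y ∈ M, y ≠ 1 → Subgroup.centralizer ({y} : Set G) ≤ M) →
  Cfsg.IsStronglyEmbedded (NM M) → Even (Nat.card M) →
  ∀ u : G, orderOf u = 2 → u ∉ NM M → DU (NM M) u ⊓ M = ⊥ →
  Nat.card (DU (NM M) u) = nInv (NM M) ∧ ∀ d ∈ DU (NM M) u, u * d * u⁻¹ = d⁻¹

/-- HMD. `(m, d) ↦ m * d` is injective `M × D → H`, bijective by cardinality. -/
def HMD : Prop := ∀ (G : Type u) [Group G] [Finite G] (H M D : Subgroup G),
  M ≤ H → D ≤ H → D ⊓ M = ⊥ → Nat.card H = Nat.card M * Nat.card D →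
  ∀ h ∈ H, ∃ m ∈ M, ∃ d ∈ D, h = m * d

/-- stage-3 facts (`H = NM M`) -/
structure ZD (G : Type u) [Group G] (M : Subgroup G) : Prop where
  cc : ∀ y ∈ M, y ≠ 1 → Subgroup.centralizer ({y} : Set G) ≤ M
  se : Cfsg.IsStronglyEmbedded (NM M)
  invM : ∀ s ∈ NM M, orderOf s = 2 → s ∈ M
  even : Even (Nat.card M)
  hcard : Nat.card (NM M) = Nat.card M * nInv (NM M)
  i2 : 2 ≤ nInv (NM M)
  dM : ∀ u : G, orderOf u = 2 → u ∉ NM M → DU (NM M) u ⊓ M = ⊥
  dcard : ∀ u : G, orderOf u = 2 → u ∉ NM M → Nat.card (DU (NM M) u) = nInv (NM M)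
  dinv : ∀ u : G, orderOf u = 2 → u ∉ NM M → ∀ d ∈ DU (NM M) u, u * d * u⁻¹ = d⁻¹
  hmd : ∀ u : G, orderOf u = 2 → u ∉ NM M → ∀ h ∈ NM M, ∃ m ∈ M, ∃ d ∈ DU (NM M) u, h = m * d
  swap : ∀ x y : G ⧸ NM M, x ≠ y → ∃ w : G, orderOf w = 2 ∧ w • x = y

/-- conclusion of SE2 -/
def SE2c : Prop := ∀ (G : Type u) [Group G] [Finite G], ¬ Group.IsSolvable G →
  ∀ M : Subgroup G, SEd G M → ZD G M

/-- SE2 (sub-assembly). `hcard` NCARD; `dM` DM; `dcard`, `dinv` DCARD; `hmd` HMD;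
`swap` from `Cfsg.Agent.S1224.result` (the count is `nInv H > 0`);
`i2`: `nInv H ≥ 1`; if `= 1` then `|H| = |M|`, `H = M`, so `M` is a Frobenius complement
(`M ≠ ⊥`, `M ≠ ⊤`, and `ti`), solvable by N4: contradiction. -/
def SE2 : Prop := DM.{u} → NCARD.{u} → DCARD.{u} → HMD.{u} → N4.{u} → SE2c.{u}

/-- conclusion of INVERT -/
def INVERTc (G : Type u) [Group G] (M : Subgroup G) : Prop :=
  ∀ (x y : G ⧸ NM M) (w d : G), x ≠ y → orderOf w = 2 → w • x = y → d • x = x → d • y = y →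
    w * d * w⁻¹ = d⁻¹

/-- INVERT. `x = ↑g`, `u' := g⁻¹ w g` (involution, `∉ H`), `d' := g⁻¹ d g ∈ D_{u'}`; `dinv`. -/
def INVERT : Prop := ∀ (G : Type u) [Group G] [Finite G] (M : Subgroup G), ZD G M → INVERTc G M

/-- conclusion of Z3 -/
def Z3c (G : Type u) [Group G] (M : Subgroup G) : Prop :=
  ∀ (g : G) (a b c : G ⧸ NM M), a ≠ b → b ≠ c → a ≠ c → g • a = a → g • b = b → g • c = c → g = 1

/-- Z3. Sketch: involutions `w₁ : a ↦ b`, `w₂ : b ↦ c`, `w₃ : c ↦ a` (`swap`); each inverts `g`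
(INVERTc; note `wᵢ` swaps its two points), so `k := w₃ w₂ w₁` fixes `a` and `k g k⁻¹ = g⁻¹`.
Conjugate so that `a = ↑1`: `g', k' ∈ H`, `u := ` conjugate of `w₁` (`∉ H`), `g' ∈ D_u`.
`k' = m d₁` (`hmd`), `D_u` is abelian (by `dinv`), so `m g' m⁻¹ = g'⁻¹`, so
`g'⁻² = m g' m⁻¹ g'⁻¹ ∈ M ∩ D_u = 1`; if `g' ≠ 1` it is an involution of `H`, so in `M` (`invM`),
so in `D_u ∩ M = 1`. -/
def Z3 : Prop := ∀ (G : Type u) [Group G] [Finite G] (M : Subgroup G), ZD G M →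
  INVERTc G M → Z3c G M

/-- conclusion of Z2 -/
def Z2c (G : Type u) [Group G] (H : Subgroup G) : Prop :=
  ∀ x y : G ⧸ H, x ≠ ((1 : G) : G ⧸ H) → y ≠ ((1 : G) : G ⧸ H) → ∃ h ∈ H, h • x = y

/-- Z2. `H` is transitive on the other points.  Sketch: `x = ↑u`, `y = ↑u'` with `u, u'`
involutions `∉ H` (`swap` from `↑1`).  Pick `d ≠ 1` in `D_{u'}` (`dcard`, `i2`); `d = m₀ d₀` with
`d₀ ∈ D_u` (`hmd`), `d₀ ≠ 1` (`dM`).  `m ↦ m d₀ m⁻¹ d₀⁻¹` is injective on `M` (`cc`, `dM`), hence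
surjective: `d = m d₀ m⁻¹` for some `m ∈ M`.  Then `d` fixes `↑1`, `↑u'` and `m • ↑u`; by Z3c
`↑u' = m • ↑u`. -/
def Z2 : Prop := ∀ (G : Type u) [Group G] [Finite G] (M : Subgroup G), ZD G M →
  Z3c G M → Z2c G (NM M)

/-- Z2T. transitive + point stabilizer transitive on the rest ⇒ 2-transitive
(`MulAction.is_two_pretransitive_iff`). -/
def Z2T : Prop := ∀ (G : Type u) [Group G] (H : Subgroup G), Z2c G H →
  MulAction.IsMultiplyPretransitive G (G ⧸ H) 2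

/-- DEG. `H` is transitive on `Ω \ {↑1}` (Z2c), the stabilizer in `H` of `↑u` is `D_u`;
`|H| = |M| * nInv H`, `|D_u| = nInv H > 0`. -/
def DEG : Prop := ∀ (G : Type u) [Group G] [Finite G] (M : Subgroup G), ZD G M →
  Z2c G (NM M) → Nat.card (G ⧸ NM M) = Nat.card M + 1

/-- Z5. no regular normal subgroup.  Sketch: otherwise `|N| = |Ω| = |M| + 1` is odd, `N` is CN
(subgroup of CN), solvable by `Cfsg.Agent.S0183.result`; `G = N H` so `G ⧸ N` is a quotient of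
`H`; `H = M D_u` with `M` nilpotent normal and `D_u` abelian (by `dinv`), so `H` is solvable;
so `G` is solvable. -/
def Z5 : Prop := ∀ (G : Type u) [Group G] [Finite G] (M : Subgroup G), ZD G M →
  Cfsg.IsCNGroup G → ¬ Group.IsSolvable G → Group.IsNilpotent M →
  Nat.card (G ⧸ NM M) = Nat.card M + 1 →
  ∀ N : Subgroup G, N.Normal → MulAction.IsPretransitive N (G ⧸ NM M) →
    ∃ a : G ⧸ NM M, MulAction.stabilizer N a ≠ ⊥

/-- conclusion of ZAS -/
def ZASc : Prop := ∀ (G : Type u) [Group G] [Finite G] (M : Subgroup G), ZD G M →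
  Cfsg.IsCNGroup G → ¬ Group.IsSolvable G → Group.IsNilpotent M →
  Cfsg.IsZassenhausGroup G (G ⧸ NM M) ∧ Nat.card (G ⧸ NM M) = Nat.card M + 1

/-- ZAS (sub-assembly). faithful: `|Ω| = |M| + 1 ≥ 3` and Z3c; 2-transitive: Z2T ∘ Z2;
a nonidentity element fixing two points: `d ≠ 1` in `D_u` fixes `↑1`, `↑u`; Z5. -/
def ZAS : Prop := INVERT.{u} → Z3.{u} → Z2.{u} → Z2T.{u} → DEG.{u} → Z5.{u} → ZASc.{u}

/-- VEX. the elements of `M` with `y² = 1` form a subgroup (they are central in `M`). -/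
def VEX : Prop := ∀ (G : Type u) [Group G] [Finite G] (M : Subgroup G),
  (∀ v ∈ M, orderOf v = 2 → ∀ m ∈ M, v * m = m * v) →
  ∃ V : Subgroup G, ∀ y : G, y ∈ V ↔ y ∈ M ∧ y ^ 2 = 1

/-- VCARD. `V = {1} ∪ {involutions of H}`. -/
def VCARD : Prop := ∀ (G : Type u) [Group G] [Finite G] (M V : Subgroup G),
  (∀ y : G, y ∈ V ↔ y ∈ M ∧ y ^ 2 = 1) → (∀ s ∈ NM M, orderOf s = 2 → s ∈ M) →
  Nat.card V = nInv (NM M) + 1

/-- PSLCARD (no universe). `|SL₂(F)| = q (q² - 1)`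
(`Cfsg.Agent.Lib.Helper38.SLCard` / `Helper5.SL2Card`), the center has order `gcd 2 (q - 1)`. -/
def PSLCARD : Prop := ∀ (F : Type) [Field F] [Fintype F],
  Nat.card (Matrix.ProjectiveSpecialLinearGroup (Fin 2) F) * Nat.gcd 2 (Fintype.card F - 1)
    = Fintype.card F * (Fintype.card F ^ 2 - 1)

/-- ARITH1 (no universe). `q` even: compare 2-parts / sizes, `q = 2^a`, `2^k - 1 = 2^a - 1`.
`q` odd: `q = 2^a c ± 1`, `c` odd; `c ≥ 3` too big; `q = 2^a + 1` gives `2^k - 1 = 2^(a-1) + 1`,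
so `a = k = 2`; `q = 2^a - 1` gives `(2^a + 1) ∣ 2^(a-1) - 1`, impossible for `k ≥ 2`. -/
def ARITH1 : Prop := ∀ a k q : ℕ, 2 ≤ k → k ≤ a → IsPrimePow q →
  (2 ^ a + 1) * (2 ^ a * (2 ^ k - 1)) * Nat.gcd 2 (q - 1) = q * (q ^ 2 - 1) → a = k

/-- ARITH2 (no universe). 2-parts: `a = 2 (2 m + 1)`; then `2^k - 1 = 2^(2m+1) - 1`. -/
def ARITH2 : Prop := ∀ a k m : ℕ, 2 ≤ k → k ≤ a →
  (2 ^ a + 1) * (2 ^ a * (2 ^ k - 1)) =
    (2 ^ (2 * m + 1)) ^ 2 * ((2 ^ (2 * m + 1)) ^ 2 + 1) * (2 ^ (2 * m + 1) - 1) → a = 2 * k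

/-- conclusion of ZCONS -/
def ZCONSc : Prop := ∀ (G : Type u) [Group G] [Finite G] (M V : Subgroup G), ZD G M →
  Cfsg.IsZassenhausGroup G (G ⧸ NM M) → Nat.card (G ⧸ NM M) = Nat.card M + 1 →
  (∀ y : G, y ∈ V ↔ y ∈ M ∧ y ^ 2 = 1) →
  IsSimpleGroup G ∧ ∃ k : ℕ, 2 ≤ k ∧ Nat.card V = 2 ^ k ∧
    (Nat.card M = 2 ^ k ∨ Nat.card M = (2 ^ k) ^ 2)

/-- ZCONS (sub-assembly). `|Ω| = |M| + 1` odd: `Cfsg.Agent.S0338.result` ⇒ simple;
`Cfsg.Agent.S0346.result` ⇒ `|M|` is an even prime power `2^a`; `V ≤ M` so `|V| = 2^k`, `k ≤ a`,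
`|V| = nInv H + 1 ≥ 3` (VCARD, `i2`) so `k ≥ 2`; `|G| = |Ω| * |H| = (2^a + 1) * (2^a * (2^k - 1))`;
`Cfsg.Agent.S0340.result`: `PSL₂(F)` (PSLCARD + ARITH1 ⇒ `a = k`) or Suzuki (ARITH2 ⇒ `a = 2k`). -/
def ZCONS : Prop := VCARD.{u} → PSLCARD → ARITH1 → ARITH2 → ZCONSc.{u}

/-- SQAB. Sketch: `D` acts on `M` by conjugation without nontrivial fixed points, `V` is
`D`-invariant.  `D` acts freely on the nontrivial cosets of `V` in `M`: if `d y d⁻¹ = y v₁`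
(`d ≠ 1`, `y ∉ V`), the map `z ↦ z (d z d⁻¹)⁻¹` is injective on `V` hence onto, so some `z ∈ V`
has `d (y z) d⁻¹ = y z`, contradiction.  There are `2^k - 1 = |D|` nontrivial cosets, so `D` is
transitive on them: every element of `M` is in `V` or of the form `(d y d⁻¹) v`; all of these
commute with `y`.  So every `y ∈ M \ V` is central, and `V` is central. -/
def SQAB : Prop := ∀ (G : Type u) [Group G] [Finite G] (M V D : Subgroup G) (k : ℕ),
  Nat.card M = (2 ^ k) ^ 2 → Nat.card V = 2 ^ k → Nat.card D = 2 ^ k - 1 →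
  (∀ y : G, y ∈ V ↔ y ∈ M ∧ y ^ 2 = 1) →
  (∀ v ∈ V, ∀ m ∈ M, v * m = m * v) →
  (∀ d ∈ D, ∀ m ∈ M, d * m * d⁻¹ ∈ M) →
  (∀ d ∈ D, d ≠ 1 → ∀ m ∈ M, m ≠ 1 → d * m ≠ m * d) →
  (∀ y ∈ M, ∀ d ∈ D, Commute y (d * y * d⁻¹)) →
  ∀ x ∈ M, ∀ y ∈ M, x * y = y * x

/-- conclusion of MAB -/
def MABc : Prop := ∀ (G : Type u) [Group G] [Finite G] (M V : Subgroup G), CTI G → ZD G M →
  (∀ v ∈ M, orderOf v = 2 → ∀ m ∈ M, v * m = m * v) →
  (∀ y : G, y ∈ V ↔ y ∈ M ∧ y ^ 2 = 1) →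
  (∃ k : ℕ, 2 ≤ k ∧ Nat.card V = 2 ^ k ∧ (Nat.card M = 2 ^ k ∨ Nat.card M = (2 ^ k) ^ 2)) →
  ∀ x ∈ M, ∀ y ∈ M, x * y = y * x

/-- MAB (sub-assembly). If `|M| = |V|` then `M = V`, all `y² = 1`, abelian.  Otherwise SQAB with
`D := D_u` (`u` an involution `∉ H`, from `swap`/`se`): `|D| = nInv H = |V| - 1` (VCARD, `dcard`);
`D ≤ H` normalizes `M`; free: `d m = m d` ⇒ `d ∈ C(m) ≤ M`, `D ∩ M = 1`;
`Commute y (d y d⁻¹)`: pick an involution `v ∈ M`; `v ∈ C(y)` and `d v d⁻¹ ∈ M` is an involution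
so `∈ C(y)` (`cv`); CTI at `y` ⇒ `d` normalizes `C(y)` ∋ `y`. -/
def MAB : Prop := SQAB.{u} → VCARD.{u} → MABc.{u}

/-- ENDG. `A` embeds in the center (so `A` is trivial); `F` is finite of order `2^n`;
`F ≃+* GaloisField 2 n` (`FiniteField.ringEquivOfCardEq`), `SL₂(F) ≃* PSL₂(F)` as the center is
trivial in characteristic 2 (`Cfsg.Agent.Lib.Helper39.CTPSL`); `n ≥ 2`: if `|F| = 2` then
`|G| = 6` (`Cfsg.Agent.Lib.Helper38.SLCard`), not divisible by 4. -/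
def ENDG : Prop := ∀ (G : Type u) [Group G] [Finite G], Subgroup.center G = ⊥ → 4 ∣ Nat.card G →
  (∃ (F : Type) (_ : Field F) (_ : Fintype F) (A : Type) (_ : CommGroup A) (_ : Finite A),
    CharP F 2 ∧ Odd (Nat.card A) ∧ Nonempty (G ≃* Matrix.SpecialLinearGroup (Fin 2) F × A)) →
  ∃ n : ℕ, 2 ≤ n ∧ Nonempty (G ≃* Matrix.ProjectiveSpecialLinearGroup (Fin 2) (GaloisField 2 n))

/-- conclusion of FINAL -/
def FINALc : Prop := ∀ (G : Type u) [Group G] [Finite G] (M V : Subgroup G),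
  Subgroup.center G = ⊥ → ¬ Group.IsSolvable G → IsSimpleGroup G →
  (∀ y ∈ M, y ≠ 1 → Subgroup.centralizer ({y} : Set G) ≤ M) →
  Cfsg.IsStronglyEmbedded (NM M) → (∃ u : G, orderOf u = 2 ∧ u ∉ NM M) →
  (∃ v ∈ M, orderOf v = 2) →
  (∀ x ∈ M, ∀ y ∈ M, x * y = y * x) →
  (∀ y : G, y ∈ V ↔ y ∈ M ∧ y ^ 2 = 1) → (∃ k : ℕ, 2 ≤ k ∧ Nat.card V = 2 ^ k) →
  ∃ n : ℕ, 2 ≤ n ∧ Nonempty (G ≃* Matrix.ProjectiveSpecialLinearGroup (Fin 2) (GaloisField 2 n))

/-- FINAL (sub-assembly). `Cfsg.Agent.S2202.result`: every involution `t` of `G` is conjugate to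
`v ∈ M` (`Cfsg.Agent.S1225.result`, second part), so `C(t)` is a conjugate of `C(v) = M`
(`cc`, `M` abelian): commutative.  Sylow 2 cyclic: impossible, `V` (exponent 2, order `≥ 4`) lies
in one.  Sylow 2 normal: then it is `⊥` or `⊤` (simple); `⊤` ⇒ `G` a 2-group ⇒ solvable.
Third case: ENDG (`4 ∣ |V| ∣ |G|`). -/
def FINAL : Prop := ENDG.{u} → FINALc.{u}

end Cfsg.Agent.Lib.Helper30.CTIStmt
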