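import Mathlib
import Cfsg.Agent.Lib.Helper45.BalStmt

set_option autoImplicit false

/-! Piece [ODD] of S2731: a rational special isometry whose scalar extension lies in `Ω(F)` lies
in `Ω(K)`, when non-squares of `K` stay non-squares in `F`. -/

namespace Cfsg.Agent.Lib.Helper30.BalODD

open Module QuadraticMap Matrix
open Cfsg.Agent.Lib.Helper44.QSpace Cfsg.Agent.Lib.Helper44.OGroup Cfsg.Agent.Lib.Helper44.Spinor
open Cfsg.Agent.Lib.Helper44.CartanD Cfsg.Agent.Lib.Helper44.OMat Cfsg.Agent.Lib.Helper44.OMat2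
open Cfsg.Agent.Lib.Helper44.ODet Cfsg.Agent.Lib.Helper44.Omega2
open Cfsg.Agent.Lib.Helper45.OmegaAut Cfsg.Agent.Lib.Helper45.SemiAut
open Cfsg.Agent.Lib.Helper45.FldCoset Cfsg.Agent.Lib.Helper45.FldCent

universe u

theorem main : Cfsg.Agent.Lib.Helper45.BalStmt.OmegaBack.{u} := by
  intro F _ _ K _ _ ι _ _ Q Q' φ h2 h2K hS hS' hn hc hns x₀ hx
  obtain ⟨vs, hvs, hg⟩ := exists_prod_of_cdp (cdp_of_two_ne_zero h2K hS')
    (x₀ : ↥(Cfsg.isometryGroup K ⇑Q'))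
  -- over F
  have hact : ∀ y : ι → F, ((((mapSO Q Q' φ h2 hc x₀ : ↥(Cfsg.specialIsometryGroup F ⇑Q)) :
      ↥(Cfsg.isometryGroup F ⇑Q)) : GL ι F) : Matrix ι ι F) *ᵥ y
      = ((vs.map (fun (v : ι → K) => fun (i : ι) => φ (v i))).map (reflE Q)).prod y := by
    intro y
    rw [mapSO_coe]
    exact act_of_prod Q Q' φ hc (x₀ : ↥(Cfsg.isometryGroup K ⇑Q')) vs hg y
  have hiffF := mem_omega_iff_of_mulVec h2 Q hS hn
    ((mapSO Q Q' φ h2 hc x₀ : ↥(Cfsg.specialIsometryGroup F ⇑Q)) : ↥(Cfsg.isometryGroup F ⇑Q))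
    (vs.map (fun (v : ι → K) => fun (i : ι) => φ (v i))) (ne_zero_map Q Q' φ hc vs hvs) hact
  obtain ⟨hev, hsq⟩ := hiffF.1 hx
  -- over K
  have hactK : ∀ x : ι → K, (((x₀ : ↥(Cfsg.isometryGroup K ⇑Q')) : GL ι K) : Matrix ι ι K) *ᵥ x
      = (vs.map (reflE Q')).prod x := by
    intro x
    rw [← isoEquiv_apply, hg, coe_prod_refl]
  have hiffK := mem_omega_iff_of_mulVec h2K Q' hS' hn (x₀ : ↥(Cfsg.isometryGroup K ⇑Q')) vs hvs
    hactK
  rw [hiffK]
  refine ⟨by rw [List.length_map] at hev; exact hev, ?_⟩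
  have hprod : ((vs.map (fun (v : ι → K) => fun (i : ι) => φ (v i))).map (fun v => Q v)).prod
      = φ ((vs.map (fun v => Q' v)).prod) := by
    rw [map_list_prod, List.map_map, List.map_map]
    congr 1
    apply List.map_congr_left
    intro v _
    exact hc v
  rw [hprod] at hsq
  by_contra hnsq
  exact hns _ hnsq hsq

end Cfsg.Agent.Lib.Helper30.BalODD
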