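import Cfsg.Agent.Lib.Helper30.CTIStmt

/-! # S4064: the pieces CENG, SUB, CN, MCEX, MCALL, VEX -/

set_option autoImplicit false
universe u

namespace Cfsg.Agent.Lib.Helper30.CTIBasic

open Cfsg.Agent.Lib.Helper30.CTIStmt

theorem ceng : CENG.{u} := by
  intro G _ _ hTI hZ x g
  obtain ⟨z, hz, hz1⟩ : ∃ z ∈ Subgroup.center G, z ≠ 1 := by
    by_contra h
    push Not at h
    exact hZ ((Subgroup.eq_bot_iff_forall _).mpr h)
  have hzc : z ∈ Subgroup.centralizer ({x} : Set G) := by
    rw [Subgroup.mem_centralizer_iff]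
    intro y hy
    rw [Set.mem_singleton_iff] at hy
    subst hy
    exact (Subgroup.mem_center_iff.mp hz y)
  have hg : g ∈ Subgroup.normalizer ((Subgroup.centralizer ({x} : Set G) : Subgroup G) : Set G) := by
    by_contra hg
    have h1 : g * z * g⁻¹ = z := by
      rw [Subgroup.mem_center_iff.mp hz g]
      group
    have := hTI x g hg z hzc (by rw [h1]; exact hzc)
    exact hz1 this
  have hx : x ∈ Subgroup.centralizer ({x} : Set G) :=
    Subgroup.mem_centralizer_iff.mpr (by simp)
  have h2 : g * x * g⁻¹ ∈ Subgroup.centralizer ({x} : Set G) :=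
    (Subgroup.mem_normalizer_iff.mp hg x).mp hx
  rw [Subgroup.mem_centralizer_iff] at h2
  exact h2 x rfl

theorem sub : SUB.{u} := by
  intro G _ _ hTI E x g hg y hy hgy
  have key : ∀ z : E, z ∈ Subgroup.centralizer ({x} : Set E) ↔
      (z : G) ∈ Subgroup.centralizer ({(x : G)} : Set G) := by
    intro z
    rw [Subgroup.mem_centralizer_iff, Subgroup.mem_centralizer_iff]
    constructor
    · intro h y hy
      rw [Set.mem_singleton_iff] at hy
      subst hy
      exact congrArg Subtype.val (h x rfl)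
    · intro h y hy
      rw [Set.mem_singleton_iff] at hy
      subst hy
      exact Subtype.ext (h (y : G) rfl)
  by_cases hgG : (g : G) ∈
      Subgroup.normalizer ((Subgroup.centralizer ({(x : G)} : Set G) : Subgroup G) : Set G)
  · exfalso
    apply hg
    rw [Subgroup.mem_normalizer_iff]
    intro h
    rw [key, key]
    exact (Subgroup.mem_normalizer_iff.mp hgG (h : G))
  · have := hTI (x : G) (g : G) hgG (y : G) ((key y).mp hy) ((key _).mp hgy)
    exact Subtype.ext this

theorem cn : CN.{u} := by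
  intro hE hC hS G _ _ hTI x hx
  have hTI' : CTI ↥(Subgroup.centralizer ({x} : Set G)) := hS G hTI _
  have hxc : x ∈ Subgroup.centralizer ({x} : Set G) :=
    Subgroup.mem_centralizer_iff.mpr (by simp)
  have hZ : Subgroup.center ↥(Subgroup.centralizer ({x} : Set G)) ≠ ⊥ := by
    intro h
    have hmem : (⟨x, hxc⟩ : ↥(Subgroup.centralizer ({x} : Set G))) ∈ Subgroup.center _ := by
      rw [Subgroup.mem_center_iff]
      intro g
      apply Subtype.ext
      have := g.2
      rw [Subgroup.mem_centralizer_iff] at this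
      exact (this x rfl).symm
    rw [h, Subgroup.mem_bot] at hmem
    exact hx (congrArg Subtype.val hmem)
  exact hE _ (hC _ hTI' hZ)

theorem mcex : MCEX.{u} := by
  intro G _ _ x hx
  obtain ⟨w, ⟨hw1, hw2⟩, hmax⟩ := Set.exists_max_image
    {w : G | w ≠ 1 ∧ Subgroup.centralizer ({x} : Set G) ≤ Subgroup.centralizer ({w} : Set G)}
    (fun w => Nat.card (Subgroup.centralizer ({w} : Set G))) (Set.toFinite _) ⟨x, hx, le_rfl⟩
  refine ⟨w, hw1, hw2, fun w' hw' hle => ?_⟩
  have := hmax w' ⟨hw', hw2.trans hle⟩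
  exact (Subgroup.eq_of_le_of_card_ge hle this).symm

theorem mcall : MCALL.{u} := by
  intro hEX hCC hHALL G _ _ hTI hcn x hx
  obtain ⟨w, hw, hxw, hmax⟩ := hEX G x hx
  have cc := hCC G hTI hcn w hw hmax
  refine ⟨Subgroup.centralizer {w}, hxw, ⟨hcn w hw, cc, fun g y hy hy1 hgy => ?_, hHALL G _ cc⟩⟩
  by_contra hg
  exact hy1 (hTI w g hg y hy hgy)

theorem vex : VEX.{u} := by
  intro G _ _ M hcv
  have : Fact (Nat.Prime 2) := ⟨Nat.prime_two⟩
  refine ⟨{ carrier := {y | y ∈ M ∧ y ^ 2 = 1}, mul_mem' := ?_, one_mem' := ?_, inv_mem' := ?_ },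
    fun y => Iff.rfl⟩
  · rintro a b ⟨ha, ha2⟩ ⟨hb, hb2⟩
    refine ⟨M.mul_mem ha hb, ?_⟩
    have hab : Commute a b := by
      by_cases ha1 : a = 1
      · subst ha1
        exact Commute.one_left b
      · exact hcv a ha (orderOf_eq_prime ha2 ha1) b hb
    rw [hab.mul_pow, ha2, hb2, one_mul]
  · exact ⟨M.one_mem, one_pow 2⟩
  · rintro a ⟨ha, ha2⟩
    exact ⟨M.inv_mem ha, by rw [inv_pow, ha2, inv_one]⟩

end Cfsg.Agent.Lib.Helper30.CTIBasic
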