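import Mathlib
import Cfsg.Agent.Lib.Helper32.D8Stmt
import Cfsg.Agent.Lib.CT.FrobRec

/-!
# S3716 piece VALA: values of `th1` (and shared tools for VALB)

`th(u) = Σ_{r ∈ {1, a, w, w*a}} φ°(r⁻¹ u r)` for `u` with `u^4 ∈ T \ {1}` (TI and the coset
decomposition `N = ⊔ r C`).  Takes `NF` and `TI` as hypotheses.
-/

set_option autoImplicit false

namespace Cfsg.Agent.Lib.Helper30.D8VALA

open Cfsg
open Cfsg.Agent.Lib.Helper32
open Cfsg.Agent.Lib.Helper32.D8Stmt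
open Cfsg.Agent.Lib.CT.FrobRec

universe u

variable {G : Type u} [Group G] {T N : Subgroup G} {x y a b w : G}

theorem inv_of_sq {g : G} (h : g ^ 2 = 1) : g⁻¹ = g :=
  inv_eq_of_mul_eq_one_right (by rw [← sq]; exact h)

theorem pow_mod_two {g : G} (h : g ^ 2 = 1) (n : ℕ) : g ^ n = g ^ (n % 2) := by
  conv_lhs => rw [← Nat.mod_add_div n 2, pow_add, pow_mul, h, one_pow, mul_one]

theorem mem_C_iff {x g : G} : g ∈ Subgroup.centralizer ({x} : Set G) ↔ x * g = g * x := by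
  simp [Subgroup.mem_centralizer_iff]

theorem x_mem_C {x : G} : x ∈ Subgroup.centralizer ({x} : Set G) := mem_C_iff.2 rfl

/-- The coset decomposition `N = ⊔ r C`, `r ∈ {1, a, w, w*a}`, for sums. -/
theorem sum_eq [Fintype G] (hNF : NF.{u}) (hc : Cfg T N x y a b w)
    (F : G → ℂ) (hF : ∀ t : G, t ∉ N → F t = 0)
    (hFC : ∀ t c : G, c ∈ Subgroup.centralizer ({x} : Set G) → F (t * c) = F t) :
    ∑ t : G, F t = 18 * (F 1 + F a + F w + F (w * a)) := by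
  classical
  obtain ⟨hT, hN, huniq, hprod, hcent, hfg, hcard⟩ := hNF hc
  haveI hFN : Fintype ↥N := Fintype.ofFinite _
  haveI hFC0 : Fintype ↥(Subgroup.centralizer ({x} : Set G)) := Fintype.ofFinite _
  have hCN : ∀ c : G, c ∈ Subgroup.centralizer ({x} : Set G) → c ∈ N := fun c hcC =>
    hc.loc x hc.xT hc.x1 c (mem_C_iff.1 hcC).symm
  have hxC : x ∈ Subgroup.centralizer ({x} : Set G) := x_mem_C
  have hyC : y ∈ Subgroup.centralizer ({x} : Set G) := mem_C_iff.2 hc.xy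
  have hbC : b ∈ Subgroup.centralizer ({x} : Set G) := mem_C_iff.2 hc.bx.symm
  have h1 : ∑ t : G, F t = ∑ t : ↥N, F (t : G) := by
    rw [← Finset.sum_subtype (Finset.univ.filter (· ∈ N)) (by simp) F]
    exact (Finset.sum_filter_of_ne (fun t _ ht => by_contra (fun hn => ht (hF t hn)))).symm
  let Φ : Fin 2 × Fin 2 × ↥(Subgroup.centralizer ({x} : Set G)) → ↥N := fun p =>
    ⟨w ^ (p.1 : ℕ) * a ^ (p.2.1 : ℕ) * (p.2.2 : G),
      N.mul_mem (N.mul_mem (N.pow_mem hc.wN _) (N.pow_mem hc.aN _)) (hCN _ p.2.2.2)⟩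
  have hsurj : Function.Surjective Φ := by
    rintro ⟨t, ht⟩
    obtain ⟨i, j, k, l, m, e⟩ := (hN t⁻¹).1 (N.inv_mem ht)
    have hab : Commute (b ^ l) (a ^ k) := ((show Commute a b from hc.ab).pow_pow k l).symm
    have et : t = w ^ m * a ^ k * (b ^ l * (y ^ j)⁻¹ * (x ^ i)⁻¹) := by
      have h0 : t = (x ^ i * y ^ j * a ^ k * b ^ l * w ^ m)⁻¹ := by rw [← e, inv_inv]
      have hwi : (w ^ m)⁻¹ = w ^ m := by rw [← inv_pow, inv_of_sq hc.w2]
      have hai : (a ^ k)⁻¹ = a ^ k := by rw [← inv_pow, inv_of_sq hc.a2]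
      have hbi : (b ^ l)⁻¹ = b ^ l := by rw [← inv_pow, inv_of_sq hc.b2]
      rw [h0, mul_inv_rev, mul_inv_rev, mul_inv_rev, mul_inv_rev, hwi, hai, hbi]
      simp only [mul_assoc]
      rw [← mul_assoc (b ^ l), hab.eq, mul_assoc]
    refine ⟨(⟨m % 2, Nat.mod_lt _ (by norm_num)⟩, ⟨k % 2, Nat.mod_lt _ (by norm_num)⟩,
      ⟨b ^ l * (y ^ j)⁻¹ * (x ^ i)⁻¹, Subgroup.mul_mem _ (Subgroup.mul_mem _
        (Subgroup.pow_mem _ hbC l) (Subgroup.inv_mem _ (Subgroup.pow_mem _ hyC j)))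
        (Subgroup.inv_mem _ (Subgroup.pow_mem _ hxC i))⟩), Subtype.ext ?_⟩
    show w ^ (m % 2) * a ^ (k % 2) * (b ^ l * (y ^ j)⁻¹ * (x ^ i)⁻¹) = t
    rw [← pow_mod_two hc.w2, ← pow_mod_two hc.a2, ← et]
  have hbij : Function.Bijective Φ :=
    (Fintype.bijective_iff_surjective_and_card Φ).2 ⟨hsurj, by
      simp only [Fintype.card_prod, Fintype.card_fin]
      rw [← Nat.card_eq_fintype_card, ← Nat.card_eq_fintype_card, hc.cardN, hcard]⟩
  have h2 : ∀ (m k : Fin 2), ∑ c : ↥(Subgroup.centralizer ({x} : Set G)),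
      F (w ^ (m : ℕ) * a ^ (k : ℕ) * (c : G)) = 18 * F (w ^ (m : ℕ) * a ^ (k : ℕ)) := by
    intro m k
    rw [Finset.sum_congr rfl (fun c _ => hFC _ _ c.2), Finset.sum_const, Finset.card_univ,
      ← Nat.card_eq_fintype_card, hcard]
    simp
  rw [h1, ← Fintype.sum_bijective Φ hbij (fun p => F ((Φ p : ↥N) : G)) (fun t => F (t : G))
    (fun _ => rfl)]
  simp only [Fintype.sum_prod_type, Φ, h2]
  simp only [Fin.sum_univ_two, Fin.val_zero, Fin.val_one, pow_zero, pow_one, one_mul, mul_one]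
  ring

/-- The square of an element of `C_G(x)` lies in `T`. -/
theorem sq_mem_T [Finite G] (hNF : NF.{u}) (hc : Cfg T N x y a b w) (c : G)
    (hcC : c ∈ Subgroup.centralizer ({x} : Set G)) : c ^ 4 ∈ T := by
  obtain ⟨hT, hN, huniq, hprod, hcent, hfg, hcard⟩ := hNF hc
  obtain ⟨i, j, l, rfl⟩ := (hcent c).1 hcC
  have h2 : (x ^ i * y ^ j * b ^ l) ^ 2 ∈ T := by
    have e := hprod i j 0 l 0 i j 0 l 0
    simp only [pow_zero, mul_one, Nat.zero_mod, if_true, add_zero] at e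
    rw [sq, e]
    have hb : b ^ (l + l) = 1 := by rw [← two_mul, pow_mul, hc.b2, one_pow]
    rw [hb, mul_one]
    exact (hT _).2 ⟨_, _, rfl⟩
  have e4 : (x ^ i * y ^ j * b ^ l) ^ 4 = ((x ^ i * y ^ j * b ^ l) ^ 2) ^ 2 := by
    rw [← pow_mul]
  rw [e4]
  exact T.pow_mem h2 2

/-- The induced value as a sum of four terms. -/
theorem ind_eq [Fintype G] (hNF : NF.{u}) (hTI : TI.{u}) (hc : Cfg T N x y a b w)
    (φ : Subgroup.centralizer ({x} : Set G) → ℂ)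
    (hφ : ∀ c d : Subgroup.centralizer ({x} : Set G), φ (d⁻¹ * c * d) = φ c)
    (u v : G) (hv : v ∈ T) (hv1 : v ≠ 1) (huv : u ^ 4 = v) :
    indFun (Subgroup.centralizer ({x} : Set G)) φ u =
      extendByZero (Subgroup.centralizer ({x} : Set G)) φ u +
        extendByZero (Subgroup.centralizer ({x} : Set G)) φ (a⁻¹ * u * a) +
        extendByZero (Subgroup.centralizer ({x} : Set G)) φ (w⁻¹ * u * w) +
        extendByZero (Subgroup.centralizer ({x} : Set G)) φ ((w * a)⁻¹ * u * (w * a)) := by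
  classical
  obtain ⟨hT, hN, huniq, hprod, hcent, hfg, hcard⟩ := hNF hc
  rw [indFun_apply, sum_eq hNF hc
    (fun t => extendByZero (Subgroup.centralizer ({x} : Set G)) φ (t⁻¹ * u * t)) ?_ ?_, hcard]
  · simp only [inv_one, one_mul, mul_one]
    push_cast
    ring
  · intro t ht
    apply extendByZero_apply_of_not_mem
    intro hmem
    apply ht
    have h4 : (t⁻¹ * u * t) ^ 4 ∈ T := sq_mem_T hNF hc _ hmem
    have e : (t⁻¹ * u * t) ^ 4 = t⁻¹ * v * t⁻¹⁻¹ := by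
      have e0 := conj_pow (a := t⁻¹) (b := u) (i := 4)
      rw [inv_inv] at e0 ⊢
      rw [e0, huv]
    rw [e] at h4
    have h5 := hTI hc t⁻¹ v hv hv1 h4
    simpa using N.inv_mem h5
  · intro t c hcC
    show extendByZero _ φ ((t * c)⁻¹ * u * (t * c)) = extendByZero _ φ (t⁻¹ * u * t)
    have e : (t * c)⁻¹ * u * (t * c) = c⁻¹ * (t⁻¹ * u * t) * c := by group
    rw [e]
    by_cases hm : t⁻¹ * u * t ∈ Subgroup.centralizer ({x} : Set G)
    · have hm' : c⁻¹ * (t⁻¹ * u * t) * c ∈ Subgroup.centralizer ({x} : Set G) :=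
        Subgroup.mul_mem _ (Subgroup.mul_mem _ (Subgroup.inv_mem _ hcC) hm) hcC
      rw [extendByZero_apply_of_mem _ _ hm', extendByZero_apply_of_mem _ _ hm]
      exact hφ ⟨_, hm⟩ ⟨c, hcC⟩
    · have hm' : c⁻¹ * (t⁻¹ * u * t) * c ∉ Subgroup.centralizer ({x} : Set G) := fun h' =>
        hm (by
          have h6 := Subgroup.mul_mem _ (Subgroup.mul_mem _ hcC h') (Subgroup.inv_mem _ hcC)
          simpa [mul_assoc] using h6)
      rw [extendByZero_apply_of_not_mem _ _ hm', extendByZero_apply_of_not_mem _ _ hm]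

/-- Values of the two local functions on `C_G(x)`. -/
theorem val_C [Finite G] (hNF : NF.{u}) (hc : Cfg T N x y a b w)
    (f g : Subgroup.centralizer ({x} : Set G) →* ℂˣ) (hO : Om2 x y b f g) (v : G) (i j l : ℕ)
    (hv : v = x ^ i * y ^ j * b ^ l) :
    extendByZero (Subgroup.centralizer ({x} : Set G)) (ph1 x f) v =
        1 - ((f ⟨x, x_mem_C⟩ : ℂˣ) : ℂ) ^ i ∧
      extendByZero (Subgroup.centralizer ({x} : Set G)) (ph2 x f g) v =
        (-1) ^ l * (1 - ((f ⟨x, x_mem_C⟩ : ℂˣ) : ℂ) ^ i) := by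
  obtain ⟨hT, hN, huniq, hprod, hcent, hfg, hcard⟩ := hNF hc
  subst hv
  have hm : x ^ i * y ^ j * b ^ l ∈ Subgroup.centralizer ({x} : Set G) :=
    (hcent _).2 ⟨i, j, l, rfl⟩
  obtain ⟨h1, h2⟩ := hfg f g hO i j l hm x_mem_C
  rw [extendByZero_apply_of_mem _ _ hm, extendByZero_apply_of_mem _ _ hm]
  unfold ph1 ph2
  rw [h1, h2]
  push_cast
  constructor
  · ring
  · ring

/-- Elements outside `C_G(x)`. -/
theorem val_out [Finite G] (hNF : NF.{u}) (hc : Cfg T N x y a b w)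
    (φ : Subgroup.centralizer ({x} : Set G) → ℂ) (v : G) (i j k l m : ℕ)
    (hv : v = x ^ i * y ^ j * a ^ k * b ^ l * w ^ m) (h : k % 2 = 1 ∨ m % 2 = 1) :
    extendByZero (Subgroup.centralizer ({x} : Set G)) φ v = 0 := by
  obtain ⟨hT, hN, huniq, hprod, hcent, hfg, hcard⟩ := hNF hc
  subst hv
  apply extendByZero_apply_of_not_mem
  intro hm
  obtain ⟨i', j', l', e⟩ := (hcent _).1 hm
  have e' : x ^ i * y ^ j * a ^ k * b ^ l * w ^ m = x ^ i' * y ^ j' * a ^ 0 * b ^ l' * w ^ 0 := by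
    rw [e]
    simp
  obtain ⟨-, -, h3, -, h5⟩ := huniq _ _ _ _ _ _ _ _ _ _ e'
  omega

/-- `ph1` is a class function on `C_G(x)`. -/
theorem ph1_class (f : Subgroup.centralizer ({x} : Set G) →* ℂˣ)
    (c d : Subgroup.centralizer ({x} : Set G)) : ph1 x f (d⁻¹ * c * d) = ph1 x f c := by
  unfold ph1
  rw [map_mul, map_mul, map_inv, mul_comm, ← mul_assoc, mul_inv_cancel, one_mul]

/-- `ph2` is a class function on `C_G(x)`. -/
theorem ph2_class (f g : Subgroup.centralizer ({x} : Set G) →* ℂˣ)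
    (c d : Subgroup.centralizer ({x} : Set G)) : ph2 x f g (d⁻¹ * c * d) = ph2 x f g c := by
  unfold ph2
  have e1 : f (d⁻¹ * c * d) = f c := by
    rw [map_mul, map_mul, map_inv, mul_comm, ← mul_assoc, mul_inv_cancel, one_mul]
  have e2 : g (d⁻¹ * c * d) = g c := by
    rw [map_mul, map_mul, map_inv, mul_comm, ← mul_assoc, mul_inv_cancel, one_mul]
  rw [e1, e2]

/-- The cube root of unity. -/
theorem omega_eq (hc : Cfg T N x y a b w)
    (f g : Subgroup.centralizer ({x} : Set G) →* ℂˣ) (hO : Om2 x y b f g) :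
    ((f ⟨x, x_mem_C⟩ : ℂˣ) : ℂ) ^ 2 + ((f ⟨x, x_mem_C⟩ : ℂˣ) : ℂ) + 1 = 0 := by
  have h3 : f ⟨x, x_mem_C⟩ ^ 3 = 1 := by
    rw [← map_pow]
    have : (⟨x, x_mem_C⟩ : Subgroup.centralizer ({x} : Set G)) ^ 3 = 1 :=
      Subtype.ext (by simpa using hc.x3)
    rw [this, map_one]
  have h1 : f ⟨x, x_mem_C⟩ ≠ 1 := hO.fx x_mem_C
  generalize f ⟨x, x_mem_C⟩ = z at h3 h1 ⊢
  have hc3 : (z : ℂ) ^ 3 = 1 := by
    have := congrArg Units.val h3
    simpa using this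
  have hc1 : (z : ℂ) ≠ 1 := fun h => h1 (Units.ext h)
  have h0 : ((z : ℂ) - 1) * ((z : ℂ) ^ 2 + (z : ℂ) + 1) = 0 := by
    have : ((z : ℂ) - 1) * ((z : ℂ) ^ 2 + (z : ℂ) + 1) = (z : ℂ) ^ 3 - 1 := by ring
    rw [this, hc3, sub_self]
  rcases mul_eq_zero.1 h0 with h | h
  · exact absurd (sub_eq_zero.1 h) hc1
  · exact h

/-- Conjugation is multiplicative. -/
theorem conj_mul (r u₁ u₂ : G) : r⁻¹ * (u₁ * u₂) * r = (r⁻¹ * u₁ * r) * (r⁻¹ * u₂ * r) := by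
  group

theorem conj_wa (u : G) : (w * a)⁻¹ * u * (w * a) = a⁻¹ * (w⁻¹ * u * w) * a := by group

/-- The basic conjugation relations. -/
structure Rel (x y a b w : G) : Prop where
  ax : a⁻¹ * x * a = x ^ 2
  ay : a⁻¹ * y * a = y
  ab : a⁻¹ * b * a = b
  aw : a⁻¹ * w * a = a * b * w
  wx : w⁻¹ * x * w = y
  wy : w⁻¹ * y * w = x
  wa : w⁻¹ * a * w = b
  wb : w⁻¹ * b * w = a
  xyw : w⁻¹ * (x * y * w) * w = x * y * w
  x4 : x ^ 4 = x
  xy4 : (x * y) ^ 4 = x * y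
  xb4 : (x * b) ^ 4 = x
  xyw4 : (x * y * w) ^ 4 = x * y
  xy1 : x * y ≠ 1
  yx2 : y * x ^ 2 = x ^ 2 * y

theorem rel (hc : Cfg T N x y a b w) : Rel x y a b w := by
  have ha : a⁻¹ = a := inv_of_sq hc.a2
  have hb : b⁻¹ = b := inv_of_sq hc.b2
  have hw : w⁻¹ = w := inv_of_sq hc.w2
  have hxi : x⁻¹ = x ^ 2 := inv_eq_of_mul_eq_one_right (by rw [← pow_succ', hc.x3])
  have wx' : w⁻¹ * x * w = y := by
    have h := hc.wx
    rw [hw] at h ⊢
    exact h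
  have wy' : w⁻¹ * y * w = x := by
    rw [← hc.wx]
    group
  have wcomm : w * (x * y) = x * y * w := by
    have e1 : w * x = y * w := by
      have h := wx'
      rw [hw] at h
      rw [← h]
      simp only [mul_assoc]
      rw [← sq, hc.w2, mul_one]
    have e2 : w * y = x * w := by
      have h := wy'
      rw [hw] at h
      rw [← h]
      simp only [mul_assoc]
      rw [← sq, hc.w2, mul_one]
    calc w * (x * y) = y * w * y := by rw [← mul_assoc, e1]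
      _ = y * (x * w) := by rw [mul_assoc, e2]
      _ = x * y * w := by rw [← mul_assoc, ← hc.xy]
  have hxy3 : (x * y) ^ 3 = 1 := by
    rw [(show Commute x y from hc.xy).mul_pow, hc.x3, hc.y3, one_mul]
  have hxy4 : (x * y) ^ 4 = x * y := by rw [pow_succ, hxy3, one_mul]
  have hx4 : x ^ 4 = x := by rw [pow_succ, hc.x3, one_mul]
  refine ⟨?_, ?_, ?_, ?_, wx', wy', ?_, ?_, ?_, hx4, hxy4, ?_, ?_, ?_, ?_⟩
  · rw [← hxi, ← hc.ax, ha]
  · rw [mul_assoc, ← hc.ay, inv_mul_cancel_left]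
  · rw [mul_assoc, ← hc.ab, inv_mul_cancel_left]
  · have h : w * a = b * w := by
      have h := hc.wa
      rw [mul_inv_eq_iff_eq_mul] at h
      exact h
    rw [mul_assoc, h, ha, mul_assoc]
  · have h := hc.wa
    rw [hw] at h ⊢
    exact h
  · rw [← hc.wa]
    group
  · calc w⁻¹ * (x * y * w) * w = w⁻¹ * (w * (x * y)) * w := by rw [wcomm]
      _ = x * y * w := by group
  · have hb4 : b ^ 4 = 1 := by
      rw [show 4 = 2 * 2 from rfl, pow_mul, hc.b2, one_pow]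
    rw [(show Commute x b from hc.bx.symm).mul_pow, hx4, hb4, mul_one]
  · have hw4 : w ^ 4 = 1 := by
      rw [show 4 = 2 * 2 from rfl, pow_mul, hc.w2, one_pow]
    have hcm : Commute (x * y) w := show x * y * w = w * (x * y) from wcomm.symm
    rw [hcm.mul_pow, hxy4, hw4, mul_one]
  · intro h
    apply hc.yx
    have : y = x⁻¹ := (inv_eq_of_mul_eq_one_right h).symm
    rw [this]
    exact Subgroup.inv_mem _ (Subgroup.mem_zpowers x)
  · exact (((show Commute x y from hc.xy).pow_left 2).eq).symm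

/-- The sixteen conjugates in normal form. -/
structure Conj (x y a b w : G) : Prop where
  x1 : x = x ^ 1 * y ^ 0 * b ^ 0
  x2 : a⁻¹ * x * a = x ^ 2 * y ^ 0 * b ^ 0
  x3 : w⁻¹ * x * w = x ^ 0 * y ^ 1 * b ^ 0
  x4 : (w * a)⁻¹ * x * (w * a) = x ^ 0 * y ^ 1 * b ^ 0
  xy1 : x * y = x ^ 1 * y ^ 1 * b ^ 0
  xy2 : a⁻¹ * (x * y) * a = x ^ 2 * y ^ 1 * b ^ 0
  xy3 : w⁻¹ * (x * y) * w = x ^ 1 * y ^ 1 * b ^ 0
  xy4 : (w * a)⁻¹ * (x * y) * (w * a) = x ^ 2 * y ^ 1 * b ^ 0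
  xb1 : x * b = x ^ 1 * y ^ 0 * b ^ 1
  xb2 : a⁻¹ * (x * b) * a = x ^ 2 * y ^ 0 * b ^ 1
  xb3 : w⁻¹ * (x * b) * w = x ^ 0 * y ^ 1 * a ^ 1 * b ^ 0 * w ^ 0
  xb4 : (w * a)⁻¹ * (x * b) * (w * a) = x ^ 0 * y ^ 1 * a ^ 1 * b ^ 0 * w ^ 0
  xyw1 : x * y * w = x ^ 1 * y ^ 1 * a ^ 0 * b ^ 0 * w ^ 1
  xyw2 : a⁻¹ * (x * y * w) * a = x ^ 2 * y ^ 1 * a ^ 1 * b ^ 1 * w ^ 1
  xyw3 : w⁻¹ * (x * y * w) * w = x ^ 1 * y ^ 1 * a ^ 0 * b ^ 0 * w ^ 1
  xyw4 : (w * a)⁻¹ * (x * y * w) * (w * a) = x ^ 2 * y ^ 1 * a ^ 1 * b ^ 1 * w ^ 1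

theorem conj_nf (hc : Cfg T N x y a b w) : Conj x y a b w := by
  have r := rel hc
  have xyw2 : a⁻¹ * (x * y * w) * a = x ^ 2 * y ^ 1 * a ^ 1 * b ^ 1 * w ^ 1 := by
    rw [conj_mul, conj_mul, r.ax, r.ay, r.aw]
    simp [mul_assoc]
  refine ⟨by simp, ?_, ?_, ?_, by simp, ?_, ?_, ?_, by simp, ?_, ?_, ?_, by simp, xyw2, ?_, ?_⟩
  · rw [r.ax]; simp
  · rw [r.wx]; simp
  · rw [conj_wa, r.wx, r.ay]; simp
  · rw [conj_mul, r.ax, r.ay]; simp
  · rw [conj_mul, r.wx, r.wy, ← hc.xy]; simp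
  · rw [conj_wa, conj_mul w, r.wx, r.wy, conj_mul a, r.ay, r.ax, r.yx2]; simp
  · rw [conj_mul, r.ax, r.ab]; simp
  · rw [conj_mul, r.wx, r.wb]; simp
  · rw [conj_wa, conj_mul w, r.wx, r.wb, conj_mul a, r.ay]; simp
  · rw [r.xyw]; simp
  · rw [conj_wa, r.xyw, xyw2]

theorem main (hNF : NF.{u}) (hTI : TI.{u}) : VALA.{u} := by
  intro G _ _ T N x y a b w hc f g hO
  have r := rel hc
  have cj := conj_nf hc
  have hω := omega_eq hc f g hO
  have V := fun v i j l hv => (val_C hNF hc f g hO v i j l hv).1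
  have Z := fun v i j k l m hv h => val_out hNF hc (ph1 x f) v i j k l m hv h
  refine ⟨?_, ?_, ?_, ?_⟩
  · unfold th1
    rw [ind_eq hNF hTI hc (ph1 x f) (ph1_class f) x x hc.xT hc.x1 r.x4,
      V _ _ _ _ cj.x1, V _ _ _ _ cj.x2, V _ _ _ _ cj.x3, V _ _ _ _ cj.x4]
    linear_combination (-1 : ℂ) * hω
  · unfold th1
    rw [ind_eq hNF hTI hc (ph1 x f) (ph1_class f) (x * y) (x * y) (T.mul_mem hc.xT hc.yT) r.xy1
      r.xy4, V _ _ _ _ cj.xy1, V _ _ _ _ cj.xy2, V _ _ _ _ cj.xy3, V _ _ _ _ cj.xy4]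
    linear_combination (-2 : ℂ) * hω
  · unfold th1
    rw [ind_eq hNF hTI hc (ph1 x f) (ph1_class f) (x * b) x hc.xT hc.x1 r.xb4,
      V _ _ _ _ cj.xb1, V _ _ _ _ cj.xb2, Z _ _ _ _ _ _ cj.xb3 (Or.inl rfl),
      Z _ _ _ _ _ _ cj.xb4 (Or.inl rfl)]
    linear_combination (-1 : ℂ) * hω
  · unfold th1
    rw [ind_eq hNF hTI hc (ph1 x f) (ph1_class f) (x * y * w) (x * y) (T.mul_mem hc.xT hc.yT)
      r.xy1 r.xyw4, Z _ _ _ _ _ _ cj.xyw1 (Or.inr rfl), Z _ _ _ _ _ _ cj.xyw2 (Or.inl rfl),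
      Z _ _ _ _ _ _ cj.xyw3 (Or.inr rfl), Z _ _ _ _ _ _ cj.xyw4 (Or.inl rfl)]
    ring

end Cfsg.Agent.Lib.Helper30.D8VALA
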