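import Mathlib
import Cfsg.Agent.Lib.Helper32.D8Stmt
import Cfsg.Agent.Lib.CT.FrobRec
import Cfsg.Agent.Lib.Helper30.D8VALA

/-!
# S3716 piece VALB: values of `th2`

Same computation as VALA (`Cfsg.Agent.Lib.Helper30.D8VALA`), with the sign character.
Takes `NF` and `TI` as hypotheses.
-/

set_option autoImplicit false

namespace Cfsg.Agent.Lib.Helper30.D8VALB

open Cfsg
open Cfsg.Agent.Lib.Helper32
open Cfsg.Agent.Lib.Helper32.D8Stmt
open Cfsg.Agent.Lib.CT.FrobRec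
open Cfsg.Agent.Lib.Helper30.D8VALA

universe u

theorem main (hNF : NF.{u}) (hTI : TI.{u}) : VALB.{u} := by
  intro G _ _ T N x y a b w hc f g hO
  have r := rel hc
  have cj := conj_nf hc
  have hω := omega_eq hc f g hO
  have V := fun v i j l hv => (val_C hNF hc f g hO v i j l hv).2
  have Z := fun v i j k l m hv h => val_out hNF hc (ph2 x f g) v i j k l m hv h
  refine ⟨?_, ?_, ?_, ?_⟩
  · unfold th2
    rw [ind_eq hNF hTI hc (ph2 x f g) (ph2_class f g) x x hc.xT hc.x1 r.x4,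
      V _ _ _ _ cj.x1, V _ _ _ _ cj.x2, V _ _ _ _ cj.x3, V _ _ _ _ cj.x4]
    linear_combination (-1 : ℂ) * hω
  · unfold th2
    rw [ind_eq hNF hTI hc (ph2 x f g) (ph2_class f g) (x * y) (x * y) (T.mul_mem hc.xT hc.yT)
      r.xy1 r.xy4, V _ _ _ _ cj.xy1, V _ _ _ _ cj.xy2, V _ _ _ _ cj.xy3, V _ _ _ _ cj.xy4]
    linear_combination (-2 : ℂ) * hω
  · unfold th2
    rw [ind_eq hNF hTI hc (ph2 x f g) (ph2_class f g) (x * b) x hc.xT hc.x1 r.xb4,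
      V _ _ _ _ cj.xb1, V _ _ _ _ cj.xb2, Z _ _ _ _ _ _ cj.xb3 (Or.inl rfl),
      Z _ _ _ _ _ _ cj.xb4 (Or.inl rfl)]
    linear_combination (1 : ℂ) * hω
  · unfold th2
    rw [ind_eq hNF hTI hc (ph2 x f g) (ph2_class f g) (x * y * w) (x * y)
      (T.mul_mem hc.xT hc.yT) r.xy1 r.xyw4, Z _ _ _ _ _ _ cj.xyw1 (Or.inr rfl),
      Z _ _ _ _ _ _ cj.xyw2 (Or.inl rfl), Z _ _ _ _ _ _ cj.xyw3 (Or.inr rfl),
      Z _ _ _ _ _ _ cj.xyw4 (Or.inl rfl)]
    ring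

end Cfsg.Agent.Lib.Helper30.D8VALB
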