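import Mathlib
import Cfsg.Agent.Lib.Helper40.GFStmt

/-!
# S5886 piece ALL1A: for `k ≥ 3`, one special transvection in `c.M` gives all special ones
-/

set_option autoImplicit false

namespace Cfsg.Agent.Lib.Helper30.GFALL1A

open Cfsg.Agent.Lib.Helper40.GFStmt

universe u

variable {F L : Type u} [Field F] [Field L] [Algebra F L] {k : ℕ}

/-- the `F`-transvection `(z, φ)` lies in `c.M` -/
def P (c : Ctx F L k) (τ : L →ₗ[F] F) (z : V k L) (φ : V k L →ₗ[L] L) : Prop :=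
  ∃ e ∈ c.M, IsFtv τ e z φ

theorem P_add (c : Ctx F L k) (τ : L →ₗ[F] F) (z : V k L) (φ φ' : V k L →ₗ[L] L)
    (h0 : φ z = 0) (h : P c τ z φ) (h' : P c τ z φ') : P c τ z (φ + φ') := by
  obtain ⟨e, he, hx⟩ := h
  obtain ⟨e', he', hx'⟩ := h'
  refine ⟨e * e', c.M.mul_mem he he', fun x => ?_⟩
  rw [LinearEquiv.mul_apply, hx' x, hx (x + τ (φ' x) • z), map_add φ,
    LinearMap.map_smul_of_tower, h0, smul_zero, add_zero, LinearMap.add_apply, map_add τ,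
    add_smul]
  abel

theorem P_neg (c : Ctx F L k) (τ : L →ₗ[F] F) (z : V k L) (φ : V k L →ₗ[L] L)
    (h0 : φ z = 0) (h : P c τ z φ) : P c τ z (-φ) := by
  obtain ⟨e, he, hx⟩ := h
  refine ⟨e⁻¹, c.M.inv_mem he, fun x => ?_⟩
  apply e.injective
  have h1 : e (e⁻¹ x) = x := by
    rw [← LinearEquiv.mul_apply, mul_inv_cancel]
    rfl
  rw [h1, hx (x + τ ((-φ) x) • z), map_add φ, LinearMap.map_smul_of_tower, h0, smul_zero,
    add_zero, LinearMap.neg_apply, map_neg τ, neg_smul]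
  abel

/-- conjugation by the `L`-transvection `x ↦ x + χ x • u` -/
theorem P_conj (c : Ctx F L k) (τ : L →ₗ[F] F) (z : V k L) (φ : V k L →ₗ[L] L)
    (χ : V k L →ₗ[L] L) (u : V k L) (hχ : χ u = 0) (h : P c τ z φ) :
    P c τ (z + χ z • u) (φ - φ u • χ) := by
  obtain ⟨e, he, hx⟩ := h
  have htM : (LinearEquiv.transvection hχ).restrictScalars F ∈ c.M := mem_tv c χ u hχ
  have ht_apply : ∀ x, ((LinearEquiv.transvection hχ).restrictScalars F) x = x + χ x • u :=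
    fun x => LinearEquiv.transvection.apply hχ x
  generalize (LinearEquiv.transvection hχ).restrictScalars F = t at htM ht_apply
  refine ⟨t * e * t⁻¹, c.M.mul_mem (c.M.mul_mem htM he) (c.M.inv_mem htM), fun x => ?_⟩
  obtain ⟨x', rfl⟩ := t.surjective x
  have h1 : t⁻¹ (t x') = x' := by
    rw [← LinearEquiv.mul_apply, inv_mul_cancel]
    rfl
  have h2 : (φ - φ u • χ) (x' + χ x' • u) = φ x' := by
    rw [LinearMap.sub_apply, LinearMap.smul_apply, map_add, map_add, map_smul, map_smul, hχ]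
    simp only [smul_eq_mul, mul_zero, add_zero]
    ring
  rw [LinearEquiv.mul_apply, LinearEquiv.mul_apply, h1, hx x', map_add t, map_smul t, ht_apply,
    ht_apply, h2]

/-- a nonzero functional vanishing at two vectors (`k ≥ 3`) -/
theorem exists_two (hk : 3 ≤ k) (z v : V k L) :
    ∃ χ' : V k L →ₗ[L] L, χ' ≠ 0 ∧ χ' z = 0 ∧ χ' v = 0 := by
  classical
  have hlt : Submodule.span L ({z, v} : Set (V k L)) < ⊤ := by
    rw [lt_top_iff_ne_top]
    intro htop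
    have h1 : Module.finrank L (Submodule.span L ({z, v} : Set (V k L))) ≤ 2 := by
      have h2 := finrank_span_finset_le_card (R := L) ({z, v} : Finset (V k L))
      have h3 : (({z, v} : Finset (V k L)) : Set (V k L)) = {z, v} := by simp
      rw [h3] at h2
      exact h2.trans Finset.card_le_two
    rw [htop, finrank_top, Module.finrank_fin_fun] at h1
    omega
  obtain ⟨f, hf0, hf⟩ := Submodule.exists_le_ker_of_lt_top _ hlt
  exact ⟨f, hf0, LinearMap.mem_ker.1 (hf (Submodule.subset_span (by simp))),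
    LinearMap.mem_ker.1 (hf (Submodule.subset_span (by simp)))⟩

theorem exists_ne_zero_apply (χ : V k L →ₗ[L] L) (h : χ ≠ 0) : ∃ v, χ v ≠ 0 := by
  by_contra hcon
  push Not at hcon
  exact h (LinearMap.ext hcon)

/-- for fixed `z`, one nonzero special `φ₀` gives all `χ` with `χ z = 0` -/
theorem claimA (hk : 3 ≤ k) (c : Ctx F L k) (τ : L →ₗ[F] F) (z : V k L)
    (φ₀ : V k L →ₗ[L] L) (hφ₀ : φ₀ ≠ 0) (h0 : φ₀ z = 0) (hP : P c τ z φ₀)
    (χ : V k L →ₗ[L] L) (hχ : χ z = 0) : P c τ z χ := by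
  have A1 : ∀ (y : V k L) (χ : V k L →ₗ[L] L), χ z = 0 → χ y = 0 → P c τ z (φ₀ y • χ) := by
    intro y χ hχz hχy
    have h1 := P_conj c τ z φ₀ χ y hχy hP
    rw [hχz, zero_smul, add_zero] at h1
    have h3 : (φ₀ - φ₀ y • χ) z = 0 := by
      rw [LinearMap.sub_apply, LinearMap.smul_apply, h0, hχz, smul_zero, sub_zero]
    have h2 := P_add c τ z φ₀ (-(φ₀ - φ₀ y • χ)) h0 hP (P_neg c τ z _ h3 h1)
    have e : φ₀ + -(φ₀ - φ₀ y • χ) = φ₀ y • χ := by abel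
    rwa [e] at h2
  have A2 : ∀ (y : V k L) (χ : V k L →ₗ[L] L), χ z = 0 → χ y = 0 → φ₀ y ≠ 0 → P c τ z χ := by
    intro y χ hχz hχy hy
    have h := A1 y ((φ₀ y)⁻¹ • χ)
      (by rw [LinearMap.smul_apply, hχz, smul_zero])
      (by rw [LinearMap.smul_apply, hχy, smul_zero])
    have e : φ₀ y • ((φ₀ y)⁻¹ • χ) = χ := by rw [smul_smul, mul_inv_cancel₀ hy, one_smul]
    rwa [e] at h
  by_cases hex : ∃ y, χ y = 0 ∧ φ₀ y ≠ 0
  · obtain ⟨y, hy1, hy2⟩ := hex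
    exact A2 y χ hχ hy1 hy2
  · push Not at hex
    have hχ0 : χ ≠ 0 := by
      rintro rfl
      exact hφ₀ (LinearMap.ext (fun y => hex y (LinearMap.zero_apply y)))
    obtain ⟨v₀, hv₀⟩ := exists_ne_zero_apply χ hχ0
    have hχv : χ ((χ v₀)⁻¹ • v₀) = 1 := by
      rw [map_smul, smul_eq_mul, inv_mul_cancel₀ hv₀]
    generalize (χ v₀)⁻¹ • v₀ = v at hχv
    have hφ : ∀ x, φ₀ x = χ x * φ₀ v := by
      intro x
      have h1 := hex (x - χ x • v)
        (by rw [map_sub, map_smul, hχv, smul_eq_mul, mul_one, sub_self])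
      rw [map_sub, map_smul, smul_eq_mul, sub_eq_zero] at h1
      exact h1
    have hb : φ₀ v ≠ 0 := by
      intro hb
      apply hφ₀
      refine LinearMap.ext (fun x => ?_)
      rw [hφ, hb, mul_zero]
      rfl
    obtain ⟨χ', hχ'0, hχ'z, hχ'v⟩ := exists_two hk z v
    obtain ⟨v', hv'⟩ := exists_ne_zero_apply χ' hχ'0
    have hP1 : P c τ z χ' := A2 v χ' hχ'z hχ'v hb
    have hχy : χ (v + (χ' v')⁻¹ • (v' - χ v' • v)) = 1 := by
      rw [map_add, map_smul, map_sub, map_smul, hχv]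
      simp
    have hχ'y : χ' (v + (χ' v')⁻¹ • (v' - χ v' • v)) = 1 := by
      rw [map_add, map_smul, map_sub, map_smul, hχ'v, smul_zero, sub_zero, zero_add, smul_eq_mul,
        inv_mul_cancel₀ hv']
    generalize v + (χ' v')⁻¹ • (v' - χ v' • v) = y₂ at hχy hχ'y
    have hP2 : P c τ z (χ - χ') := A2 y₂ (χ - χ')
      (by rw [LinearMap.sub_apply, hχ, hχ'z, sub_self])
      (by rw [LinearMap.sub_apply, hχy, hχ'y, sub_self])
      (by rw [hφ, hχy, one_mul]; exact hb)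
    have h5 := P_add c τ z χ' (χ - χ') hχ'z hP1 hP2
    have e : χ' + (χ - χ') = χ := by abel
    rwa [e] at h5

/-- one step along an `L`-transvection -/
theorem stepB (c : Ctx F L k) (τ : L →ₗ[F] F) (z₁ z₂ : V k L) (φ₁ : V k L →ₗ[L] L)
    (hφ₁ : φ₁ ≠ 0) (h0 : φ₁ z₁ = 0) (hP : P c τ z₁ φ₁) (χ : V k L →ₗ[L] L)
    (h1 : χ z₁ = 1) (h2 : χ z₂ = 1) :
    ∃ φ₂ : V k L →ₗ[L] L, φ₂ ≠ 0 ∧ φ₂ z₂ = 0 ∧ P c τ z₂ φ₂ := by
  have hu : χ (z₂ - z₁) = 0 := by rw [map_sub, h1, h2, sub_self]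
  have h := P_conj c τ z₁ φ₁ χ (z₂ - z₁) hu hP
  have e : z₁ + χ z₁ • (z₂ - z₁) = z₂ := by
    rw [h1, one_smul]
    abel
  rw [e] at h
  refine ⟨φ₁ - φ₁ (z₂ - z₁) • χ, ?_, ?_, h⟩
  · intro h3
    have h4 : (φ₁ - φ₁ (z₂ - z₁) • χ) z₁ = 0 := by rw [h3]; rfl
    rw [LinearMap.sub_apply, LinearMap.smul_apply, h0, h1, smul_eq_mul, mul_one, zero_sub,
      neg_eq_zero] at h4
    apply hφ₁
    rw [h4, zero_smul, sub_zero] at h3
    exact h3
  · rw [LinearMap.sub_apply, LinearMap.smul_apply, h2, smul_eq_mul, mul_one, map_sub, h0]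
    ring

theorem exists_coord (z : V k L) (hz : z ≠ 0) : ∃ i, z i ≠ 0 := by
  by_contra hcon
  push Not at hcon
  exact hz (funext hcon)

/-- a functional with value `1` at two independent vectors -/
theorem exists_one_one (z₁ z₂ : V k L) (hz₁ : z₁ ≠ 0) (h : ∀ a : L, z₂ ≠ a • z₁) :
    ∃ χ : V k L →ₗ[L] L, χ z₁ = 1 ∧ χ z₂ = 1 := by
  have hnot : z₂ ∉ Submodule.span L ({z₁} : Set (V k L)) := by
    intro hmem
    rw [Submodule.mem_span_singleton] at hmem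
    obtain ⟨a, ha⟩ := hmem
    exact h a ha.symm
  obtain ⟨α, hα2, hα⟩ := Submodule.exists_dual_map_eq_bot_of_notMem hnot inferInstance
  have hα1 : α z₁ = 0 := by
    have h1 : α z₁ ∈ (Submodule.span L ({z₁} : Set (V k L))).map α :=
      Submodule.mem_map_of_mem (Submodule.mem_span_singleton_self z₁)
    rw [hα] at h1
    exact (Submodule.mem_bot L).mp h1
  obtain ⟨i, hi⟩ := exists_coord z₁ hz₁
  have hβ1 : ((z₁ i)⁻¹ • (LinearMap.proj i : V k L →ₗ[L] L)) z₁ = 1 := by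
    rw [LinearMap.smul_apply, LinearMap.proj_apply, smul_eq_mul, inv_mul_cancel₀ hi]
  generalize (z₁ i)⁻¹ • (LinearMap.proj i : V k L →ₗ[L] L) = β at hβ1
  refine ⟨β + ((1 - β z₂) / α z₂) • α, ?_, ?_⟩
  · rw [LinearMap.add_apply, LinearMap.smul_apply, hα1, smul_zero, add_zero, hβ1]
  · rw [LinearMap.add_apply, LinearMap.smul_apply, smul_eq_mul, div_mul_cancel₀ _ hα2]
    ring

/-- a vector outside the line of `z₀` (`k ≥ 2`) -/
theorem exists_third (hk : 2 ≤ k) (z₀ : V k L) (hz₀ : z₀ ≠ 0) :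
    ∃ y : V k L, ∀ a : L, y ≠ a • z₀ := by
  classical
  obtain ⟨i, hi⟩ := exists_coord z₀ hz₀
  obtain ⟨j, hj⟩ : ∃ j : Fin k, j ≠ i := by
    by_cases h0 : i = ⟨0, by omega⟩
    · refine ⟨⟨1, by omega⟩, ?_⟩
      rw [h0]
      intro h1
      have := congrArg Fin.val h1
      simp at this
    · exact ⟨⟨0, by omega⟩, fun h => h0 h.symm⟩
  refine ⟨Pi.single j 1, fun a ha => ?_⟩
  have h1 := congrFun ha i
  rw [Pi.single_eq_of_ne (Ne.symm hj), Pi.smul_apply, smul_eq_mul] at h1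
  have ha0 : a = 0 := by
    rcases mul_eq_zero.1 h1.symm with h | h
    · exact h
    · exact absurd h hi
  have h2 := congrFun ha j
  rw [ha0, Pi.single_eq_same, zero_smul] at h2
  exact one_ne_zero h2

/-- every nonzero `z` carries a nonzero special transvection -/
theorem claimB (hk : 2 ≤ k) (c : Ctx F L k) (τ : L →ₗ[F] F) (z₀ : V k L)
    (φ₀ : V k L →ₗ[L] L) (hz₀ : z₀ ≠ 0) (hφ₀ : φ₀ ≠ 0) (h0 : φ₀ z₀ = 0) (hP : P c τ z₀ φ₀)
    (z : V k L) (hz : z ≠ 0) :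
    ∃ φ' : V k L →ₗ[L] L, φ' ≠ 0 ∧ φ' z = 0 ∧ P c τ z φ' := by
  by_cases hdep : ∃ a : L, z = a • z₀
  · obtain ⟨a, rfl⟩ := hdep
    obtain ⟨y, hy⟩ := exists_third hk z₀ hz₀
    obtain ⟨χ₁, h11, h12⟩ := exists_one_one z₀ y hz₀ hy
    obtain ⟨φ₁, hφ₁, h10, hP1⟩ := stepB c τ z₀ y φ₀ hφ₀ h0 hP χ₁ h11 h12
    have hy0 : y ≠ 0 := by
      rintro rfl
      exact hy 0 (zero_smul _ _).symm
    have hy2 : ∀ b : L, a • z₀ ≠ b • y := by
      intro b hb
      have hb0 : b ≠ 0 := by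
        rintro rfl
        rw [zero_smul] at hb
        exact hz hb
      apply hy (b⁻¹ * a)
      rw [mul_smul, hb, smul_smul, inv_mul_cancel₀ hb0, one_smul]
    obtain ⟨χ₂, h21, h22⟩ := exists_one_one y (a • z₀) hy0 hy2
    exact stepB c τ y (a • z₀) φ₁ hφ₁ h10 hP1 χ₂ h21 h22
  · push Not at hdep
    obtain ⟨χ, h1, h2⟩ := exists_one_one z₀ z hz₀ hdep
    exact stepB c τ z₀ z φ₀ hφ₀ h0 hP χ h1 h2

theorem main : All1A.{u} := by
  intro F L _ _ _ k c hk τ hS z φ hφz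
  obtain ⟨e₀, he₀, z₀, φ₀, hz₀, hφ₀, h0, hF⟩ := hS
  by_cases hz : z = 0
  · subst hz
    exact ⟨1, c.M.one_mem, fun x => by rw [smul_zero, add_zero]; rfl⟩
  · obtain ⟨φ', hφ', h0', hP'⟩ :=
      claimB (by omega) c τ z₀ φ₀ hz₀ hφ₀ h0 ⟨e₀, he₀, hF⟩ z hz
    exact claimA hk c τ z φ' hφ' h0' hP' φ hφz

end Cfsg.Agent.Lib.Helper30.GFALL1A
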