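import Mathlib

set_option autoImplicit false

namespace Cfsg.Agent.Lib.Helper30.HupP11

theorem arith_ell (ℓ d f n : ℕ) (hℓ : ℓ.Prime) (hd : 2 ≤ d) (hn : n = f * d) (hf : 1 ≤ f)
    (hge : n + 1 ≤ ℓ) (hdvd : ℓ ∣ d ^ 2 - 1) : ℓ = d + 1 ∧ f = 1 := by
  have hfac : d ^ 2 - 1 = (d - 1) * (d + 1) := by
    obtain ⟨e, rfl⟩ : ∃ e, d = e + 2 := ⟨d - 2, by omega⟩
    have h1 : (e + 2) ^ 2 = (e + 1) * (e + 3) + 1 := by ring
    have h2 : e + 2 - 1 = e + 1 := by omega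
    rw [h1, h2]
    simp
  rw [hfac] at hdvd
  have hfd : d ≤ f * d := Nat.le_mul_of_pos_left d hf
  rcases (Nat.Prime.dvd_mul hℓ).1 hdvd with h | h
  · have := Nat.le_of_dvd (by omega) h
    omega
  · have h3 := Nat.le_of_dvd (by omega) h
    have h4 : ℓ = d + 1 := by omega
    refine ⟨h4, ?_⟩
    have h5 : f * d ≤ 1 * d := by omega
    have h6 : f ≤ 1 := Nat.le_of_mul_le_mul_right h5 (by omega)
    omega

theorem arith_two (d r j : ℕ) (hr : r.Prime) (hd : 2 ≤ d) (h : d ^ 2 = r ^ j)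
    (hpr : (d + 1).Prime) : r = 2 ∧ ∃ k, 1 ≤ k ∧ d = 2 ^ k := by
  have hdd : d ∣ r ^ j := by
    rw [← h]
    exact Dvd.intro_left (d ^ 1) (by ring)
  obtain ⟨i, -, hi⟩ := (Nat.dvd_prime_pow hr).1 hdd
  have hi1 : 1 ≤ i := by
    rcases Nat.eq_zero_or_pos i with h0 | h0
    · subst h0
      simp at hi
      omega
    · exact h0
  have hodd : Odd (d + 1) := by
    rcases hpr.eq_two_or_odd' with h2 | h2
    · omega
    · exact h2
  have heven : Even d := by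
    rcases Nat.even_or_odd d with h2 | h2
    · exact h2
    · exfalso
      have : Even (d + 1) := h2.add_one
      exact (Nat.not_even_iff_odd.2 hodd) this
  have hr2 : r = 2 := by
    rw [hi] at heven
    have h2 : Even r := by
      rcases Nat.even_pow.1 heven with ⟨h3, -⟩
      exact h3
    rcases hr.eq_two_or_odd' with h3 | h3
    · exact h3
    · exact absurd h2 (Nat.not_even_iff_odd.2 h3)
  exact ⟨hr2, i, hi1, by rw [hi, hr2]⟩

theorem arith_k1 (p : ℕ) (hp : p.Prime) (hodd : p ≠ 2) (h : p ^ 2 - 1 ∣ (p - 1) * 24) :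
    p ^ 2 ∈ ({9, 25, 49, 121, 529, 81} : Set ℕ) := by
  have hp2 := hp.two_le
  have hfac : p ^ 2 - 1 = (p - 1) * (p + 1) := by
    obtain ⟨e, rfl⟩ : ∃ e, p = e + 2 := ⟨p - 2, by omega⟩
    have h1 : (e + 2) ^ 2 = (e + 1) * (e + 3) + 1 := by ring
    have h2 : e + 2 - 1 = e + 1 := by omega
    rw [h1, h2]
    simp
  rw [hfac] at h
  have h1 : p + 1 ∣ 24 := (Nat.mul_dvd_mul_iff_left (by omega : 0 < p - 1)).1 h
  have h2 : p + 1 ≤ 24 := Nat.le_of_dvd (by norm_num) h1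
  have h3 : p ≤ 23 := by omega
  simp only [Set.mem_insert_iff, Set.mem_singleton_iff]
  interval_cases p <;> simp_all

theorem arith_ppd_ge (p n ℓ : ℕ) (hp : p.Prime) (hℓ : ℓ.Prime) (hn : 1 ≤ n)
    (hdvd : ℓ ∣ p ^ n - 1) (hprim : ∀ k, 0 < k → k < n → ¬ ℓ ∣ p ^ k - 1) :
    n + 1 ≤ ℓ ∧ ℓ ≠ p := by
  haveI : Fact ℓ.Prime := ⟨hℓ⟩
  have hpos : ∀ k, 1 ≤ p ^ k := fun k => Nat.one_le_pow _ _ hp.pos
  have hne : ℓ ≠ p := by
    rintro rfl
    have h1 : ℓ ∣ ℓ ^ n := dvd_pow_self ℓ (by omega)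
    have h2 : ℓ ∣ ℓ ^ n - (ℓ ^ n - 1) := Nat.dvd_sub h1 hdvd
    have h3 : ℓ ^ n - (ℓ ^ n - 1) = 1 := by have := hpos n; omega
    rw [h3] at h2
    exact hp.one_lt.ne' (Nat.dvd_one.1 h2)
  refine ⟨?_, hne⟩
  have key : ∀ k, ℓ ∣ p ^ k - 1 ↔ (p : ZMod ℓ) ^ k = 1 := by
    intro k
    rw [← ZMod.natCast_eq_zero_iff, Nat.cast_sub (hpos k), Nat.cast_pow, Nat.cast_one, sub_eq_zero]
  have h1 : (p : ZMod ℓ) ^ n = 1 := (key n).1 hdvd
  have hp0 : (p : ZMod ℓ) ≠ 0 := by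
    intro h0
    rw [ZMod.natCast_eq_zero_iff] at h0
    exact hne ((Nat.prime_dvd_prime_iff_eq hℓ hp).1 h0)
  have h2 : (p : ZMod ℓ) ^ (ℓ - 1) = 1 := ZMod.pow_card_sub_one_eq_one hp0
  have ho : orderOf (p : ZMod ℓ) = n := by
    have hd : orderOf (p : ZMod ℓ) ∣ n := orderOf_dvd_of_pow_eq_one h1
    have hopos : 0 < orderOf (p : ZMod ℓ) := Nat.pos_of_dvd_of_pos hd (by omega)
    have hle := Nat.le_of_dvd (by omega) hd
    rcases Nat.lt_or_ge (orderOf (p : ZMod ℓ)) n with hlt | hge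
    · exact absurd ((key _).2 (pow_orderOf_eq_one _)) (hprim _ hopos hlt)
    · omega
  have h3 : n ∣ ℓ - 1 := ho ▸ orderOf_dvd_of_pow_eq_one h2
  have h4 := Nat.le_of_dvd (by have := hℓ.two_le; omega) h3
  have := hℓ.two_le
  omega

end Cfsg.Agent.Lib.Helper30.HupP11
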