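import Mathlib

set_option autoImplicit false

namespace Cfsg.Agent.Lib.Helper30.HupP8

theorem ringAut_eq_one_of_ppd {L : Type*} [Field L] [Finite L] (p f ℓ : ℕ) (hp : p.Prime)
    (hℓ : ℓ.Prime) (hL : Nat.card L = p ^ f) (hℓp : ℓ ≠ p)
    (hprim : ∀ i, 0 < i → i ≤ f → ¬ ℓ ∣ p ^ i - 1) (σ : RingAut L) (hσ : σ ^ ℓ = 1) : σ = 1 := by
  haveI : Fact ℓ.Prime := ⟨hℓ⟩
  -- the fixed points as an additive subgroup
  let A : AddSubgroup L :=
    { carrier := {x | σ x = x}
      add_mem' := by
        intro a b ha hb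
        simp only [Set.mem_ofPred_eq] at ha hb ⊢
        rw [map_add, ha, hb]
      zero_mem' := by simp
      neg_mem' := by
        intro a ha
        simp only [Set.mem_ofPred_eq] at ha ⊢
        rw [map_neg, ha] }
  have hAd : Nat.card A ∣ p ^ f := hL ▸ AddSubgroup.card_addSubgroup_dvd_card A
  obtain ⟨f', hf', hA⟩ := (Nat.dvd_prime_pow hp).1 hAd
  -- the l-group zpowers σ acts on L
  have hPG : IsPGroup ℓ (Subgroup.zpowers σ) := by
    rintro ⟨g, hg⟩
    obtain ⟨k, rfl⟩ := Subgroup.mem_zpowers_iff.1 hg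
    refine ⟨1, ?_⟩
    apply Subtype.ext
    simp only [pow_one, Subgroup.coe_pow, Subgroup.coe_one]
    rw [← zpow_natCast, ← zpow_mul, mul_comm, zpow_mul, zpow_natCast, hσ, one_zpow]
  have hmod := hPG.card_modEq_card_fixedPoints L
  have hfix : (MulAction.fixedPoints (Subgroup.zpowers σ) L) = (A : Set L) := by
    ext x
    constructor
    · intro hx
      exact hx ⟨σ, Subgroup.mem_zpowers σ⟩
    · intro hx
      rintro ⟨g, hg⟩
      obtain ⟨k, rfl⟩ := Subgroup.mem_zpowers_iff.1 hg
      have hx' : σ x = x := hx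
      have hinv : σ⁻¹ x = x := by
        have := congrArg (σ⁻¹ : RingAut L) hx'
        simpa using this.symm
      show (σ ^ k) x = x
      induction k using Int.induction_on with
      | zero => simp
      | succ n ih =>
        rw [zpow_add_one]
        show (σ ^ (n : ℤ)) (σ x) = x
        rw [hx']; exact ih (Subgroup.zpow_mem_zpowers σ _)
      | pred n ih =>
        rw [zpow_sub_one]
        show (σ ^ (-(n : ℤ))) (σ⁻¹ x) = x
        rw [hinv]; exact ih (Subgroup.zpow_mem_zpowers σ _)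
  have hcardfix : Nat.card (MulAction.fixedPoints (Subgroup.zpowers σ) L) = p ^ f' := by
    rw [← hA]
    exact Nat.card_congr (Equiv.setCongr hfix)
  rw [hL, hcardfix] at hmod
  -- ℓ ∣ p^f - p^f'
  have hle : p ^ f' ≤ p ^ f := Nat.pow_le_pow_right hp.pos hf'
  have hd : ℓ ∣ p ^ f - p ^ f' := (Nat.modEq_iff_dvd' hle).1 hmod.symm
  have hff : f' = f := by
    by_contra hne
    have hlt : f' < f := lt_of_le_of_ne hf' hne
    have heq : p ^ f - p ^ f' = p ^ f' * (p ^ (f - f') - 1) := by
      rw [Nat.mul_sub, mul_one, ← pow_add]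
      congr 2
      omega
    rw [heq] at hd
    rcases (Nat.Prime.dvd_mul hℓ).1 hd with h | h
    · exact hℓp ((Nat.prime_dvd_prime_iff_eq hℓ hp).1 (hℓ.dvd_of_dvd_pow h))
    · exact hprim (f - f') (by omega) (by omega) h
  -- A = ⊤
  have hAtop : A = ⊤ := by
    apply AddSubgroup.eq_top_of_card_eq
    rw [hA, hff, hL]
  ext x
  have hx : x ∈ A := by rw [hAtop]; trivial
  exact hx

end Cfsg.Agent.Lib.Helper30.HupP8
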