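import Mathlib
import Cfsg.Agent.Lib.Helper26.J3Stmt

set_option autoImplicit false

/-!
# S3366 / CON3 (helper30): the normal form of the elements of `Sp(4,3)` with first column `e₀`.
-/

namespace Cfsg.Agent.Lib.Helper30.J3CON3

open Cfsg Cfsg.Agent.Lib.Helper26.J3Stmt

/-- the symplectic condition `gᵀ J g = J`, entrywise. -/
theorem symp_entry (g : Sp) (j k : Fin 2 ⊕ Fin 2) :
    (- (g : Mat) (Sum.inl 0) j * (g : Mat) (Sum.inr 0) k
      + (g : Mat) (Sum.inr 0) j * (g : Mat) (Sum.inl 0) k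
      - (g : Mat) (Sum.inl 1) j * (g : Mat) (Sum.inr 1) k
      + (g : Mat) (Sum.inr 1) j * (g : Mat) (Sum.inl 1) k)
      = Matrix.J (Fin 2) (ZMod 3) j k := by
  have h := (SymplecticGroup.mem_iff'.1 g.2)
  have h2 := congrFun (congrFun h j) k
  rw [← h2]
  simp [Matrix.mul_apply, Fintype.sum_sum_type, Fin.sum_univ_two, Matrix.J, Matrix.fromBlocks,
    Matrix.one_apply]
  ring

/-- powers of `zM`. -/
theorem zM_pow (c : ZMod 3) :
    zM ^ c.val = Matrix.fromBlocks 1 !![c, 0; 0, 0] 0 1 := by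
  have h2 : zM * zM = Matrix.fromBlocks 1 !![2, 0; 0, 0] 0 1 := by
    unfold zM
    rw [Matrix.fromBlocks_multiply]
    congr 1
    · simp
    · ext i j; fin_cases i <;> fin_cases j <;> simp <;> rfl
    · simp
    · simp
  fin_cases c
  · show zM ^ 0 = _
    rw [pow_zero, ← Matrix.fromBlocks_one]
    congr 1
    ext i j; fin_cases i <;> fin_cases j <;> rfl
  · show zM ^ 1 = _
    rw [pow_one]
    unfold zM
    congr 1
  · show zM ^ 2 = _
    rw [pow_two, h2]
    congr 1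

theorem main : CON3 := by
  intro ι z κ hM g hg
  obtain ⟨hι, hz, hκ⟩ := hM
  have e00 := hg (Sum.inl 0)
  have e10 := hg (Sum.inl 1)
  have e20 := hg (Sum.inr 0)
  have e30 := hg (Sum.inr 1)
  simp at e00 e10 e20 e30
  have r1 := symp_entry g (Sum.inl 0) (Sum.inl 1)
  have r2 := symp_entry g (Sum.inl 0) (Sum.inr 0)
  have r3 := symp_entry g (Sum.inl 0) (Sum.inr 1)
  simp only [e00, e10, e20, e30] at r1 r2 r3
  simp [Matrix.J, Matrix.fromBlocks] at r1 r2 r3
  have s1 := symp_entry g (Sum.inl 1) (Sum.inr 1)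
  have s2 := symp_entry g (Sum.inl 1) (Sum.inr 0)
  have s3 := symp_entry g (Sum.inr 1) (Sum.inr 0)
  simp only [r1, r2, r3] at s1 s2 s3
  simp [Matrix.J, Matrix.fromBlocks] at s1 s2 s3
  have hdet : (!![(g : Mat) (Sum.inl 1) (Sum.inl 1), (g : Mat) (Sum.inl 1) (Sum.inr 1);
      (g : Mat) (Sum.inr 1) (Sum.inl 1), (g : Mat) (Sum.inr 1) (Sum.inr 1)]).det = 1 := by
    rw [Matrix.det_fin_two_of]
    linear_combination (-1 : ZMod 3) * s1
  have hA := hκ ⟨_, hdet⟩
  refine ⟨![(g : Mat) (Sum.inl 1) (Sum.inr 0), (g : Mat) (Sum.inr 1) (Sum.inr 0)],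
    (g : Mat) (Sum.inl 0) (Sum.inr 0), ⟨_, hdet⟩, ?_⟩
  apply Subtype.ext
  rw [Submonoid.coe_mul, Submonoid.coe_mul, SubmonoidClass.coe_pow, hι, hz, hA, zM_pow]
  ext i j
  fin_cases i <;> fin_cases j <;>
    simp [iotaM, kapM, Matrix.mul_apply, Fintype.sum_sum_type, Fin.sum_univ_two, Matrix.fromBlocks,
      Matrix.one_apply, e00, e10, e20, e30, r1, r2, r3]
  · linear_combination (-1 : ZMod 3) * s2
  · linear_combination (-1 : ZMod 3) * s3

end Cfsg.Agent.Lib.Helper30.J3CON3
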