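import Mathlib
import Cfsg.Agent.Lib.Helper75.OTStmt
import Cfsg.Agent.Lib.Helper75.GrpAlg

set_option autoImplicit false

/-! Piece [BRK] of S4889: a central element of the reduced block vanishing on `C` is zero, when
the classes not meeting `C` vanish in the block. -/

namespace Cfsg.Agent.Lib.Helper30.OTBRK

open Cfsg Module Cfsg.Agent.Lib.Helper77.LocalRing Cfsg.Agent.Lib.Helper77.CentralChar
  Cfsg.Agent.Lib.Helper77.ClassSum Cfsg.Agent.Lib.Helper77.BlockIdem
  Cfsg.Agent.Lib.Helper77.BPBasic Cfsg.Agent.Lib.Helper77.BPMax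
  Cfsg.Agent.Lib.Helper75.TwoChar Cfsg.Agent.Lib.Helper75.BlockAlg
  Cfsg.Agent.Lib.Helper75.Decomp Cfsg.Agent.Lib.Helper75.OTStmt
  Cfsg.Agent.Lib.Helper75.GrpAlg
open scoped ComplexConjugate

universe u

theorem main : BRK.{u} := by
  intro G _ _ M hMp F _ q hq B ê hê C hvan w hw hew hwC
  classical
  cases nonempty_fintype G
  -- lifted class sums
  let kk : G → MonoidAlgebra (localSubring M hMp) G := fun g =>
    MonoidAlgebra.ofCoeff (Finsupp.equivFunOnFinite.symm fun h => if IsConj g h then 1 else 0)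
  have hkkc : ∀ g h, (kk g).coeff h = if IsConj g h then 1 else 0 := fun g h => rfl
  have hkk : ∀ g, incl hMp (kk g) = classSum g := by
    intro g
    apply MonoidAlgebra.ext
    ext h
    rw [coeff_incl, hkkc]
    unfold classSum
    rw [coeff_ofFun]
    split_ifs <;> simp
  let κ : G → MonoidAlgebra F G := fun g => MonoidAlgebra.mapRingHom G q (kk g)
  have hκ' : ∀ g h : G, (κ g).coeff h = if IsConj g h then 1 else 0 := by
    intro g h
    show (MonoidAlgebra.mapRingHom G q (kk g)).coeff h = _
    rw [MonoidAlgebra.coeff_mapRingHom, hkkc]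
    split_ifs <;> simp
  -- vanishing of `ē * κ g`
  have hzero : ∀ g : G, (∀ x : G, x * g * x⁻¹ ∉ C) →
      MonoidAlgebra.mapRingHom G q ê * κ g = 0 := by
    intro g hg
    show MonoidAlgebra.mapRingHom G q ê * MonoidAlgebra.mapRingHom G q (kk g) = 0
    rw [← map_mul]
    apply MonoidAlgebra.ext
    ext h
    rw [MonoidAlgebra.coeff_mapRingHom]
    have h1 : (((ê * kk g).coeff h : localSubring M hMp) : ℂ)
        = (classSum g * blockIdem B).coeff h := by
      rw [← coeff_incl, map_mul, hê, hkk]
      have hc := classSum_mem_center g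
      rw [Subalgebra.mem_center_iff] at hc
      rw [hc (blockIdem B)]
    have h2 := (hq ((ê * kk g).coeff h)).mpr (h1 ▸ hvan g hg h)
    rw [h2]
    rfl
  have hsum : w = ∑ c : ConjClasses G, w.coeff c.out • κ c.out := by
    apply MonoidAlgebra.ext
    ext h
    rw [MonoidAlgebra.coeff_sum, Finsupp.finsetSum_apply]
    rw [Finset.sum_eq_single (ConjClasses.mk h)]
    · rw [MonoidAlgebra.coeff_smul, Finsupp.smul_apply, hκ']
      have hc : IsConj (ConjClasses.mk h).out h := by
        rw [← ConjClasses.mk_eq_mk_iff_isConj]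
        exact Quotient.out_eq _
      rw [if_pos hc, smul_eq_mul, mul_one]
      obtain ⟨x, hx⟩ := isConj_iff.1 hc
      rw [← coeff_conj_of_central w hw x (Quotient.out (ConjClasses.mk h)), hx]
    · intro c _ hne
      rw [MonoidAlgebra.coeff_smul, Finsupp.smul_apply, hκ']
      have hc : ¬ IsConj c.out h := by
        intro hc
        apply hne
        rw [← ConjClasses.mk_eq_mk_iff_isConj] at hc
        rw [← hc]
        exact (Quotient.out_eq c).symm
      rw [if_neg hc, smul_zero]
    · intro h0
      exact absurd (Finset.mem_univ _) h0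
  rw [← hew]
  conv_lhs => rw [hsum]
  rw [Finset.mul_sum]
  apply Finset.sum_eq_zero
  intro c _
  rw [mul_smul_comm]
  by_cases hc : ∀ x : G, x * c.out * x⁻¹ ∉ C
  · rw [hzero _ hc, smul_zero]
  · push Not at hc
    obtain ⟨x, hx⟩ := hc
    have h0 : w.coeff c.out = 0 := by
      rw [← coeff_conj_of_central w hw x]
      exact hwC _ hx
    rw [h0, zero_smul]

end Cfsg.Agent.Lib.Helper30.OTBRK
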