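import Mathlib

set_option autoImplicit false

/-! Piece [AR] of S4025: two arithmetic facts. -/

namespace Cfsg.Agent.Lib.Helper30.P25AR

theorem two_pow_ge (k : ℕ) (hk : 3 ≤ k) : k + 3 ≤ 2 ^ k := by
  induction k, hk using Nat.le_induction with
  | base => norm_num
  | succ k hk ih =>
    rw [pow_succ]
    omega

theorem arith_planes (p n : ℕ) (hp : p.Prime) (hn : 3 ≤ n)
    (h : (p ^ (n - 1) - 1) ∣ n * (p ^ 2 - 1)) : n = 3 ∨ (n = 5 ∧ p = 2) := by
  have hp2 : 2 ≤ p := hp.two_le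
  obtain ⟨k, rfl⟩ : ∃ k, p = k + 2 := ⟨p - 2, by omega⟩
  rcases Nat.lt_or_ge n 6 with hlt | hge
  · interval_cases n
    · left; rfl
    · exfalso
      -- (p^3 - 1) ∣ 4 (p^2 - 1)
      have e1 : (k + 2) ^ (4 - 1) - 1 = (k + 1) * ((k + 2) ^ 2 + (k + 2) + 1) := by
        apply Nat.sub_eq_of_eq_add
        ring
      have e2 : 4 * ((k + 2) ^ 2 - 1) = (k + 1) * (4 * (k + 3)) := by
        have : (k + 2) ^ 2 - 1 = (k + 1) * (k + 3) := by
          apply Nat.sub_eq_of_eq_add
          ring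
        rw [this]; ring
      rw [e1, e2] at h
      have h' := Nat.dvd_of_mul_dvd_mul_left (Nat.succ_pos k) h
      obtain ⟨c, hc⟩ := h'
      rcases Nat.lt_or_ge c 2 with hc2 | hc2
      · interval_cases c
        · omega
        · rcases Nat.lt_or_ge k 2 with hk | hk
          · interval_cases k <;> omega
          · nlinarith
      · nlinarith
    · right
      refine ⟨rfl, ?_⟩
      have e1 : (k + 2) ^ (5 - 1) - 1 = ((k + 2) ^ 2 - 1) * ((k + 2) ^ 2 + 1) := by
        apply Nat.sub_eq_of_eq_add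
        have : (k + 2) ^ 2 - 1 = (k + 1) * (k + 3) := by
          apply Nat.sub_eq_of_eq_add
          ring
        rw [this]; ring
      have e2 : 5 * ((k + 2) ^ 2 - 1) = ((k + 2) ^ 2 - 1) * 5 := by ring
      rw [e1, e2] at h
      have hpos : 0 < (k + 2) ^ 2 - 1 := by
        have : 4 ≤ (k + 2) ^ 2 := by nlinarith
        omega
      have h' := Nat.dvd_of_mul_dvd_mul_left hpos h
      have h'' := Nat.le_of_dvd (by norm_num) h'
      have : k = 0 := by nlinarith
      rw [this]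
  · exfalso
    obtain ⟨j, rfl⟩ : ∃ j, n = j + 3 := ⟨n - 3, by omega⟩
    have hj : 3 ≤ j := by omega
    have h1 : j + 3 ≤ 2 ^ j := two_pow_ge j hj
    have h2 : 2 ^ j ≤ (k + 2) ^ j := Nat.pow_le_pow_left (by omega) j
    have e1 : (k + 2) ^ (j + 3 - 1) = (k + 2) ^ 2 * (k + 2) ^ j := by
      rw [show j + 3 - 1 = 2 + j by omega, pow_add]
    have hsq : 4 ≤ (k + 2) ^ 2 := by nlinarith
    have hpos : 0 < (j + 3) * ((k + 2) ^ 2 - 1) := Nat.mul_pos (by omega) (by omega)
    have hle := Nat.le_of_dvd hpos h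
    rw [e1] at hle
    have h3 : (k + 2) ^ 2 * (j + 3) ≤ (k + 2) ^ 2 * (k + 2) ^ j :=
      Nat.mul_le_mul_left _ (le_trans h1 h2)
    have h4 : (j + 3) * ((k + 2) ^ 2 - 1) = (k + 2) ^ 2 * (j + 3) - (j + 3) := by
      rw [Nat.mul_sub, mul_one, mul_comm]
    have h5 : j + 3 ≤ (k + 2) ^ 2 * (j + 3) := Nat.le_mul_of_pos_left _ (by omega)
    omega

theorem arith_exc (p n : ℕ) (hp : p.Prime) (hn : 3 ≤ n)
    (h : p ^ n ∈ ({9, 25, 49, 121, 529, 81} : Set ℕ)) : p = 3 ∧ n = 4 := by
  have hn0 : n ≠ 0 := by omega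
  have key : ∀ (r e : ℕ), r.Prime → p ^ n = r ^ e → p = r ∧ n = e := by
    intro r e hr he
    have h1 : p ∣ r ^ e := by rw [← he]; exact dvd_pow_self p hn0
    have h2 : p = r := (Nat.prime_dvd_prime_iff_eq hp hr).mp (hp.dvd_of_dvd_pow h1)
    refine ⟨h2, ?_⟩
    rw [h2] at he
    exact Nat.pow_right_injective hr.two_le he
  simp only [Set.mem_insert_iff, Set.mem_singleton_iff] at h
  rcases h with h | h | h | h | h | h
  · have := key 3 2 (by norm_num) (by rw [h]; norm_num)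
    omega
  · have := key 5 2 (by norm_num) (by rw [h]; norm_num)
    omega
  · have := key 7 2 (by norm_num) (by rw [h]; norm_num)
    omega
  · have := key 11 2 (by norm_num) (by rw [h]; norm_num)
    omega
  · have := key 23 2 (by norm_num) (by rw [h]; norm_num)
    omega
  · exact key 3 4 (by norm_num) (by rw [h]; norm_num)

end Cfsg.Agent.Lib.Helper30.P25AR
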