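import Mathlib

set_option autoImplicit false

/-! Piece [CNT] of S4025: the number of subgroups of order `p ^ 2` of an elementary abelian
group of order `p ^ n`. -/

namespace Cfsg.Agent.Lib.Helper30.P25CNT

universe u

/-- the pairs `(v, w)` with `v ≠ 1` and `w ∉ ⟨v⟩` -/
def Pairs (H : Type u) [Group H] : Type u :=
  {x : H × H // x.1 ≠ 1 ∧ x.2 ∉ Subgroup.zpowers x.1}

theorem card_pairs {H : Type u} [Group H] [Finite H] {p k : ℕ} [Fact p.Prime]
    (hHp : ∀ a : H, a ^ p = 1) (hH : Nat.card H = p ^ k) :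
    Nat.card (Pairs H) = (p ^ k - 1) * (p ^ k - p) := by
  classical
  letI : Fintype H := Fintype.ofFinite H
  have hp : p.Prime := Fact.out
  let e : Pairs H ≃ Σ v : {v : H // v ≠ 1}, {w : H // w ∉ Subgroup.zpowers (v : H)} :=
    { toFun := fun x => ⟨⟨x.1.1, x.2.1⟩, ⟨x.1.2, x.2.2⟩⟩
      invFun := fun y => ⟨(y.1.1, y.2.1), y.1.2, y.2.2⟩
      left_inv := fun x => rfl
      right_inv := fun y => rfl }
  rw [Nat.card_congr e, Nat.card_sigma]
  have h1 : ∀ v : {v : H // v ≠ 1},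
      Nat.card {w : H // w ∉ Subgroup.zpowers (v : H)} = p ^ k - p := by
    intro v
    have hz : Nat.card (Subgroup.zpowers (v : H)) = p := by
      rw [Nat.card_zpowers]
      exact orderOf_eq_prime (hHp v) v.2
    rw [Nat.card_eq_fintype_card, Fintype.card_subtype_compl, ← Nat.card_eq_fintype_card,
      ← Nat.card_eq_fintype_card, hH]
    congr 1
  rw [Finset.sum_congr rfl (fun v _ => h1 v), Finset.sum_const, Finset.card_univ, smul_eq_mul]
  congr 1
  rw [Fintype.card_subtype_compl, ← Nat.card_eq_fintype_card, hH, Fintype.card_subtype_eq]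

theorem card_sup_zpowers {Q : Type u} [Group Q] [Finite Q] {p : ℕ} [Fact p.Prime]
    (hQc : ∀ a b : Q, a * b = b * a) (hQp : ∀ a : Q, a ^ p = 1) (v w : Q) (hv : v ≠ 1)
    (hw : w ∉ Subgroup.zpowers v) :
    Nat.card ↥(Subgroup.zpowers v ⊔ Subgroup.zpowers w) = p ^ 2 := by
  have hp : p.Prime := Fact.out
  have hw1 : w ≠ 1 := fun h => hw (h ▸ one_mem _)
  have hzv : Nat.card (Subgroup.zpowers v) = p := by
    rw [Nat.card_zpowers]; exact orderOf_eq_prime (hQp v) hv
  have hzw : Nat.card (Subgroup.zpowers w) = p := by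
    rw [Nat.card_zpowers]; exact orderOf_eq_prime (hQp w) hw1
  have hn : (Subgroup.zpowers w).Normal :=
    ⟨fun x hx g => by rw [hQc g x, mul_inv_cancel_right]; exact hx⟩
  -- the intersection is trivial
  have hinf : Subgroup.zpowers w ⊓ Subgroup.zpowers v = ⊥ := by
    by_contra hne
    have hle : Subgroup.zpowers w ⊓ Subgroup.zpowers v ≤ Subgroup.zpowers w := inf_le_left
    have hcd : Nat.card ↥(Subgroup.zpowers w ⊓ Subgroup.zpowers v) ∣ p := by
      rw [← hzw]; exact Subgroup.card_dvd_of_le hle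
    rcases (Nat.dvd_prime hp).mp hcd with h1 | h1
    · exact hne (Subgroup.card_eq_one.mp h1)
    · have heq : Subgroup.zpowers w ⊓ Subgroup.zpowers v = Subgroup.zpowers w :=
        Subgroup.eq_of_le_of_card_ge hle (by rw [h1, hzw])
      have : w ∈ Subgroup.zpowers w ⊓ Subgroup.zpowers v := by
        rw [heq]; exact Subgroup.mem_zpowers w
      exact hw this.2
  have e1 : (Subgroup.zpowers w).relIndex (Subgroup.zpowers v ⊔ Subgroup.zpowers w) =
      Nat.card (Subgroup.zpowers v) := by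
    rw [Subgroup.relIndex_sup_right, ← Subgroup.inf_relIndex_right, hinf,
      Subgroup.relIndex_bot_left]
  have e2 := Subgroup.relIndex_mul_relIndex (⊥ : Subgroup Q) (Subgroup.zpowers w)
    (Subgroup.zpowers v ⊔ Subgroup.zpowers w) bot_le le_sup_right
  rw [Subgroup.relIndex_bot_left, Subgroup.relIndex_bot_left, e1, hzv, hzw] at e2
  rw [← e2, pow_two]

/-- the pairs inside a subgroup `W` -/
def PairsIn {Q : Type u} [Group Q] (W : Subgroup Q) : Type u :=
  {x : Q × Q // x.1 ∈ W ∧ x.2 ∈ W ∧ x.1 ≠ 1 ∧ x.2 ∉ Subgroup.zpowers x.1}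

instance finite_pairsIn {Q : Type u} [Group Q] [Finite Q] (W : Subgroup Q) :
    Finite (PairsIn W) := by
  unfold PairsIn
  infer_instance

theorem mem_zpowers_coe {Q : Type u} [Group Q] (W : Subgroup Q) (a b : W) :
    b ∈ Subgroup.zpowers a ↔ (b : Q) ∈ Subgroup.zpowers (a : Q) := by
  rw [Subgroup.mem_zpowers_iff, Subgroup.mem_zpowers_iff]
  constructor
  · rintro ⟨k, hk⟩
    exact ⟨k, by rw [← hk]; simp⟩
  · rintro ⟨k, hk⟩
    exact ⟨k, Subtype.ext (by rw [← hk]; simp)⟩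

theorem card_pairsIn {Q : Type u} [Group Q] [Finite Q] {p : ℕ} [Fact p.Prime]
    (hQp : ∀ a : Q, a ^ p = 1) (W : Subgroup Q) (hW : Nat.card W = p ^ 2) :
    Nat.card (PairsIn W) = (p ^ 2 - 1) * (p ^ 2 - p) := by
  have hWp : ∀ a : W, a ^ p = 1 := fun a => Subtype.ext (by simpa using hQp (a : Q))
  rw [← card_pairs hWp hW]
  apply Nat.card_congr
  exact
    { toFun := fun x => ⟨(⟨x.1.1, x.2.1⟩, ⟨x.1.2, x.2.2.1⟩),
        fun h => x.2.2.2.1 (congrArg Subtype.val h),
        fun h => x.2.2.2.2 ((mem_zpowers_coe W _ _).mp h)⟩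
      invFun := fun y => ⟨((y.1.1 : Q), (y.1.2 : Q)), y.1.1.2, y.1.2.2,
        fun h => y.2.1 (Subtype.ext h),
        fun h => y.2.2 ((mem_zpowers_coe W _ _).mpr h)⟩
      left_inv := fun x => rfl
      right_inv := fun y => rfl }

theorem card_planes {Q : Type u} [Group Q] [Finite Q] {p n : ℕ} [Fact p.Prime]
    (hQc : ∀ a b : Q, a * b = b * a) (hQp : ∀ a : Q, a ^ p = 1) (hQ : Nat.card Q = p ^ n) :
    Nat.card {W : Subgroup Q // Nat.card W = p ^ 2} * ((p ^ 2 - 1) * (p ^ 2 - p)) =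
      (p ^ n - 1) * (p ^ n - p) := by
  classical
  letI : Fintype {W : Subgroup Q // Nat.card W = p ^ 2} := Fintype.ofFinite _
  rw [← card_pairs hQp hQ]
  let e : Pairs Q ≃ Σ W : {W : Subgroup Q // Nat.card W = p ^ 2}, PairsIn W.1 :=
    { toFun := fun x => ⟨⟨Subgroup.zpowers x.1.1 ⊔ Subgroup.zpowers x.1.2,
          card_sup_zpowers hQc hQp x.1.1 x.1.2 x.2.1 x.2.2⟩,
        ⟨x.1, le_sup_left (a := Subgroup.zpowers x.1.1) (Subgroup.mem_zpowers x.1.1),
          le_sup_right (b := Subgroup.zpowers x.1.2) (Subgroup.mem_zpowers x.1.2),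
          x.2.1, x.2.2⟩⟩
      invFun := fun y => ⟨y.2.1, y.2.2.2.2.1, y.2.2.2.2.2⟩
      left_inv := fun x => rfl
      right_inv := by
        rintro ⟨⟨W, hW⟩, ⟨x, hx1, hx2, hx3, hx4⟩⟩
        have hle : Subgroup.zpowers x.1 ⊔ Subgroup.zpowers x.2 ≤ W :=
          sup_le ((Subgroup.zpowers_le).mpr hx1) ((Subgroup.zpowers_le).mpr hx2)
        have hWeq : W = Subgroup.zpowers x.1 ⊔ Subgroup.zpowers x.2 :=
          (Subgroup.eq_of_le_of_card_ge hle
            (by rw [hW, card_sup_zpowers hQc hQp x.1 x.2 hx3 hx4])).symm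
        subst hWeq
        rfl }
  rw [Nat.card_congr e, Nat.card_sigma,
    Finset.sum_congr rfl (fun W _ => card_pairsIn hQp W.1 W.2), Finset.sum_const,
    Finset.card_univ, smul_eq_mul, Nat.card_eq_fintype_card]

end Cfsg.Agent.Lib.Helper30.P25CNT
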