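import Mathlib
import Cfsg.Agent.Lib.Helper1.PiClasses
import Cfsg.Agent.Lib.Helper30.PiHall
import Cfsg.Agent.Lib.Helper30.PiHallA

set_option autoImplicit false

/-!
# Abelian Hall subgroups from many π-classes: the counting case

`caseC`: given a commuting family for `τ \ {q}` whose common normalizer is larger than its common
centralizer, and enough classes of τ-elements, the common centralizer contains a Sylow
`q`-subgroup, so the family extends to `τ`.
-/

namespace Cfsg.Agent.Lib.Helper30.PiHall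

open Cfsg.Agent.Lib.Helper1.PiClasses
open scoped Classical

universe u

section CaseC

variable {G : Type u} [Group G]

/-- conjugation action on elements -/
def act1 (g z : G) : G := g * z * g⁻¹

/-- conjugation action on pairs -/
def act2 (g : G) (ξ : G × G) : G × G := (g * ξ.1 * g⁻¹, g * ξ.2 * g⁻¹)

theorem act1_one (z : G) : act1 1 z = z := by simp [act1]

theorem act1_mul (g h z : G) : act1 (g * h) z = act1 g (act1 h z) := by
  simp only [act1]; group

theorem act2_one (ξ : G × G) : act2 1 ξ = ξ := by simp [act2]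

theorem act2_mul (g h : G) (ξ : G × G) : act2 (g * h) ξ = act2 g (act2 h ξ) := by
  simp only [act2]
  refine Prod.ext ?_ ?_
  · show g * h * ξ.1 * (g * h)⁻¹ = g * (h * ξ.1 * h⁻¹) * g⁻¹
    group
  · show g * h * ξ.2 * (g * h)⁻¹ = g * (h * ξ.2 * h⁻¹) * g⁻¹
    group

/-- a class of `q`-elements is good if it meets the common centralizer of the family -/
def Good (σ : Finset ℕ) (R : ℕ → Subgroup G) (q : ℕ) (c : PiCls ({q} : Set ℕ) G) : Prop :=
  ∃ x, x ∈ DR σ R ∧ ∃ h : IsPiElt ({q} : Set ℕ) x, mkPi x h = c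

/-- the `q`-elements of the common centralizer -/
noncomputable def Dq [Fintype G] (σ : Finset ℕ) (R : ℕ → Subgroup G) (q : ℕ) : Finset G :=
  Finset.univ.filter (fun x => x ∈ DR σ R ∧ IsPiElt ({q} : Set ℕ) x)

theorem mem_Dq [Fintype G] {σ : Finset ℕ} {R : ℕ → Subgroup G} {q : ℕ} {x : G} :
    x ∈ Dq σ R q ↔ x ∈ DR σ R ∧ IsPiElt ({q} : Set ℕ) x := by
  simp [Dq]

theorem fam_centralizer [Finite G] {σ : Finset ℕ} {R : ℕ → Subgroup G} (hR : Fam σ ⊤ R) {x : G}
    (hx : x ∈ DR σ R) : Fam σ (Subgroup.centralizer ({x} : Set G)) R := by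
  refine hR.mono le_top ?_
  intro s hs z hz
  rw [Subgroup.mem_centralizer_iff]
  intro w hw
  rw [Set.mem_singleton_iff] at hw
  rw [hw]
  exact (Subgroup.mem_centralizer_iff.mp (mem_DR.mp hx s hs) z hz).symm

/-- elements of the common centralizer that are conjugate are conjugate under the common
normalizer -/
theorem conj_in_NR [Finite G] {σ : Finset ℕ} {R : ℕ → Subgroup G} (hR : Fam σ ⊤ R) {x x' g : G}
    (hx : x ∈ DR σ R) (hx' : x' ∈ DR σ R) (hg : g * x * g⁻¹ = x') :
    ∃ n ∈ NR σ R, n * x * n⁻¹ = x' := by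
  have hA := fam_centralizer hR hx'
  have hB : Fam σ (Subgroup.centralizer ({x'} : Set G)) (fun s => cj g (R s)) := by
    refine (hR.conj (Subgroup.mem_top g)).mono le_top ?_
    intro s hs z hz
    obtain ⟨w, hw, rfl⟩ := mem_cj.mp hz
    rw [Subgroup.mem_centralizer_iff]
    intro v hv
    rw [Set.mem_singleton_iff] at hv
    rw [hv, ← hg]
    have hc := Subgroup.mem_centralizer_iff.mp (mem_DR.mp hx s hs) w hw
    calc g * x * g⁻¹ * (g * w * g⁻¹) = g * (x * w) * g⁻¹ := by group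
      _ = g * (w * x) * g⁻¹ := by rw [hc]
      _ = g * w * g⁻¹ * (g * x * g⁻¹) := by group
  obtain ⟨c, hc, hcR⟩ := fam_conj σ _ _ R hB hA
  refine ⟨c * g, mem_NR_of_conj ?_, ?_⟩
  · intro s hs y hy
    have := hcR s hs _ (conj_mem_cj (g := g) hy)
    have e : c * g * y * (c * g)⁻¹ = c * (g * y * g⁻¹) * c⁻¹ := by group
    rw [e]; exact this
  · have hcx : x' * c = c * x' := Subgroup.mem_centralizer_iff.mp hc x' (Set.mem_singleton x')
    calc c * g * x * (c * g)⁻¹ = c * (g * x * g⁻¹) * c⁻¹ := by group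
      _ = c * x' * c⁻¹ := by rw [hg]
      _ = x' * c * c⁻¹ := by rw [hcx]
      _ = x' := by group

/-- every class of τ-elements is a product class from `Dq × hull` or comes from a bad class -/
theorem caseC_cover [Fintype G] {τ : Finset ℕ} {q : ℕ} (hq : q ∈ τ) (hqp : q.Prime)
    (R : ℕ → Subgroup G) (hR : Fam (τ.erase q) ⊤ R)
    [Fintype (PiCls ({q} : Set ℕ) G)] (rep : PiCls ({q} : Set ℕ) G → G)
    (hrep : ∀ c, ∃ h : IsPiElt ({q} : Set ℕ) (rep c), mkPi (rep c) h = c) :
    kpi (↑τ) G ≤ ((Dq (τ.erase q) R q ×ˢ elts (hull (τ.erase q) R)).image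
        (fun ξ : G × G => ConjClasses.mk (ξ.1 * ξ.2))).card
      + ∑ c ∈ Finset.univ.filter (fun c => ¬ Good (τ.erase q) R q c),
          (Tset (↑(τ.erase q)) (rep c)).ncard := by
  have hτσ : insert q (τ.erase q) = τ := Finset.insert_erase hq
  have hcover : {C : ConjClasses G | ∀ x ∈ C.carrier, IsPiElt (↑τ) x} ⊆
      (↑((Dq (τ.erase q) R q ×ˢ elts (hull (τ.erase q) R)).image
        (fun ξ : G × G => ConjClasses.mk (ξ.1 * ξ.2))) : Set (ConjClasses G))
      ∪ ⋃ c ∈ Finset.univ.filter (fun c => ¬ Good (τ.erase q) R q c),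
          Tset (↑(τ.erase q)) (rep c) := by
    intro C hC
    obtain ⟨x, rfl⟩ := ConjClasses.exists_rep C
    have hx : IsPiElt (↑τ) x := hC x ConjClasses.mem_carrier_mk
    rw [← hτσ, Finset.coe_insert] at hx
    obtain ⟨u, y, huy, rfl, hu, hy⟩ := exists_decomp hqp hx
    by_cases hg : Good (τ.erase q) R q (mkPi u hu)
    · left
      obtain ⟨x1, hx1D, hx1pi, hx1c⟩ := hg
      obtain ⟨g, hg⟩ := (mkPi_eq_iff hu hx1pi).mp hx1c.symm
      have hA := fam_centralizer hR hx1D
      have hy1 : g * y * g⁻¹ ∈ Subgroup.centralizer ({x1} : Set G) := by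
        rw [Subgroup.mem_centralizer_iff]
        intro w hw
        rw [Set.mem_singleton_iff] at hw
        rw [hw, ← hg]
        calc g * u * g⁻¹ * (g * y * g⁻¹) = g * (u * y) * g⁻¹ := by group
          _ = g * (y * u) * g⁻¹ := by rw [huy.eq]
          _ = g * y * g⁻¹ * (g * u * g⁻¹) := by group
      obtain ⟨h, hh, hhy⟩ := fam_cover (τ.erase q) _ R hA _ hy1 (isPiElt_conj g hy)
      rw [Finset.mem_coe, Finset.mem_image]
      refine ⟨(x1, h * (g * y * g⁻¹) * h⁻¹), ?_, ?_⟩
      · rw [Finset.mem_product]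
        exact ⟨mem_Dq.mpr ⟨hx1D, hx1pi⟩, mem_elts.mpr hhy⟩
      · show ConjClasses.mk (x1 * (h * (g * y * g⁻¹) * h⁻¹)) = ConjClasses.mk (u * y)
        rw [eq_comm, ConjClasses.mk_eq_mk_iff_isConj, isConj_iff]
        refine ⟨h * g, ?_⟩
        have hhx : x1 * h = h * x1 :=
          Subgroup.mem_centralizer_iff.mp hh x1 (Set.mem_singleton x1)
        calc h * g * (u * y) * (h * g)⁻¹ = h * (g * u * g⁻¹) * (g * y * g⁻¹) * h⁻¹ := by group
          _ = h * x1 * (g * y * g⁻¹) * h⁻¹ := by rw [hg]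
          _ = x1 * h * (g * y * g⁻¹) * h⁻¹ := by rw [hhx]
          _ = x1 * (h * (g * y * g⁻¹) * h⁻¹) := by group
    · right
      rw [Set.mem_iUnion₂]
      refine ⟨mkPi u hu, Finset.mem_filter.mpr ⟨Finset.mem_univ _, hg⟩, ?_⟩
      obtain ⟨hh, hc⟩ := hrep (mkPi u hu)
      obtain ⟨g, hg'⟩ := (mkPi_eq_iff hu hh).mp hc.symm
      exact mem_Tset huy.eq hy hg'
  rw [kpi_eq_ncard]
  refine (Set.ncard_le_ncard hcover (Set.toFinite _)).trans ?_
  refine (Set.ncard_union_le _ _).trans ?_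
  rw [Set.ncard_coe_finset]
  exact Nat.add_le_add_left (Finset.set_ncard_biUnion_le _ _) _

theorem caseC_pair_le [Fintype G] (σ : Finset ℕ) (R : ℕ → Subgroup G) (q : ℕ) :
    ((Dq σ R q ×ˢ elts (hull σ R)).image (fun ξ : G × G => ConjClasses.mk (ξ.1 * ξ.2))).card
      * Nat.card (NR σ R) ≤ ∑ ξ ∈ Dq σ R q ×ˢ elts (hull σ R), stc (NR σ R) act2 ξ := by
  apply orbit_image_le (NR σ R) act2 act2_one act2_mul
  · intro ξ hξ g hg
    rw [Finset.mem_product] at hξ ⊢
    have h1 := mem_Dq.mp hξ.1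
    exact ⟨mem_Dq.mpr ⟨NR_conj_DR hg h1.1, isPiElt_conj g h1.2⟩,
      mem_elts.mpr (NR_conj_hull hg (mem_elts.mp hξ.2))⟩
  · intro ξ _ g _
    show ConjClasses.mk (g * ξ.1 * g⁻¹ * (g * ξ.2 * g⁻¹)) = ConjClasses.mk (ξ.1 * ξ.2)
    rw [ConjClasses.mk_eq_mk_iff_isConj, isConj_iff]
    exact ⟨g⁻¹, by group⟩

theorem stc_act1_eq [Fintype G] (N : Subgroup G) (z : G) :
    stc N act1 z = Nat.card (N ⊓ Subgroup.centralizer ({z} : Set G) : Subgroup G) :=
  stc_conj_eq N z

theorem caseC_fix_le [Fintype G] {σ : Finset ℕ} {R : ℕ → Subgroup G} (e : ℕ)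
    (hl : ∀ l : ℕ, l.Prime → l ∣ Nat.card (hull σ R) → e + 1 ≤ l) (x : G) :
    (e + 1) * ∑ y ∈ elts (hull σ R), stc (NR σ R) act2 (x, y)
      ≤ Nat.card (hull σ R) * stc (NR σ R) act1 x
        + e * Nat.card (hull σ R) * stc (DR σ R) act1 x := by
  have hBc : stc (DR σ R) act1 x
      = ((Finset.univ.filter (fun g => g ∈ NR σ R ∧ act1 g x = x)).filter
          (fun g => g ∈ DR σ R)).card := by
    unfold stc
    congr 1
    ext g
    simp only [Finset.mem_filter, Finset.mem_univ, true_and]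
    constructor
    · rintro ⟨h1, h2⟩; exact ⟨⟨DR_le_NR _ _ h1, h2⟩, h1⟩
    · rintro ⟨⟨_, h2⟩, h1⟩; exact ⟨h1, h2⟩
  have h1 : ∀ y, stc (NR σ R) act2 (x, y)
      = ∑ g ∈ Finset.univ.filter (fun g => g ∈ NR σ R ∧ act1 g x = x),
          if act1 g y = y then 1 else 0 := by
    intro y
    unfold stc
    rw [← Finset.card_filter]
    congr 1
    ext g
    simp only [Finset.mem_filter, Finset.mem_univ, true_and]
    simp only [act2, act1, Prod.mk.injEq]
    tauto
  have h2 : ∑ y ∈ elts (hull σ R), stc (NR σ R) act2 (x, y)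
      = ∑ g ∈ Finset.univ.filter (fun g => g ∈ NR σ R ∧ act1 g x = x),
          ((elts (hull σ R)).filter (fun y => act1 g y = y)).card := by
    rw [Finset.sum_congr rfl (fun y _ => h1 y), Finset.sum_comm]
    apply Finset.sum_congr rfl
    intro g _
    rw [Finset.card_filter]
  rw [h2, Finset.mul_sum]
  have h3 : ∀ g ∈ Finset.univ.filter (fun g => g ∈ NR σ R ∧ act1 g x = x),
      (e + 1) * ((elts (hull σ R)).filter (fun y => act1 g y = y)).card
        ≤ Nat.card (hull σ R) + (if g ∈ DR σ R then e * Nat.card (hull σ R) else 0) := by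
    intro g _
    split_ifs with hgD
    · have : ((elts (hull σ R)).filter (fun y => act1 g y = y)).card ≤ Nat.card (hull σ R) := by
        rw [← card_elts]; exact Finset.card_filter_le _ _
      calc (e + 1) * ((elts (hull σ R)).filter (fun y => act1 g y = y)).card
          ≤ (e + 1) * Nat.card (hull σ R) := Nat.mul_le_mul_left _ this
        _ = Nat.card (hull σ R) + e * Nat.card (hull σ R) := by ring
    · have hcard : ((elts (hull σ R)).filter (fun y => act1 g y = y)).card
          = Nat.card (hull σ R ⊓ Subgroup.centralizer ({g} : Set G) : Subgroup G) := by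
        refine (Nat.subtype_card _ (fun y => ?_)).symm
        simp only [Finset.mem_filter, mem_elts]
        simp only [Subgroup.mem_inf, Subgroup.mem_centralizer_iff,
          Set.mem_singleton_iff, forall_eq, act1]
        rw [mul_inv_eq_iff_eq_mul]
      rw [hcard, add_zero]
      apply card_idx_le inf_le_left
      · intro hEq
        apply hgD
        rw [mem_DR]
        intro s hs
        rw [Subgroup.mem_centralizer_iff]
        intro y hy
        have : y ∈ hull σ R ⊓ Subgroup.centralizer ({g} : Set G) := by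
          rw [hEq]; exact le_hull hs hy
        exact (Subgroup.mem_centralizer_iff.mp (Subgroup.mem_inf.mp this).2 g
          (Set.mem_singleton g)).symm
      · exact hl
  refine (Finset.sum_le_sum h3).trans (le_of_eq ?_)
  rw [Finset.sum_add_distrib, Finset.sum_const, smul_eq_mul, Finset.sum_ite, Finset.sum_const,
    Finset.sum_const_zero, add_zero, smul_eq_mul, hBc]
  unfold stc
  ring

theorem caseC_good_le [Fintype G] {σ : Finset ℕ} {R : ℕ → Subgroup G} (hR : Fam σ ⊤ R) (q : ℕ)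
    [Fintype (PiCls ({q} : Set ℕ) G)] :
    ∑ x ∈ Dq σ R q, stc (NR σ R) act1 x
      ≤ (Finset.univ.filter (fun c => Good σ R q c)).card * Nat.card (NR σ R) := by
  refine (orbit_sum_le (NR σ R) act1 act1_mul (Dq σ R q) ConjClasses.mk ?_).trans
    (Nat.mul_le_mul_right _ ?_)
  · intro x hx x' hx' hmk
    obtain ⟨g, hg⟩ := isConj_iff.mp (ConjClasses.mk_eq_mk_iff_isConj.mp hmk)
    exact conj_in_NR hR (mem_Dq.mp hx).1 (mem_Dq.mp hx').1 hg
  · have hsub : (Dq σ R q).image ConjClasses.mk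
        ⊆ (Finset.univ.filter (fun c => Good σ R q c)).image (fun c => c.1) := by
      intro C hC
      obtain ⟨x, hx, rfl⟩ := Finset.mem_image.mp hC
      have hx' := mem_Dq.mp hx
      exact Finset.mem_image.mpr ⟨mkPi x hx'.2,
        Finset.mem_filter.mpr ⟨Finset.mem_univ _, x, hx'.1, hx'.2, rfl⟩, rfl⟩
    exact (Finset.card_le_card hsub).trans Finset.card_image_le

theorem caseC_syl_le [Fintype G] {σ : Finset ℕ} {R : ℕ → Subgroup G} {q : ℕ} (hqp : q.Prime)
    (QD : Subgroup G) (hQDle : QD ≤ DR σ R)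
    (hQDc : Nat.card QD = q ^ (Nat.card (DR σ R)).factorization q) :
    ∑ x ∈ Dq σ R q, stc (DR σ R) act1 x ≤ Nat.card QD * Nat.card (DR σ R) := by
  have hgx : ∀ x ∈ Dq σ R q, ∃ g ∈ DR σ R, g * x * g⁻¹ ∈ QD := by
    intro x hx
    have hx' := mem_Dq.mp hx
    obtain ⟨k, hk⟩ := (isPiElt_singleton_iff hqp).mp hx'.2
    have hPr : IsPGroup q (Subgroup.zpowers x) :=
      IsPGroup.of_card (n := k) (by rw [Nat.card_zpowers, hk])
    obtain ⟨g, hg, hgQ⟩ := conj_into (DR σ R) hqp
      (by rw [Subgroup.zpowers_le]; exact hx'.1) hQDle hPr hQDc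
    exact ⟨g, hg, hgQ x (Subgroup.mem_zpowers x)⟩
  choose! gx hgxD hgxQ using hgx
  refine (orbit_sum_le (DR σ R) act1 act1_mul (Dq σ R q)
    (fun x => gx x * x * (gx x)⁻¹) ?_).trans (Nat.mul_le_mul_right _ ?_)
  · intro x hx x' hx' hEq
    refine ⟨(gx x')⁻¹ * gx x,
      (DR σ R).mul_mem ((DR σ R).inv_mem (hgxD x' hx')) (hgxD x hx), ?_⟩
    have hEq' : gx x * x * (gx x)⁻¹ = gx x' * x' * (gx x')⁻¹ := hEq
    show (gx x')⁻¹ * gx x * x * ((gx x')⁻¹ * gx x)⁻¹ = x'
    calc (gx x')⁻¹ * gx x * x * ((gx x')⁻¹ * gx x)⁻¹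
        = (gx x')⁻¹ * (gx x * x * (gx x)⁻¹) * gx x' := by group
      _ = (gx x')⁻¹ * (gx x' * x' * (gx x')⁻¹) * gx x' := by rw [hEq']
      _ = x' := by group
  · rw [← card_elts QD]
    apply Finset.card_le_card
    intro z hz
    obtain ⟨x, hx, rfl⟩ := Finset.mem_image.mp hz
    exact mem_elts.mpr (hgxQ x hx)

theorem caseC_arith {e q a b a' K img Sbad ng nb kq nN nD : ℕ} (hq : 0 < q) (heq : e + 1 ≤ q)
    (hnN : 0 < nN)
    (f1 : K ≤ img + Sbad)
    (f2 : (e + 1) ^ 3 * Sbad ≤ nb * (b * ((e + 1) ^ 2 + e)))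
    (f3 : (e + 1) * (img * nN) ≤ b * (ng * nN) + e * b * (a' * nD))
    (f4 : 2 * nD ≤ nN) (f5 : q * a' ≤ a) (f6 : ng + nb = kq)
    (f7 : 2 * q * kq ≤ (q + 1) * a) :
    (e + 1) ^ 3 * K ≤ a * b * ((e + 1) ^ 2 + e) := by
  have hF2 : (e + 1) ^ 2 ≤ (e + 1) ^ 2 + e := Nat.le_add_right _ _
  generalize (e + 1) ^ 2 + e = F at f2 hF2 ⊢
  have hg0 : (2 * (e + 1) * img) * nN ≤ (2 * b * ng + e * b * a') * nN := by
    calc (2 * (e + 1) * img) * nN = 2 * ((e + 1) * (img * nN)) := by ring
      _ ≤ 2 * (b * (ng * nN) + e * b * (a' * nD)) := Nat.mul_le_mul_left _ f3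
      _ = 2 * b * ng * nN + e * b * a' * (2 * nD) := by ring
      _ ≤ 2 * b * ng * nN + e * b * a' * nN :=
          Nat.add_le_add_left (Nat.mul_le_mul_left _ f4) _
      _ = (2 * b * ng + e * b * a') * nN := by ring
  have hg1 : 2 * (e + 1) * img ≤ 2 * b * ng + e * b * a' := Nat.le_of_mul_le_mul_right hg0 hnN
  have hg2 : 2 * q * (e + 1) * img ≤ 2 * q * b * ng + e * b * a := by
    calc 2 * q * (e + 1) * img = q * (2 * (e + 1) * img) := by ring
      _ ≤ q * (2 * b * ng + e * b * a') := Nat.mul_le_mul_left _ hg1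
      _ = 2 * q * b * ng + e * b * (q * a') := by ring
      _ ≤ 2 * q * b * ng + e * b * a := Nat.add_le_add_left (Nat.mul_le_mul_left _ f5) _
  have hfin : 2 * q * ((e + 1) ^ 3 * K) ≤ 2 * q * (a * b * F) := by
    calc 2 * q * ((e + 1) ^ 3 * K) ≤ 2 * q * ((e + 1) ^ 3 * (img + Sbad)) :=
          Nat.mul_le_mul_left _ (Nat.mul_le_mul_left _ f1)
      _ = (e + 1) ^ 2 * (2 * q * (e + 1) * img) + 2 * q * ((e + 1) ^ 3 * Sbad) := by ring
      _ ≤ (e + 1) ^ 2 * (2 * q * b * ng + e * b * a) + 2 * q * (nb * (b * F)) :=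
          Nat.add_le_add (Nat.mul_le_mul_left _ hg2) (Nat.mul_le_mul_left _ f2)
      _ = (e + 1) ^ 2 * (2 * q * b * ng) + (e + 1) ^ 2 * (e * b * a)
            + 2 * q * (nb * (b * F)) := by ring
      _ ≤ F * (2 * q * b * ng) + F * (e * b * a) + 2 * q * (nb * (b * F)) :=
          Nat.add_le_add_right
            (Nat.add_le_add (Nat.mul_le_mul_right _ hF2) (Nat.mul_le_mul_right _ hF2)) _
      _ = b * F * (2 * q * (ng + nb)) + F * (e * b * a) := by ring
      _ = b * F * (2 * q * kq) + F * (e * b * a) := by rw [f6]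
      _ ≤ b * F * ((q + 1) * a) + F * (e * b * a) :=
          Nat.add_le_add_right (Nat.mul_le_mul_left _ f7) _
      _ = a * b * F * (q + (e + 1)) := by ring
      _ ≤ a * b * F * (q + q) := Nat.mul_le_mul_left _ (Nat.add_le_add_left heq _)
      _ = 2 * q * (a * b * F) := by ring
  exact Nat.le_of_mul_le_mul_left hfin (by positivity)

theorem caseC [Finite G] (τ : Finset ℕ) (p : ℕ) (hp : 1 ≤ p) (hτ : ∀ s ∈ τ, s.Prime ∧ p ≤ s)
    {q : ℕ} (hq : q ∈ τ)
    (hab : ∀ Q : Subgroup G, Nat.card Q = q ^ (Nat.card G).factorization q →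
      ∀ x ∈ Q, ∀ y ∈ Q, x * y = y * x)
    (R : ℕ → Subgroup G) (hR : Fam (τ.erase q) ⊤ R)
    (hND : (τ.erase q).Nonempty → ∃ n ∈ NR (τ.erase q) R, n ∉ DR (τ.erase q) R)
    (hcount : 2 * q * kpi {q} G ≤ (q + 1) * q ^ (Nat.card G).factorization q)
    (hbad : ∀ x : G, IsPiElt {q} x → (∀ g : G, g * x * g⁻¹ ∉ DR (τ.erase q) R) →
      p ^ 3 * kpi (↑(τ.erase q)) (Subgroup.centralizer ({x} : Set G))
        ≤ piPart (τ.erase q) (Nat.card G) * (p ^ 2 + p - 1))
    (hmany : piPart τ (Nat.card G) * (p ^ 2 + p - 1) < p ^ 3 * kpi (↑τ) G) :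
    ∃ R' : ℕ → Subgroup G, Fam τ ⊤ R' := by
  have hqp : q.Prime := (hτ q hq).1
  have hpq : p ≤ q := (hτ q hq).2
  have hσp : ∀ s ∈ τ.erase q, s.Prime := fun s hs => (hτ s (Finset.mem_of_mem_erase hs)).1
  have hτσ : insert q (τ.erase q) = τ := Finset.insert_erase hq
  obtain ⟨QD, hQDle, hQDc⟩ := exists_sylow_le (DR (τ.erase q) R) hqp
  have hvle : (Nat.card (DR (τ.erase q) R)).factorization q ≤ (Nat.card G).factorization q :=
    (Nat.factorization_le_iff_dvd Nat.card_pos.ne' Nat.card_pos.ne').mpr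
      (Subgroup.card_subgroup_dvd_card _) q
  rcases hvle.eq_or_lt with hveq | hvlt
  · rw [hveq] at hQDc
    refine ⟨fun s => if s = q then QD else R s, ?_⟩
    rw [← hτσ]
    refine hR.extend hqp QD le_top (by rw [Subgroup.card_top]; exact hQDc) (hab QD hQDc) ?_
    intro s hs _ x hx y hy
    exact (Subgroup.mem_centralizer_iff.mp (mem_DR.mp (hQDle hx) s hs) y hy).symm
  · exfalso
    have hσne : (τ.erase q).Nonempty := by
      by_contra hemp
      rw [Finset.not_nonempty_iff_eq_empty] at hemp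
      have hD : DR (τ.erase q) R = ⊤ := by
        rw [eq_top_iff]
        intro x _
        rw [mem_DR, hemp]
        intro s hs
        exact absurd hs (Finset.notMem_empty s)
      rw [hD, Subgroup.card_top] at hvlt
      exact lt_irrefl _ hvlt
    obtain ⟨n0, hn0N, hn0D⟩ := hND hσne
    have : Fintype G := Fintype.ofFinite G
    let _ : Fintype (PiCls ({q} : Set ℕ) G) := Fintype.ofFinite _
    have hbc : Nat.card (hull (τ.erase q) R) = piPart (τ.erase q) (Nat.card G) := by
      rw [hR.card_hull, Subgroup.card_top]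
    have hm : piPart τ (Nat.card G)
        = q ^ (Nat.card G).factorization q * piPart (τ.erase q) (Nat.card G) :=
      piPart_eq_mul_erase τ hq _
    have ha' : q * Nat.card QD ≤ q ^ (Nat.card G).factorization q := by
      rw [hQDc, ← pow_succ']
      exact Nat.pow_le_pow_right hqp.pos hvlt
    have hDN : 2 * Nat.card (DR (τ.erase q) R) ≤ Nat.card (NR (τ.erase q) R) := by
      apply card_idx_le (DR_le_NR _ _)
      · intro hEq
        apply hn0D
        rw [hEq]; exact hn0N
      · intro l hl _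
        exact hl.two_le
    choose rep hrep hrep' using (exists_rep (π := ({q} : Set ℕ)) (G := G))
    obtain ⟨e, rfl⟩ : ∃ e, p = e + 1 := ⟨p - 1, by omega⟩
    have hF : (e + 1) ^ 2 + (e + 1) - 1 = (e + 1) ^ 2 + e := by omega
    simp only [hF] at hbad hmany
    have hl : ∀ l : ℕ, l.Prime → l ∣ Nat.card (hull (τ.erase q) R) → e + 1 ≤ l := by
      intro l hl hld
      rw [hbc] at hld
      exact (hτ l (Finset.mem_of_mem_erase (prime_dvd_piPart hσp hl hld))).2
    have f1 := caseC_cover hq hqp R hR rep (fun c => ⟨hrep c, hrep' c⟩)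
    have hK2 : ∀ c ∈ Finset.univ.filter (fun c => ¬ Good (τ.erase q) R q c),
        (e + 1) ^ 3 * (Tset (↑(τ.erase q)) (rep c)).ncard
          ≤ piPart (τ.erase q) (Nat.card G) * ((e + 1) ^ 2 + e) := by
      intro c hc
      have hcb : ¬ Good (τ.erase q) R q c := (Finset.mem_filter.mp hc).2
      refine (Nat.mul_le_mul_left _ (ncard_Tset_le _ _)).trans (hbad (rep c) (hrep c) ?_)
      intro g hgD
      apply hcb
      exact ⟨g * rep c * g⁻¹, hgD, isPiElt_conj g (hrep c),
        ((mkPi_eq_iff (hrep c) (isPiElt_conj g (hrep c))).mpr ⟨g, rfl⟩).symm.trans (hrep' c)⟩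
    have f2 : (e + 1) ^ 3 * ∑ c ∈ Finset.univ.filter (fun c => ¬ Good (τ.erase q) R q c),
          (Tset (↑(τ.erase q)) (rep c)).ncard
        ≤ (Finset.univ.filter (fun c => ¬ Good (τ.erase q) R q c)).card
          * (piPart (τ.erase q) (Nat.card G) * ((e + 1) ^ 2 + e)) := by
      rw [Finset.mul_sum, ← smul_eq_mul, ← Finset.sum_const]
      exact Finset.sum_le_sum hK2
    have f3 : (e + 1) * (((Dq (τ.erase q) R q ×ˢ elts (hull (τ.erase q) R)).image
          (fun ξ : G × G => ConjClasses.mk (ξ.1 * ξ.2))).card * Nat.card (NR (τ.erase q) R))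
        ≤ piPart (τ.erase q) (Nat.card G)
            * ((Finset.univ.filter (fun c => Good (τ.erase q) R q c)).card
              * Nat.card (NR (τ.erase q) R))
          + e * piPart (τ.erase q) (Nat.card G)
            * (Nat.card QD * Nat.card (DR (τ.erase q) R)) := by
      rw [← hbc]
      calc (e + 1) * (((Dq (τ.erase q) R q ×ˢ elts (hull (τ.erase q) R)).image
            (fun ξ : G × G => ConjClasses.mk (ξ.1 * ξ.2))).card * Nat.card (NR (τ.erase q) R))
          ≤ (e + 1) * ∑ ξ ∈ Dq (τ.erase q) R q ×ˢ elts (hull (τ.erase q) R),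
              stc (NR (τ.erase q) R) act2 ξ :=
            Nat.mul_le_mul_left _ (caseC_pair_le _ R q)
        _ = ∑ x ∈ Dq (τ.erase q) R q, (e + 1) * ∑ y ∈ elts (hull (τ.erase q) R),
              stc (NR (τ.erase q) R) act2 (x, y) := by
            rw [Finset.sum_product, Finset.mul_sum]
        _ ≤ ∑ x ∈ Dq (τ.erase q) R q,
              (Nat.card (hull (τ.erase q) R) * stc (NR (τ.erase q) R) act1 x
                + e * Nat.card (hull (τ.erase q) R) * stc (DR (τ.erase q) R) act1 x) :=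
            Finset.sum_le_sum (fun x _ => caseC_fix_le e hl x)
        _ = Nat.card (hull (τ.erase q) R) * ∑ x ∈ Dq (τ.erase q) R q,
                stc (NR (τ.erase q) R) act1 x
              + e * Nat.card (hull (τ.erase q) R) * ∑ x ∈ Dq (τ.erase q) R q,
                stc (DR (τ.erase q) R) act1 x := by
            rw [Finset.sum_add_distrib, Finset.mul_sum, Finset.mul_sum]
        _ ≤ _ := Nat.add_le_add (Nat.mul_le_mul_left _ (caseC_good_le hR q))
            (Nat.mul_le_mul_left _ (caseC_syl_le hqp QD hQDle hQDc))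
    have f6 : (Finset.univ.filter (fun c => Good (τ.erase q) R q c)).card
        + (Finset.univ.filter (fun c => ¬ Good (τ.erase q) R q c)).card = kpi {q} G := by
      rw [Finset.card_filter_add_card_filter_not, Finset.card_univ, kpi,
        Nat.card_eq_fintype_card]
    have hfinal := caseC_arith hqp.pos hpq Nat.card_pos f1 f2 f3 hDN ha' f6 hcount
    rw [hm] at hmany
    exact absurd hmany (not_lt.mpr hfinal)

end CaseC

end Cfsg.Agent.Lib.Helper30.PiHall
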