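import Mathlib
import Cfsg.Agent.Lib.Helper1.PiClasses
import Cfsg.Agent.Lib.Helper30.PiHall
import Cfsg.Agent.Lib.Helper30.PiHallA
import Cfsg.Agent.Lib.Helper30.PiHallC
import Cfsg.Agent.Lib.Helper30.PiHallRaw
import Cfsg.Agent.Lib.Helper30.PiHallMain
import Cfsg.Agent.S3897

set_option autoImplicit false

/-!
# Many π-classes, threshold `1/p`: the Sylow `p`-subgroup centralizes the abelian Hall subgroup

`σ` is a finite set of primes, all larger than the prime `p`, `R` a commuting family of abelian
Sylow subgroups for `σ`, and `|G|_p |G|_σ < p · k_{σ ∪ {p}}(G)`.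

`caseA_min`: if `G` has a normal `p`-complement containing the family, then the common centralizer
of the family contains a Sylow `p`-subgroup of `G`.
`caseC_min`: the same if the common normalizer of the family is larger than its common centralizer
and `2 p k_p(G) ≤ (p + 1) |G|_p`.
`star_of_ND`: the remaining case (`NR σ R ≤ DR σ R`) is a hypothesis; conclusion: pairwise
commuting Sylow subgroups for all primes of `τ` (all `≥ p`) when `|G|_τ < p · k_τ(G)`.
-/

namespace Cfsg.Agent.Lib.Helper30.PiHall

open Cfsg.Agent.Lib.Helper1.PiClasses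
open scoped Classical

universe u

theorem caseC_arith_min {p a b a' K img Sbad ng nb kp nN nD : ℕ} (hnN : 0 < nN)
    (f1 : K ≤ img + Sbad)
    (f2 : (p + 1) ^ 3 * Sbad ≤ nb * (b * ((p + 1) ^ 2 + p)))
    (f3 : (p + 1) * (img * nN) ≤ b * (ng * nN) + p * b * (a' * nD))
    (f4 : 2 * nD ≤ nN) (f5 : p * a' ≤ a) (f6 : ng + nb = kp)
    (f7 : 2 * p * kp ≤ (p + 1) * a) :
    p * K ≤ a * b := by
  have hF2 : (p + 1) ^ 2 ≤ (p + 1) ^ 2 + p := Nat.le_add_right _ _
  have hF3 : (p + 1) ^ 2 + p + p * (p + 1) ≤ 2 * (p + 1) ^ 2 := by nlinarith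
  generalize (p + 1) ^ 2 + p = F at f2 hF2 hF3
  have hg0 : (2 * (p + 1) * img) * nN ≤ (2 * b * ng + p * b * a') * nN := by
    calc (2 * (p + 1) * img) * nN = 2 * ((p + 1) * (img * nN)) := by ring
      _ ≤ 2 * (b * (ng * nN) + p * b * (a' * nD)) := Nat.mul_le_mul_left _ f3
      _ = 2 * b * ng * nN + p * b * a' * (2 * nD) := by ring
      _ ≤ 2 * b * ng * nN + p * b * a' * nN :=
          Nat.add_le_add_left (Nat.mul_le_mul_left _ f4) _
      _ = (2 * b * ng + p * b * a') * nN := by ring
  have hg1 : 2 * (p + 1) * img ≤ 2 * b * ng + p * b * a' := Nat.le_of_mul_le_mul_right hg0 hnN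
  have hg2 : 2 * (p + 1) * img ≤ 2 * b * ng + b * a := by
    calc 2 * (p + 1) * img ≤ 2 * b * ng + p * b * a' := hg1
      _ = 2 * b * ng + b * (p * a') := by ring
      _ ≤ 2 * b * ng + b * a := Nat.add_le_add_left (Nat.mul_le_mul_left _ f5) _
  have hfin : 2 * (p + 1) ^ 3 * (p * K) ≤ 2 * (p + 1) ^ 3 * (a * b) := by
    calc 2 * (p + 1) ^ 3 * (p * K) ≤ 2 * (p + 1) ^ 3 * (p * (img + Sbad)) :=
          Nat.mul_le_mul_left _ (Nat.mul_le_mul_left _ f1)
      _ = p * (p + 1) ^ 2 * (2 * (p + 1) * img) + 2 * p * ((p + 1) ^ 3 * Sbad) := by ring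
      _ ≤ p * (p + 1) ^ 2 * (2 * b * ng + b * a) + 2 * p * (nb * (b * F)) :=
          Nat.add_le_add (Nat.mul_le_mul_left _ hg2) (Nat.mul_le_mul_left _ f2)
      _ = (p + 1) ^ 2 * (2 * p * b * ng) + p * (p + 1) ^ 2 * (b * a)
            + 2 * p * (nb * (b * F)) := by ring
      _ ≤ F * (2 * p * b * ng) + p * (p + 1) ^ 2 * (b * a) + 2 * p * (nb * (b * F)) :=
          Nat.add_le_add_right (Nat.add_le_add_right (Nat.mul_le_mul_right _ hF2) _) _
      _ = b * F * (2 * p * (ng + nb)) + p * (p + 1) ^ 2 * (b * a) := by ring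
      _ = b * F * (2 * p * kp) + p * (p + 1) ^ 2 * (b * a) := by rw [f6]
      _ ≤ b * F * ((p + 1) * a) + p * (p + 1) ^ 2 * (b * a) :=
          Nat.add_le_add_right (Nat.mul_le_mul_left _ f7) _
      _ = a * b * (p + 1) * (F + p * (p + 1)) := by ring
      _ ≤ a * b * (p + 1) * (2 * (p + 1) ^ 2) := Nat.mul_le_mul_left _ hF3
      _ = 2 * (p + 1) ^ 3 * (a * b) := by ring
  exact Nat.le_of_mul_le_mul_left hfin (by positivity)

section StarA

variable {G : Type u} [Group G] [Finite G]

/-- normal `p`-complement case -/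
theorem caseA_min (σ : Finset ℕ) (p : ℕ) (hp : p.Prime) (hσ : ∀ s ∈ σ, s.Prime ∧ p < s)
    (K : Subgroup G) [K.Normal] (hK : ¬ p ∣ Nat.card K)
    (R : ℕ → Subgroup G) (hR : Fam σ ⊤ R) (hRK : ∀ s ∈ σ, R s ≤ K)
    (hmany : p ^ (Nat.card G).factorization p * piPart σ (Nat.card G)
      < p * kpi (↑(insert p σ)) G) :
    ∃ P : Subgroup G, P ≤ DR σ R ∧ Nat.card P = p ^ (Nat.card G).factorization p := by
  have hpσ : p ∉ σ := fun h => lt_irrefl p (hσ p h).2
  have hσp : ∀ s ∈ σ, s.Prime := fun s hs => (hσ s hs).1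
  have hτ : ∀ s ∈ insert p σ, s.Prime := by
    intro s hs
    rcases Finset.mem_insert.mp hs with rfl | h
    · exact hp
    · exact hσp s h
  have herase : (insert p σ).erase p = σ := Finset.erase_insert hpσ
  obtain ⟨R1, hR1le, hR1c⟩ := exists_sylow_NR hR K hp hK hRK
  by_cases hcent : R1 ≤ DR σ R
  · exact ⟨R1, hcent, hR1c⟩
  · exfalso
    have : Fintype G := Fintype.ofFinite G
    have hraw := caseA_raw (insert p σ) hτ (Finset.mem_insert_self p σ) K hK R
      (by rw [herase]; exact hR) (by rw [herase]; exact hRK) R1 (by rw [herase]; exact hR1le)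
      hR1c
    rw [herase] at hraw
    have hbc : Nat.card (hull σ R) = piPart σ (Nat.card G) := by
      rw [hR.card_hull, Subgroup.card_top]
    have hH0 : hull σ R ⊓ Subgroup.centralizer (R1 : Set G) ≠ hull σ R := by
      intro hEq
      apply hcent
      intro x hx
      rw [mem_DR]
      intro s hs
      rw [Subgroup.mem_centralizer_iff]
      intro y hy
      have hy' : y ∈ hull σ R ⊓ Subgroup.centralizer (R1 : Set G) := by
        rw [hEq]; exact le_hull hs hy
      exact (Subgroup.mem_centralizer_iff.mp (Subgroup.mem_inf.mp hy').2 x hx).symm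
    have hH0c : (p + 1) * Nat.card (hull σ R ⊓ Subgroup.centralizer (R1 : Set G) : Subgroup G)
        ≤ piPart σ (Nat.card G) := by
      rw [← hbc]
      apply card_idx_le inf_le_left hH0
      intro l hl hld
      rw [hbc] at hld
      exact (hσ l (prime_dvd_piPart hσp hl hld)).2
    have hω1 : ∀ z : G, Nat.card (R1 ⊓ Subgroup.centralizer ({z} : Set G) : Subgroup G)
        ≤ p ^ (Nat.card G).factorization p := fun z => by
      rw [← hR1c]; exact Subgroup.card_le_of_le inf_le_left
    have hω2 : ∀ z : G, z ∉ Subgroup.centralizer (R1 : Set G) →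
        p * Nat.card (R1 ⊓ Subgroup.centralizer ({z} : Set G) : Subgroup G)
          ≤ p ^ (Nat.card G).factorization p := by
      intro z hz
      rw [← hR1c]
      apply card_idx_le inf_le_left
      · intro hEq
        apply hz
        rw [Subgroup.mem_centralizer_iff]
        intro x hx
        have hx' : x ∈ R1 ⊓ Subgroup.centralizer ({z} : Set G) := by rw [hEq]; exact hx
        exact (Subgroup.mem_centralizer_iff.mp (Subgroup.mem_inf.mp hx').2 z
          (Set.mem_singleton z)).symm
      · intro l hl hld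
        rw [hR1c] at hld
        exact Nat.le_of_eq ((Nat.prime_dvd_prime_iff_eq hl hp).mp (hl.dvd_of_dvd_pow hld)).symm
    have hc0 : ((elts (hull σ R)).filter
        (fun z => z ∈ Subgroup.centralizer (R1 : Set G))).card
        = Nat.card (hull σ R ⊓ Subgroup.centralizer (R1 : Set G) : Subgroup G) :=
      (Nat.subtype_card _ (fun x => by
        simp only [Finset.mem_filter, mem_elts, Subgroup.mem_inf])).symm
    have hzw : ((elts (hull σ R)).filter
        (fun z => z ∈ Subgroup.centralizer (R1 : Set G))).card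
        + ((elts (hull σ R)).filter
        (fun z => ¬ z ∈ Subgroup.centralizer (R1 : Set G))).card
        = piPart σ (Nat.card G) := by
      rw [Finset.card_filter_add_card_filter_not, card_elts, hbc]
    rw [hc0] at hzw
    have hsum : p ^ 2 * ∑ z ∈ elts (hull σ R),
          Nat.card (R1 ⊓ Subgroup.centralizer ({z} : Set G) : Subgroup G)
            * Nat.card (R1 ⊓ Subgroup.centralizer ({z} : Set G) : Subgroup G)
        ≤ Nat.card (hull σ R ⊓ Subgroup.centralizer (R1 : Set G) : Subgroup G)
            * (p ^ 2 * (p ^ (Nat.card G).factorization p) ^ 2)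
          + ((elts (hull σ R)).filter
              (fun z => ¬ z ∈ Subgroup.centralizer (R1 : Set G))).card
            * (p ^ (Nat.card G).factorization p) ^ 2 := by
      rw [Finset.mul_sum]
      refine le_trans (Finset.sum_le_sum (g := fun z =>
        if z ∈ Subgroup.centralizer (R1 : Set G)
          then p ^ 2 * (p ^ (Nat.card G).factorization p) ^ 2
          else (p ^ (Nat.card G).factorization p) ^ 2) ?_) ?_
      · intro z _
        split_ifs with hz
        · have := hω1 z
          have h5 := Nat.mul_le_mul this this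
          rw [← pow_two (p ^ (Nat.card G).factorization p)] at h5
          exact Nat.mul_le_mul_left _ h5
        · have := hω2 z hz
          have h5 := Nat.mul_le_mul this this
          rw [← pow_two (p ^ (Nat.card G).factorization p)] at h5
          calc p ^ 2 * (Nat.card (R1 ⊓ Subgroup.centralizer ({z} : Set G) : Subgroup G)
                * Nat.card (R1 ⊓ Subgroup.centralizer ({z} : Set G) : Subgroup G))
              = p * Nat.card (R1 ⊓ Subgroup.centralizer ({z} : Set G) : Subgroup G)
                * (p * Nat.card (R1 ⊓ Subgroup.centralizer ({z} : Set G) : Subgroup G)) := by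
                ring
            _ ≤ (p ^ (Nat.card G).factorization p) ^ 2 := h5
      · rw [Finset.sum_ite, Finset.sum_const, Finset.sum_const, smul_eq_mul, smul_eq_mul, hc0]
    -- arithmetic
    generalize kpi (↑(insert p σ)) G = kk at hmany hraw
    generalize (∑ z ∈ elts (hull σ R),
          Nat.card (R1 ⊓ Subgroup.centralizer ({z} : Set G) : Subgroup G)
            * Nat.card (R1 ⊓ Subgroup.centralizer ({z} : Set G) : Subgroup G)) = S2 at hraw hsum
    generalize Nat.card (hull σ R ⊓ Subgroup.centralizer (R1 : Set G) : Subgroup G)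
      = h0 at hH0c hzw hsum
    generalize ((elts (hull σ R)).filter
              (fun z => ¬ z ∈ Subgroup.centralizer (R1 : Set G))).card = w at hzw hsum
    have hapos : 0 < p ^ (Nat.card G).factorization p := pow_pos hp.pos _
    generalize p ^ (Nat.card G).factorization p = a at hmany hraw hsum hapos
    generalize piPart σ (Nat.card G) = b at hmany hH0c hzw
    obtain ⟨ρ, hρ⟩ : ∃ ρ, p ^ 2 = ρ + 1 :=
      ⟨p ^ 2 - 1, by have := Nat.pos_of_ne_zero (pow_ne_zero 2 hp.ne_zero); omega⟩
    rw [hρ] at hsum
    have hA : (ρ + 1) * kk ≤ a * (h0 * (ρ + 1) + w) := by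
      have h6 : (ρ + 1) * kk * a ≤ a * (h0 * (ρ + 1) + w) * a := by
        calc (ρ + 1) * kk * a = (ρ + 1) * (kk * a) := by ring
          _ ≤ (ρ + 1) * S2 := Nat.mul_le_mul_left _ hraw
          _ ≤ h0 * ((ρ + 1) * a ^ 2) + w * a ^ 2 := hsum
          _ = a * (h0 * (ρ + 1) + w) * a := by ring
      exact Nat.le_of_mul_le_mul_right h6 hapos
    have hB : (p + 1) * ((ρ + 1) * kk) ≤ a * (b * (ρ + 1 + p)) := by
      calc (p + 1) * ((ρ + 1) * kk) ≤ (p + 1) * (a * (h0 * (ρ + 1) + w)) :=
            Nat.mul_le_mul_left _ hA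
        _ = a * (((p + 1) * h0) * ρ + (p + 1) * (h0 + w)) := by ring
        _ ≤ a * (b * ρ + (p + 1) * b) := by
            rw [hzw]
            exact Nat.mul_le_mul_left _ (Nat.add_le_add_right (Nat.mul_le_mul_right _ hH0c) _)
        _ = a * (b * (ρ + 1 + p)) := by ring
    rw [← hρ] at hB
    have hC : (p + 1) * p * (p * kk) ≤ (p + 1) * p * (a * b) := by
      calc (p + 1) * p * (p * kk) = (p + 1) * (p ^ 2 * kk) := by ring
        _ ≤ a * (b * (p ^ 2 + p)) := hB
        _ = (p + 1) * p * (a * b) := by ring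
    have hD : p * kk ≤ a * b := Nat.le_of_mul_le_mul_left hC (by have := hp.pos; positivity)
    exact absurd hmany (not_lt.mpr hD)

/-- counting case: the common normalizer of the family is larger than its common centralizer -/
theorem caseC_min (σ : Finset ℕ) (p : ℕ) (hp : p.Prime) (hσ : ∀ s ∈ σ, s.Prime ∧ p < s)
    (R : ℕ → Subgroup G) (hR : Fam σ ⊤ R)
    (hND : ∃ n ∈ NR σ R, n ∉ DR σ R)
    (hcount : 2 * p * kpi {p} G ≤ (p + 1) * p ^ (Nat.card G).factorization p)
    (hmany : p ^ (Nat.card G).factorization p * piPart σ (Nat.card G)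
      < p * kpi (↑(insert p σ)) G) :
    ∃ P : Subgroup G, P ≤ DR σ R ∧ Nat.card P = p ^ (Nat.card G).factorization p := by
  have hpσ : p ∉ σ := fun h => lt_irrefl p (hσ p h).2
  have hσp : ∀ s ∈ σ, s.Prime := fun s hs => (hσ s hs).1
  have herase : (insert p σ).erase p = σ := Finset.erase_insert hpσ
  obtain ⟨QD, hQDle, hQDc⟩ := exists_sylow_le (DR σ R) hp
  have hvle : (Nat.card (DR σ R)).factorization p ≤ (Nat.card G).factorization p :=
    (Nat.factorization_le_iff_dvd Nat.card_pos.ne' Nat.card_pos.ne').mpr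
      (Subgroup.card_subgroup_dvd_card _) p
  rcases hvle.eq_or_lt with hveq | hvlt
  · rw [hveq] at hQDc
    exact ⟨QD, hQDle, hQDc⟩
  · exfalso
    obtain ⟨n0, hn0N, hn0D⟩ := hND
    have : Fintype G := Fintype.ofFinite G
    let _ : Fintype (PiCls ({p} : Set ℕ) G) := Fintype.ofFinite _
    have hbc : Nat.card (hull σ R) = piPart σ (Nat.card G) := by
      rw [hR.card_hull, Subgroup.card_top]
    have ha' : p * Nat.card QD ≤ p ^ (Nat.card G).factorization p := by
      rw [hQDc, ← pow_succ']
      exact Nat.pow_le_pow_right hp.pos hvlt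
    have hDN : 2 * Nat.card (DR σ R) ≤ Nat.card (NR σ R) := by
      apply card_idx_le (DR_le_NR _ _)
      · intro hEq
        apply hn0D
        rw [hEq]; exact hn0N
      · intro l hl _
        exact hl.two_le
    choose rep hrep hrep' using (exists_rep (π := ({p} : Set ℕ)) (G := G))
    have hl : ∀ l : ℕ, l.Prime → l ∣ Nat.card (hull σ R) → p + 1 ≤ l := by
      intro l hl hld
      rw [hbc] at hld
      exact (hσ l (prime_dvd_piPart hσp hl hld)).2
    -- bad classes
    have hbad : ∀ x : G, IsPiElt {p} x → (∀ g : G, g * x * g⁻¹ ∉ DR σ R) →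
        (p + 1) ^ 3 * kpi (↑σ) (Subgroup.centralizer ({x} : Set G))
          ≤ piPart σ (Nat.card G) * ((p + 1) ^ 2 + p) := by
      intro x _ hxD
      have hF : (p + 1) ^ 2 + (p + 1) - 1 = (p + 1) ^ 2 + p := by omega
      by_contra hlt
      push Not at hlt
      have hvle : ∀ s, (Nat.card (Subgroup.centralizer ({x} : Set G))).factorization s
          ≤ (Nat.card G).factorization s := fun s =>
        (Nat.factorization_le_iff_dvd Nat.card_pos.ne' Nat.card_pos.ne').mpr
          (Subgroup.card_subgroup_dvd_card _) s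
      by_cases hval : ∀ s ∈ σ, (Nat.card G).factorization s
          ≤ (Nat.card (Subgroup.centralizer ({x} : Set G))).factorization s
      · have hpp : piPart σ (Nat.card (Subgroup.centralizer ({x} : Set G)))
            = piPart σ (Nat.card G) := by
          unfold piPart
          apply Finset.prod_congr rfl
          intro s hs
          rw [le_antisymm (hvle s) (hval s hs)]
        rw [← hpp, ← hF] at hlt
        obtain ⟨R', hR'⟩ := exists_fam (p + 1) (Nat.succ_pos p) σ
          (Subgroup.centralizer ({x} : Set G)) (fun s hs => ⟨hσp s hs, (hσ s hs).2⟩) hlt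
        have hR'' : Fam σ ⊤
            (fun s => (R' s).map (Subgroup.centralizer ({x} : Set G)).subtype) := by
          refine ⟨hσp, fun s _ => le_top, ?_, ?_⟩
          · intro s hs
            show Nat.card ((R' s).map (Subgroup.centralizer ({x} : Set G)).subtype) = _
            rw [Subgroup.card_subtype, hR'.card s hs, Subgroup.card_top, Subgroup.card_top,
              le_antisymm (hvle s) (hval s hs)]
          · intro s hs t ht a ha b hb
            obtain ⟨a', ha', rfl⟩ := Subgroup.mem_map.mp ha
            obtain ⟨b', hb', rfl⟩ := Subgroup.mem_map.mp hb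
            have h2 := congrArg Subtype.val (hR'.comm s hs t ht a' ha' b' hb')
            simpa using h2
        obtain ⟨g, -, hgR⟩ := fam_conj σ ⊤ _ R hR'' hR
        apply hxD g
        rw [mem_DR]
        intro s hs
        have heq : cj g ((R' s).map (Subgroup.centralizer ({x} : Set G)).subtype) = R s := by
          apply Subgroup.eq_of_le_of_card_ge
          · intro z hz
            obtain ⟨w, hw, rfl⟩ := mem_cj.mp hz
            exact hgR s hs w hw
          · rw [card_cj, hR''.card s hs, hR.card s hs]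
        rw [Subgroup.mem_centralizer_iff]
        intro y hy
        rw [← heq] at hy
        obtain ⟨w, hw, rfl⟩ := mem_cj.mp hy
        obtain ⟨w', hw', rfl⟩ := Subgroup.mem_map.mp hw
        have hwx : x * (w' : G) = (w' : G) * x :=
          Subgroup.mem_centralizer_iff.mp w'.2 x (Set.mem_singleton x)
        show g * (w' : G) * g⁻¹ * (g * x * g⁻¹) = g * x * g⁻¹ * (g * (w' : G) * g⁻¹)
        calc g * (w' : G) * g⁻¹ * (g * x * g⁻¹) = g * ((w' : G) * x) * g⁻¹ := by group
          _ = g * (x * (w' : G)) * g⁻¹ := by rw [hwx]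
          _ = g * x * g⁻¹ * (g * (w' : G) * g⁻¹) := by group
      · push Not at hval
        obtain ⟨s, hs, hslt⟩ := hval
        have hsp := hσp s hs
        have h1 := kpi_le_piPart σ hσp (Subgroup.centralizer ({x} : Set G))
        have h2 : s * piPart σ (Nat.card (Subgroup.centralizer ({x} : Set G)))
            ≤ piPart σ (Nat.card G) := by
          rw [piPart_eq_mul_erase σ hs
              (Nat.card (Subgroup.centralizer ({x} : Set G))),
            piPart_eq_mul_erase σ hs (Nat.card G), ← mul_assoc, ← pow_succ']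
          apply Nat.mul_le_mul
          · exact Nat.pow_le_pow_right hsp.pos hslt
          · exact piPart_le_of_dvd _ (fun t ht => hσp t (Finset.mem_of_mem_erase ht))
              Nat.card_pos.ne' Nat.card_pos.ne' (Subgroup.card_subgroup_dvd_card _)
        have hps : p + 1 ≤ s := (hσ s hs).2
        have h3 : (p + 1) ^ 3 * kpi (↑σ) (Subgroup.centralizer ({x} : Set G))
            ≤ piPart σ (Nat.card G) * ((p + 1) ^ 2 + p) := by
          calc (p + 1) ^ 3 * kpi (↑σ) (Subgroup.centralizer ({x} : Set G))
              ≤ (p + 1) ^ 3 * piPart σ (Nat.card (Subgroup.centralizer ({x} : Set G))) :=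
                Nat.mul_le_mul_left _ h1
            _ = (p + 1) ^ 2 * ((p + 1) * piPart σ
                  (Nat.card (Subgroup.centralizer ({x} : Set G)))) := by ring
            _ ≤ (p + 1) ^ 2 * (s * piPart σ
                  (Nat.card (Subgroup.centralizer ({x} : Set G)))) :=
                Nat.mul_le_mul_left _ (Nat.mul_le_mul_right _ hps)
            _ ≤ (p + 1) ^ 2 * piPart σ (Nat.card G) := Nat.mul_le_mul_left _ h2
            _ ≤ ((p + 1) ^ 2 + p) * piPart σ (Nat.card G) :=
                Nat.mul_le_mul_right _ (Nat.le_add_right _ _)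
            _ = piPart σ (Nat.card G) * ((p + 1) ^ 2 + p) := Nat.mul_comm _ _
        exact absurd hlt (not_lt.mpr h3)
    have f1 := caseC_cover (τ := insert p σ) (Finset.mem_insert_self p σ) hp R
      (by rw [herase]; exact hR) rep (fun c => ⟨hrep c, hrep' c⟩)
    rw [herase] at f1
    have hK2 : ∀ c ∈ Finset.univ.filter (fun c => ¬ Good σ R p c),
        (p + 1) ^ 3 * (Tset (↑σ) (rep c)).ncard
          ≤ piPart σ (Nat.card G) * ((p + 1) ^ 2 + p) := by
      intro c hc
      have hcb : ¬ Good σ R p c := (Finset.mem_filter.mp hc).2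
      refine (Nat.mul_le_mul_left _ (ncard_Tset_le _ _)).trans (hbad (rep c) (hrep c) ?_)
      intro g hgD
      apply hcb
      exact ⟨g * rep c * g⁻¹, hgD, isPiElt_conj g (hrep c),
        ((mkPi_eq_iff (hrep c) (isPiElt_conj g (hrep c))).mpr ⟨g, rfl⟩).symm.trans (hrep' c)⟩
    have f2 : (p + 1) ^ 3 * ∑ c ∈ Finset.univ.filter (fun c => ¬ Good σ R p c),
          (Tset (↑σ) (rep c)).ncard
        ≤ (Finset.univ.filter (fun c => ¬ Good σ R p c)).card
          * (piPart σ (Nat.card G) * ((p + 1) ^ 2 + p)) := by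
      rw [Finset.mul_sum, ← smul_eq_mul, ← Finset.sum_const]
      exact Finset.sum_le_sum hK2
    have f3 : (p + 1) * (((Dq σ R p ×ˢ elts (hull σ R)).image
          (fun ξ : G × G => ConjClasses.mk (ξ.1 * ξ.2))).card * Nat.card (NR σ R))
        ≤ piPart σ (Nat.card G)
            * ((Finset.univ.filter (fun c => Good σ R p c)).card
              * Nat.card (NR σ R))
          + p * piPart σ (Nat.card G)
            * (Nat.card QD * Nat.card (DR σ R)) := by
      rw [← hbc]
      calc (p + 1) * (((Dq σ R p ×ˢ elts (hull σ R)).image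
            (fun ξ : G × G => ConjClasses.mk (ξ.1 * ξ.2))).card * Nat.card (NR σ R))
          ≤ (p + 1) * ∑ ξ ∈ Dq σ R p ×ˢ elts (hull σ R),
              stc (NR σ R) act2 ξ :=
            Nat.mul_le_mul_left _ (caseC_pair_le _ R p)
        _ = ∑ x ∈ Dq σ R p, (p + 1) * ∑ y ∈ elts (hull σ R),
              stc (NR σ R) act2 (x, y) := by
            rw [Finset.sum_product, Finset.mul_sum]
        _ ≤ ∑ x ∈ Dq σ R p,
              (Nat.card (hull σ R) * stc (NR σ R) act1 x
                + p * Nat.card (hull σ R) * stc (DR σ R) act1 x) :=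
            Finset.sum_le_sum (fun x _ => caseC_fix_le p hl x)
        _ = Nat.card (hull σ R) * ∑ x ∈ Dq σ R p,
                stc (NR σ R) act1 x
              + p * Nat.card (hull σ R) * ∑ x ∈ Dq σ R p,
                stc (DR σ R) act1 x := by
            rw [Finset.sum_add_distrib, Finset.mul_sum, Finset.mul_sum]
        _ ≤ _ := Nat.add_le_add (Nat.mul_le_mul_left _ (caseC_good_le hR p))
            (Nat.mul_le_mul_left _ (caseC_syl_le hp QD hQDle hQDc))
    have f6 : (Finset.univ.filter (fun c => Good σ R p c)).card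
        + (Finset.univ.filter (fun c => ¬ Good σ R p c)).card = kpi {p} G := by
      rw [Finset.card_filter_add_card_filter_not, Finset.card_univ, kpi,
        Nat.card_eq_fintype_card]
    have hfinal := caseC_arith_min Nat.card_pos f1 f2 f3 hDN ha' f6 hcount
    exact absurd hmany (not_lt.mpr hfinal)

/-- assembly: pairwise commuting Sylow subgroups for `τ` (all primes `≥ p`) when
`|G|_τ < p · k_τ(G)`, given the case `NR σ R ≤ DR σ R` as a hypothesis -/
theorem star_of_ND (p : ℕ) (hp : p.Prime) (τ : Finset ℕ) (hτ : ∀ r ∈ τ, r.Prime ∧ p ≤ r)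
    (hND : ∀ (σ : Finset ℕ) (R : ℕ → Subgroup G), (∀ s ∈ σ, p < s) → Fam σ ⊤ R →
      NR σ R ≤ DR σ R →
      p ^ (Nat.card G).factorization p * piPart σ (Nat.card G) < p * kpi (↑(insert p σ)) G →
      ∃ P : Subgroup G, Nat.card P = p ^ (Nat.card G).factorization p ∧
        ∀ s ∈ σ, ∀ x ∈ P, ∀ y ∈ R s, x * y = y * x)
    (h : piPart τ (Nat.card G) < p * kpi (↑τ : Set ℕ) G) :
    ∃ R : ℕ → Subgroup G, (∀ r ∈ τ, Nat.card (R r) = r ^ (Nat.card G).factorization r) ∧
      (∀ r ∈ τ, ∀ s ∈ τ, r ≠ s → ∀ x ∈ R r, ∀ y ∈ R s, x * y = y * x) := by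
  have hconv : ∀ (ρ : Finset ℕ), piPart ρ (Nat.card G) < p * kpi (↑ρ) G →
      piPart ρ (Nat.card G) * ((p + 1) ^ 2 + (p + 1) - 1) < (p + 1) ^ 3 * kpi (↑ρ) G := by
    intro ρ hρ
    have hF : (p + 1) ^ 2 + (p + 1) - 1 = (p + 1) ^ 2 + p := by omega
    rw [hF]
    have h1 : p * ((p + 1) ^ 2 + p) ≤ (p + 1) ^ 3 := by nlinarith
    calc piPart ρ (Nat.card G) * ((p + 1) ^ 2 + p)
        < (p * kpi (↑ρ) G) * ((p + 1) ^ 2 + p) :=
          Nat.mul_lt_mul_of_pos_right hρ (by positivity)
      _ = (p * ((p + 1) ^ 2 + p)) * kpi (↑ρ) G := by ring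
      _ ≤ (p + 1) ^ 3 * kpi (↑ρ) G := Nat.mul_le_mul_right _ h1
  by_cases hpτ : p ∈ τ
  swap
  · have hτ' : ∀ s ∈ τ, s.Prime ∧ p + 1 ≤ s := by
      intro s hs
      refine ⟨(hτ s hs).1, ?_⟩
      rcases (hτ s hs).2.eq_or_lt with heq | hlt
      · exact absurd (heq ▸ hs) hpτ
      · exact hlt
    obtain ⟨R, hR⟩ := exists_fam (p + 1) (Nat.succ_pos p) τ G hτ' (hconv τ h)
    refine ⟨R, ?_, ?_⟩
    · intro r hr
      rw [hR.card r hr, Subgroup.card_top]
    · intro r hr s hs _ x hx y hy
      exact hR.comm r hr s hs x hx y hy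
  · have hσ : ∀ s ∈ τ.erase p, s.Prime ∧ p < s := by
      intro s hs
      have hs' := Finset.mem_of_mem_erase hs
      exact ⟨(hτ s hs').1, lt_of_le_of_ne (hτ s hs').2 (Finset.ne_of_mem_erase hs).symm⟩
    have hins : insert p (τ.erase p) = τ := Finset.insert_erase hpτ
    have hm := piPart_eq_mul_erase τ hpτ (Nat.card G)
    have hmany : p ^ (Nat.card G).factorization p * piPart (τ.erase p) (Nat.card G)
        < p * kpi (↑(insert p (τ.erase p))) G := by
      rw [hins, ← hm]; exact h
    have hkσ : piPart (τ.erase p) (Nat.card G) < p * kpi (↑(τ.erase p)) G := by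
      have h1 := kpi_insert_le' (G := G) (↑(τ.erase p) : Set ℕ) hp
      rw [← Finset.coe_insert, hins] at h1
      have h4 : p ^ (Nat.card G).factorization p * piPart (τ.erase p) (Nat.card G)
          < p ^ (Nat.card G).factorization p * (p * kpi (↑(τ.erase p)) G) := by
        calc p ^ (Nat.card G).factorization p * piPart (τ.erase p) (Nat.card G)
            = piPart τ (Nat.card G) := hm.symm
          _ < p * kpi (↑τ) G := h
          _ ≤ p * (kpi (↑(τ.erase p)) G * p ^ (Nat.card G).factorization p) :=
              Nat.mul_le_mul_left _ h1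
          _ = p ^ (Nat.card G).factorization p * (p * kpi (↑(τ.erase p)) G) := by ring
      exact Nat.lt_of_mul_lt_mul_left h4
    obtain ⟨R, hR⟩ := exists_fam (p + 1) (Nat.succ_pos p) (τ.erase p) G
      (fun s hs => ⟨(hσ s hs).1, (hσ s hs).2⟩) (hconv _ hkσ)
    have key : ∃ P : Subgroup G, P ≤ DR (τ.erase p) R ∧
        Nat.card P = p ^ (Nat.card G).factorization p := by
      by_cases hNDle : NR (τ.erase p) R ≤ DR (τ.erase p) R
      · obtain ⟨P, hPc, hPcomm⟩ := hND (τ.erase p) R (fun s hs => (hσ s hs).2) hR hNDle hmany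
        refine ⟨P, ?_, hPc⟩
        intro x hx
        rw [mem_DR]
        intro s hs
        rw [Subgroup.mem_centralizer_iff]
        intro y hy
        exact (hPcomm s hs x hx y hy).symm
      · obtain ⟨n, hnN, hnD⟩ := SetLike.not_le_iff_exists.mp hNDle
        have hpF : Fact p.Prime := ⟨hp⟩
        obtain ⟨P0⟩ : Nonempty (Sylow p G) := inferInstance
        by_cases hN : Subgroup.normalizer ((P0 : Subgroup G) : Set G)
            ≤ Subgroup.centralizer ((P0 : Subgroup G) : Set G)
        · have hK : ¬ p ∣ Nat.card (MonoidHom.transferSylow P0 hN).ker :=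
            MonoidHom.not_dvd_card_ker_transferSylow P0 hN
          refine caseA_min (τ.erase p) p hp hσ (MonoidHom.transferSylow P0 hN).ker hK R hR ?_
            hmany
          intro s hs x hx
          rw [MonoidHom.mem_ker]
          have hsp := (hσ s hs).1
          have hsr : s ≠ p := Finset.ne_of_mem_erase hs
          have h1 : orderOf (MonoidHom.transferSylow P0 hN x) ∣ orderOf x := orderOf_map_dvd _ x
          have h2 : orderOf x ∣ s ^ (Nat.card (⊤ : Subgroup G)).factorization s := by
            rw [← hR.card s hs]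
            have := orderOf_dvd_natCard (⟨x, hx⟩ : R s)
            rwa [Subgroup.orderOf_mk] at this
          have h3 : orderOf (MonoidHom.transferSylow P0 hN x) ∣ Nat.card (P0 : Subgroup G) :=
            orderOf_dvd_natCard _
          rw [Sylow.card_eq_multiplicity] at h3
          have hcop : Nat.Coprime (s ^ (Nat.card (⊤ : Subgroup G)).factorization s)
              (p ^ (Nat.card G).factorization p) :=
            Nat.Coprime.pow _ _ ((Nat.coprime_primes hsp hp).mpr hsr)
          have h4 := Nat.eq_one_of_dvd_coprimes hcop (h1.trans h2) h3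
          exact orderOf_eq_one_iff.mp h4
        · refine caseC_min (τ.erase p) p hp hσ R hR ⟨n, hnN, hnD⟩ ?_ hmany
          have h1 := Cfsg.Agent.S3897.card_cls_le P0
          have h2 := Cfsg.Agent.S3897.count P0 hN
          have h3 : kpi {p} G
              = Nat.card {c : ConjClasses G // ∀ x ∈ c.carrier, ∃ k : ℕ, orderOf x = p ^ k} := by
            unfold kpi PiCls
            apply Nat.card_congr
            apply Equiv.subtypeEquivRight
            intro c
            constructor
            · intro h x hx; exact (isPiElt_singleton_iff hp).mp (h x hx)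
            · intro h x hx; exact (isPiElt_singleton_iff hp).mpr (h x hx)
          rw [h3, ← Sylow.card_eq_multiplicity P0]
          exact (Nat.mul_le_mul_left _ h1).trans h2
    obtain ⟨P, hPD, hPc⟩ := key
    refine ⟨fun s => if s = p then P else R s, ?_, ?_⟩
    · intro r hr
      by_cases hrp : r = p
      · rw [hrp]
        show Nat.card ↥(if p = p then P else R p) = _
        rw [if_pos rfl]; exact hPc
      · show Nat.card ↥(if r = p then P else R r) = _
        rw [if_neg hrp, hR.card r (Finset.mem_erase.mpr ⟨hrp, hr⟩), Subgroup.card_top]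
    · intro r hr s hs hrs x hx y hy
      have hx' : x ∈ (if r = p then P else R r) := hx
      have hy' : y ∈ (if s = p then P else R s) := hy
      by_cases hrp : r = p
      · have hsp : s ≠ p := fun h => hrs (hrp.trans h.symm)
        rw [if_pos hrp] at hx'
        rw [if_neg hsp] at hy'
        exact (Subgroup.mem_centralizer_iff.mp
          (mem_DR.mp (hPD hx') s (Finset.mem_erase.mpr ⟨hsp, hs⟩)) y hy').symm
      · rw [if_neg hrp] at hx'
        by_cases hsp : s = p
        · rw [if_pos hsp] at hy'
          exact Subgroup.mem_centralizer_iff.mp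
            (mem_DR.mp (hPD hy') r (Finset.mem_erase.mpr ⟨hrp, hr⟩)) x hx'
        · rw [if_neg hsp] at hy'
          exact hR.comm r (Finset.mem_erase.mpr ⟨hrp, hr⟩) s (Finset.mem_erase.mpr ⟨hsp, hs⟩)
            x hx' y hy'

end StarA

end Cfsg.Agent.Lib.Helper30.PiHall
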