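import Mathlib
import Cfsg.Agent.Lib.Helper53.RUStmt

set_option autoImplicit false

/-! Piece [DIM2] of S2522: the base of the induction. -/

namespace Cfsg.Agent.Lib.Helper30.RUDIM2

open Cfsg.Agent.Lib.Helper53.RUStmt

universe u v

theorem main : Dim2Piece.{u, v} := by
  intro hD2V hD2N K _ V _ _ _ hK hn g hg f ξ hf hξ
  obtain ⟨v, hξv, hAv, hgv⟩ := hD2V K V hK hn g hg f ξ hf hξ
  have hv0 : v ≠ 0 := by
    rintro rfl
    exact hξv (map_zero ξ)
  obtain ⟨b, hb⟩ : ∃ b : V, b = (g - 1) v := ⟨_, rfl⟩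
  have hgv' : g v = v + b := by
    rw [hb, LinearMap.sub_apply, Module.End.one_apply]
    abel
  have hbv : ∀ t : K, b ≠ t • v := by
    intro t h
    apply hgv (1 + t)
    rw [hgv', h, add_smul, one_smul]
  have hb0 : b ≠ 0 := by
    intro h
    exact hbv 0 (by rw [h, zero_smul])
  -- a functional `β` with `β v = 1`, `β b = 0`
  have hvb : v ∉ Submodule.span K {b} := by
    intro h
    obtain ⟨t, ht⟩ := Submodule.mem_span_singleton.mp h
    have ht0 : t ≠ 0 := by
      rintro rfl
      rw [zero_smul] at ht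
      exact hv0 ht.symm
    apply hbv t⁻¹
    rw [← ht, smul_smul, inv_mul_cancel₀ ht0, one_smul]
  obtain ⟨β₀, hβ₀v, hβ₀b⟩ := Submodule.exists_dual_map_eq_bot_of_notMem hvb inferInstance
  have hβ₀b' : β₀ b = 0 := by
    have h1 : β₀ b ∈ (Submodule.span K {b}).map β₀ :=
      Submodule.mem_map_of_mem (Submodule.mem_span_singleton_self b)
    rw [hβ₀b] at h1
    exact (Submodule.mem_bot K).mp h1
  obtain ⟨β, hβv, hβb⟩ : ∃ β : Module.Dual K V, β v = 1 ∧ β b = 0 := by
    refine ⟨(β₀ v)⁻¹ • β₀, ?_, ?_⟩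
    · rw [LinearMap.smul_apply, smul_eq_mul, inv_mul_cancel₀ hβ₀v]
    · rw [LinearMap.smul_apply, hβ₀b', smul_zero]
  obtain ⟨B, hBdef⟩ : ∃ B : Module.End K V, B = LinearMap.transvection β b := ⟨_, rfl⟩
  obtain ⟨B', hB'def⟩ : ∃ B' : Module.End K V, B' = LinearMap.transvection (-β) b := ⟨_, rfl⟩
  have hBx : ∀ x, B x = x + β x • b := fun x => by
    rw [hBdef, LinearMap.transvection.apply]
  have hB'x : ∀ x, B' x = x - β x • b := fun x => by
    rw [hB'def, LinearMap.transvection.apply, LinearMap.neg_apply, neg_smul, sub_eq_add_neg]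
  have hBB' : B * B' = 1 := by
    apply LinearMap.ext
    intro x
    rw [Module.End.mul_apply, hB'x, hBx, Module.End.one_apply, map_sub, map_smul, hβb,
      smul_zero, sub_zero]
    abel
  obtain ⟨C, hCdef⟩ : ∃ C : Module.End K V, C = B' * g := ⟨_, rfl⟩
  have hgBC : g = B * C := by
    rw [hCdef, ← mul_assoc, hBB', one_mul]
  have hdetB : LinearMap.det B = 1 := by
    rw [hBdef, LinearMap.transvection.det, hβb, add_zero]
  have hdetB' : LinearMap.det B' = 1 := by
    rw [hB'def, LinearMap.transvection.det, LinearMap.neg_apply, hβb, neg_zero, add_zero]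
  have hdetC : LinearMap.det C = 1 := by
    rw [hCdef, map_mul, hdetB', hg.1, one_mul]
  have hCv : C v = v := by
    rw [hCdef, Module.End.mul_apply, hgv', hB'x, map_add, hβv, hβb, add_zero, one_smul]
    abel
  have hBb : B b = b := by
    rw [hBx, hβb, zero_smul, add_zero]
  have hB1 : B ≠ 1 := by
    intro h
    have h1 := hBx v
    rw [h, Module.End.one_apply, hβv, one_smul] at h1
    exact hb0 (by simpa using h1)
  have hC1 : C ≠ 1 := by
    intro h
    have hgB : g = B := by rw [hgBC, h, mul_one]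
    have hAb : (g - 1) b = 0 := by
      rw [hgB, LinearMap.sub_apply, hBb, Module.End.one_apply, sub_self]
    have hrn := LinearMap.finrank_range_add_finrank_ker (g - 1)
    have hker : 0 < Module.finrank K (LinearMap.ker (g - 1)) := by
      rw [Module.finrank_pos_iff_exists_ne_zero]
      exact ⟨⟨b, LinearMap.mem_ker.mpr hAb⟩, fun h => hb0 (congrArg Subtype.val h)⟩
    have h2 := hg.2.2
    omega
  have hRUB : RegUnip B := hD2N K V hn B hdetB hB1 b hb0 hBb
  have hRUC : RegUnip C := hD2N K V hn C hdetC hC1 v hv0 hCv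
  refine ⟨B, C, ⟨hRUB, hRUC, hgBC⟩, ?_, v, ?_, hξv⟩
  · rintro ⟨x, hx⟩
    have hx' : β x • b = f := by
      rw [← hx, LinearMap.sub_apply, hBx, Module.End.one_apply]
      abel
    have hβx : β x ≠ 0 := by
      intro h
      rw [h, zero_smul] at hx'
      exact hf hx'.symm
    apply hAv (β x)⁻¹
    rw [← hx', smul_smul, inv_mul_cancel₀ hβx, one_smul, hb]
  · rw [LinearMap.sub_apply, hCv, Module.End.one_apply, sub_self]

end Cfsg.Agent.Lib.Helper30.RUDIM2
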