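import Mathlib
import Cfsg.Agent.Lib.Helper53.RUStmt

set_option autoImplicit false

/-! Piece [EXTB] of S2522. -/

namespace Cfsg.Agent.Lib.Helper30.RUEXTB

open Cfsg.Agent.Lib.Helper53.RUStmt

universe u v

variable {K : Type u} [Field K] {V : Type v} [AddCommGroup V] [Module K V]

theorem N_apply (g : Module.End K V) (e : V) (φ : Module.Dual K V) (he : φ e = 1)
    (B₁ : Module.End K (LinearMap.ker φ)) (v : V) :
    (extB g e φ he B₁ - 1) v =
      φ v • (g e - e) + (((B₁ - 1) (proj e φ he v) : LinearMap.ker φ) : V) := by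
  have h1 : (((B₁ - 1) (proj e φ he v) : LinearMap.ker φ) : V)
      = (B₁ (proj e φ he v) : V) - (v - φ v • e) := by
    rw [LinearMap.sub_apply, Module.End.one_apply, Submodule.coe_sub, proj_apply]
  rw [h1, LinearMap.sub_apply, extB_apply, Module.End.one_apply, smul_sub]
  abel

theorem proj_coe (e : V) (φ : Module.Dual K V) (he : φ e = 1) (w : LinearMap.ker φ) :
    proj e φ he (w : V) = w := by
  apply Subtype.ext
  rw [proj_apply, LinearMap.mem_ker.mp w.2, zero_smul, sub_zero]

theorem N_coe (g : Module.End K V) (e : V) (φ : Module.Dual K V) (he : φ e = 1)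
    (B₁ : Module.End K (LinearMap.ker φ)) (w : LinearMap.ker φ) :
    (extB g e φ he B₁ - 1) (w : V) = (((B₁ - 1) w : LinearMap.ker φ) : V) := by
  rw [N_apply, proj_coe, LinearMap.mem_ker.mp w.2, zero_smul, zero_add]

theorem N_pow_coe (g : Module.End K V) (e : V) (φ : Module.Dual K V) (he : φ e = 1)
    (B₁ : Module.End K (LinearMap.ker φ)) (j : ℕ) (w : LinearMap.ker φ) :
    ((extB g e φ he B₁ - 1) ^ j) (w : V) = ((((B₁ - 1) ^ j) w : LinearMap.ker φ) : V) := by
  induction j with
  | zero => rw [pow_zero, pow_zero, Module.End.one_apply, Module.End.one_apply]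
  | succ j ih =>
    rw [pow_succ', pow_succ', Module.End.mul_apply, Module.End.mul_apply, ih, N_coe]

theorem main : ExtBStmt.{u, v} := by
  intro K _ V _ _ _ g e φ he hge B₁ hB hx
  have hφu : φ (g e - e) = 0 := by rw [map_sub, hge, he, sub_self]
  have hφ0 : φ ≠ 0 := by
    intro h
    rw [h, LinearMap.zero_apply] at he
    exact zero_ne_one he
  have hmemW : ∀ v : V, (extB g e φ he B₁ - 1) v ∈ LinearMap.ker φ := by
    intro v
    rw [LinearMap.mem_ker, N_apply, map_add, map_smul, hφu, smul_zero, zero_add]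
    exact LinearMap.mem_ker.mp ((B₁ - 1) (proj e φ he v)).2
  -- the range
  have hrange : LinearMap.range (extB g e φ he B₁ - 1) = LinearMap.ker φ := by
    apply le_antisymm
    · rintro _ ⟨v, rfl⟩
      exact hmemW v
    · intro w hw
      let u' : LinearMap.ker φ := ⟨g e - e, LinearMap.mem_ker.mpr hφu⟩
      have hu' : u' ∉ LinearMap.range (B₁ - 1) := hx u' rfl
      have hsup : LinearMap.range (B₁ - 1) ⊔ Submodule.span K {u'} = ⊤ := by
        apply Submodule.eq_top_of_finrank_eq
        have hlt : LinearMap.range (B₁ - 1) < LinearMap.range (B₁ - 1) ⊔ Submodule.span K {u'} := by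
          refine lt_of_le_of_ne le_sup_left ?_
          intro h
          apply hu'
          rw [h]
          exact (le_sup_right : Submodule.span K {u'} ≤
            LinearMap.range (B₁ - 1) ⊔ Submodule.span K {u'})
            (Submodule.mem_span_singleton_self u')
        have h1 := Submodule.finrank_lt_finrank_of_lt hlt
        have h2 := hB.2
        have h3 := Submodule.finrank_le
          (LinearMap.range (B₁ - 1) ⊔ Submodule.span K {u'})
        omega
      have hw' : (⟨w, hw⟩ : LinearMap.ker φ) ∈
          LinearMap.range (B₁ - 1) ⊔ Submodule.span K {u'} := by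
        rw [hsup]; exact Submodule.mem_top
      obtain ⟨y, ⟨y₀, rfl⟩, z, hz, hyz⟩ := Submodule.mem_sup.mp hw'
      obtain ⟨t, rfl⟩ := Submodule.mem_span_singleton.mp hz
      refine ⟨t • e + (y₀ : V), ?_⟩
      have hp : proj e φ he (t • e + (y₀ : V)) = y₀ := by
        apply Subtype.ext
        rw [proj_apply, map_add, map_smul, he, LinearMap.mem_ker.mp y₀.2, smul_eq_mul, mul_one,
          add_zero]
        abel
      have hφv : φ (t • e + (y₀ : V)) = t := by
        rw [map_add, map_smul, he, LinearMap.mem_ker.mp y₀.2, smul_eq_mul, mul_one, add_zero]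
      rw [N_apply, hp, hφv]
      have h4 := congrArg Subtype.val hyz
      rw [Submodule.coe_add, Submodule.coe_smul] at h4
      rw [add_comm]
      exact h4
  refine ⟨⟨?_, ?_⟩, hrange⟩
  · -- nilpotent
    obtain ⟨m, hm⟩ := hB.1
    refine ⟨m + 1, ?_⟩
    apply LinearMap.ext
    intro v
    rw [pow_succ, Module.End.mul_apply, LinearMap.zero_apply]
    have h1 := N_pow_coe g e φ he B₁ m ⟨(extB g e φ he B₁ - 1) v, hmemW v⟩
    rw [hm, LinearMap.zero_apply] at h1
    exact h1
  · rw [hrange]
    exact Module.Dual.finrank_ker_add_one_of_ne_zero hφ0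

end Cfsg.Agent.Lib.Helper30.RUEXTB
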