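import Mathlib
import Cfsg.Agent.Lib.Helper53.RUStmt

set_option autoImplicit false

/-! Piece [LIFT] of S2522. -/

namespace Cfsg.Agent.Lib.Helper30.RULIFT

open Cfsg.Agent.Lib.Helper53.RUStmt

universe u v

variable {K : Type u} [Field K] {V : Type v} [AddCommGroup V] [Module K V]

theorem N_apply (e : V) (φ : Module.Dual K V) (he : φ e = 1)
    (X : Module.Dual K (LinearMap.ker φ)) (D : Module.End K (LinearMap.ker φ)) (v : V) :
    (lift e φ he X D - 1) v =
      X (proj e φ he v) • e + (((D - 1) (proj e φ he v) : LinearMap.ker φ) : V) := by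
  have h1 : (((D - 1) (proj e φ he v) : LinearMap.ker φ) : V)
      = (D (proj e φ he v) : V) - (v - φ v • e) := by
    rw [LinearMap.sub_apply, Module.End.one_apply, Submodule.coe_sub, proj_apply]
  rw [h1, LinearMap.sub_apply, lift_apply, Module.End.one_apply, add_smul]
  abel

theorem proj_e (e : V) (φ : Module.Dual K V) (he : φ e = 1) : proj e φ he e = 0 := by
  apply Subtype.ext
  rw [proj_apply, he, one_smul, sub_self]
  rfl

theorem N_e (e : V) (φ : Module.Dual K V) (he : φ e = 1)
    (X : Module.Dual K (LinearMap.ker φ)) (D : Module.End K (LinearMap.ker φ)) :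
    (lift e φ he X D - 1) e = 0 := by
  rw [N_apply, proj_e, map_zero, map_zero, zero_smul, zero_add]
  rfl

theorem phi_N (e : V) (φ : Module.Dual K V) (he : φ e = 1)
    (X : Module.Dual K (LinearMap.ker φ)) (D : Module.End K (LinearMap.ker φ)) (v : V) :
    φ ((lift e φ he X D - 1) v) = X (proj e φ he v) := by
  rw [N_apply, map_add, map_smul, he, smul_eq_mul, mul_one,
    LinearMap.mem_ker.mp ((D - 1) (proj e φ he v)).2, add_zero]

theorem proj_N (e : V) (φ : Module.Dual K V) (he : φ e = 1)
    (X : Module.Dual K (LinearMap.ker φ)) (D : Module.End K (LinearMap.ker φ)) (v : V) :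
    proj e φ he ((lift e φ he X D - 1) v) = (D - 1) (proj e φ he v) := by
  apply Subtype.ext
  rw [proj_apply, phi_N, N_apply]
  abel

theorem proj_N_pow (e : V) (φ : Module.Dual K V) (he : φ e = 1)
    (X : Module.Dual K (LinearMap.ker φ)) (D : Module.End K (LinearMap.ker φ)) (j : ℕ) (v : V) :
    proj e φ he (((lift e φ he X D - 1) ^ j) v) = ((D - 1) ^ j) (proj e φ he v) := by
  induction j with
  | zero => rw [pow_zero, pow_zero, Module.End.one_apply, Module.End.one_apply]
  | succ j ih =>
    rw [pow_succ', pow_succ', Module.End.mul_apply, Module.End.mul_apply, proj_N, ih]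

theorem main : LiftStmt.{u, v} := by
  intro K _ V _ _ _ e φ he X D hD hk
  obtain ⟨k, hk1, hk2⟩ := hk
  have he0 : e ≠ 0 := by
    intro h
    rw [h, map_zero] at he
    exact zero_ne_one he
  refine ⟨?_, ?_⟩
  · -- nilpotent
    obtain ⟨m, hm⟩ := hD.1
    refine ⟨m + 1, ?_⟩
    apply LinearMap.ext
    intro v
    rw [pow_succ', Module.End.mul_apply, LinearMap.zero_apply]
    have h1 := proj_N_pow e φ he X D m v
    rw [hm, LinearMap.zero_apply] at h1
    have h2 := congrArg Subtype.val h1
    rw [proj_apply] at h2
    have h3 : ((lift e φ he X D - 1) ^ m) v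
        = φ (((lift e φ he X D - 1) ^ m) v) • e := by
      have : ((0 : LinearMap.ker φ) : V) = 0 := rfl
      rw [this] at h2
      exact sub_eq_zero.mp h2
    rw [h3, map_smul, N_e, smul_zero]
  · -- rank
    have hrn := LinearMap.finrank_range_add_finrank_ker (lift e φ he X D - 1)
    have hker : LinearMap.ker (lift e φ he X D - 1) = Submodule.span K {e} := by
      apply le_antisymm
      · intro v hv
        rw [LinearMap.mem_ker] at hv
        have h1 : X (proj e φ he v) = 0 := by
          rw [← phi_N e φ he X D v, hv, map_zero]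
        have h2 : (D - 1) (proj e φ he v) = 0 := by
          rw [← proj_N e φ he X D v, hv, map_zero]
        -- `ker (D - 1)` is a line
        have hrnD := LinearMap.finrank_range_add_finrank_ker (D - 1)
        have hkD : Module.finrank K (LinearMap.ker (D - 1)) = 1 := by
          have := hD.2
          omega
        have hk0 : (⟨k, LinearMap.mem_ker.mpr hk1⟩ : LinearMap.ker (D - 1)) ≠ 0 := by
          intro h
          have h' := congrArg Subtype.val h
          have hk' : k = 0 := h'
          rw [hk', map_zero] at hk2
          exact hk2 rfl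
        obtain ⟨c, hc⟩ := (finrank_eq_one_iff_of_nonzero' _ hk0).mp hkD
          ⟨proj e φ he v, LinearMap.mem_ker.mpr h2⟩
        have hc' : c • k = proj e φ he v := congrArg Subtype.val hc
        have hc0 : c = 0 := by
          rw [← hc', map_smul, smul_eq_mul] at h1
          rcases mul_eq_zero.mp h1 with h | h
          · exact h
          · exact absurd h hk2
        rw [hc0, zero_smul] at hc'
        have h3 := congrArg Subtype.val hc'
        rw [proj_apply] at h3
        have h4 : v = φ v • e := by
          have : ((0 : LinearMap.ker φ) : V) = 0 := rfl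
          rw [this] at h3
          exact sub_eq_zero.mp h3.symm
        rw [Submodule.mem_span_singleton]
        exact ⟨φ v, h4.symm⟩
      · rw [Submodule.span_singleton_le_iff_mem, LinearMap.mem_ker]
        exact N_e e φ he X D
    rw [hker, finrank_span_singleton he0] at hrn
    exact hrn

end Cfsg.Agent.Lib.Helper30.RULIFT
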