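import Mathlib

/-! `SL(2,5)` is not solvable. -/

set_option autoImplicit false

namespace Cfsg.Agent.Lib.Helper30.SL25NS

open Matrix

theorem psl25_simple :
    IsSimpleGroup (Matrix.ProjectiveSpecialLinearGroup (Fin 2) (ZMod 5)) := by
  haveI : Fact (Nat.Prime 5) := ⟨by norm_num⟩
  exact Matrix.ProjectiveSpecialLinearGroup.rank_two_simple (F := ZMod 5)
    (by rw [Nat.card_eq_fintype_card, ZMod.card]; norm_num)

theorem not_solvable_sl25 :
    ¬ Group.IsSolvable (Matrix.SpecialLinearGroup (Fin 2) (ZMod 5)) := by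
  intro hs
  haveI := hs
  haveI hsimple := psl25_simple
  have hsol : Group.IsSolvable (Matrix.ProjectiveSpecialLinearGroup (Fin 2) (ZMod 5)) :=
    Group.isSolvable_of_surjective
      (f := QuotientGroup.mk' (Subgroup.center (Matrix.SpecialLinearGroup (Fin 2) (ZMod 5))))
      (QuotientGroup.mk'_surjective _)
  have hcomm := IsSimpleGroup.comm_iff_isSolvable.2 hsol
  obtain ⟨u, hu⟩ : ∃ u : Matrix.SpecialLinearGroup (Fin 2) (ZMod 5),
      u.1 = !![1, 1; 0, 1] := ⟨⟨!![1, 1; 0, 1], by rw [Matrix.det_fin_two_of]; decide⟩, rfl⟩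
  obtain ⟨l, hl⟩ : ∃ l : Matrix.SpecialLinearGroup (Fin 2) (ZMod 5),
      l.1 = !![1, 0; 1, 1] := ⟨⟨!![1, 0; 1, 1], by rw [Matrix.det_fin_two_of]; decide⟩, rfl⟩
  have h := hcomm (QuotientGroup.mk' _ u) (QuotientGroup.mk' _ l)
  rw [← map_mul, ← map_mul] at h
  have h' : (u * l)⁻¹ * (l * u) ∈ Subgroup.center (Matrix.SpecialLinearGroup (Fin 2) (ZMod 5)) :=
    QuotientGroup.eq.1 h
  rw [Matrix.SpecialLinearGroup.mem_center_iff] at h'
  obtain ⟨r, -, hr⟩ := h'
  have e' : l * u = (u * l) * ((u * l)⁻¹ * (l * u)) := by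
    rw [mul_inv_cancel_left]
  have e := congrArg Subtype.val e'
  rw [Matrix.SpecialLinearGroup.coe_mul, Matrix.SpecialLinearGroup.coe_mul (u * l), ← hr,
    Matrix.SpecialLinearGroup.coe_mul, hu, hl] at e
  have e01 := congrFun (congrFun e 0) 1
  have e00 := congrFun (congrFun e 0) 0
  simp [Matrix.mul_apply, Fin.sum_univ_two, Matrix.scalar_apply, Matrix.diagonal_apply] at e01 e00
  rw [← e01] at e00
  revert e00
  decide

end Cfsg.Agent.Lib.Helper30.SL25NS
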