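import Mathlib
import Cfsg.Agent.Lib.Helper30.XSModel

set_option autoImplicit false
set_option linter.unusedSectionVars false

namespace Cfsg.Agent.Lib.Helper30.XSExt

open Cfsg.Agent.Lib.Helper93.LargeExtra2 Cfsg.Agent.Lib.Helper30.XSCount
  Cfsg.Agent.Lib.Helper30.XSIso Cfsg.Agent.Lib.Helper30.XSModel

/-- A nondegenerate `ZMod 2`-valued biadditive cocycle on an elementary abelian 2-group. -/
structure Coc (V : Type) [AddCommGroup V] where
  β : V → V → ZMod 2
  add_left : ∀ u v w, β (u + v) w = β u w + β v w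
  add_right : ∀ u v w, β u (v + w) = β u v + β u w
  two : ∀ v : V, v + v = 0
  nondeg : ∀ v : V, v ≠ 0 → ∃ w, β v w + β w v = 1

namespace Coc

variable {V : Type} [AddCommGroup V] (B : Coc V)

theorem zero_left (w : V) : B.β 0 w = 0 := by
  have h := B.add_left 0 0 w
  rw [add_zero] at h
  have h2 := CharTwo.add_self_eq_zero (B.β 0 w)
  rw [h2] at h
  exact h

theorem zero_right (w : V) : B.β w 0 = 0 := by
  have h := B.add_right w 0 0
  rw [add_zero] at h
  have h2 := CharTwo.add_self_eq_zero (B.β w 0)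
  rw [h2] at h
  exact h

/-- The orthogonal sum of two cocycles. -/
def prod {W : Type} [AddCommGroup W] (B₁ : Coc V) (B₂ : Coc W) : Coc (V × W) where
  β p q := B₁.β p.1 q.1 + B₂.β p.2 q.2
  add_left u v w := by
    simp only [Prod.fst_add, Prod.snd_add, B₁.add_left, B₂.add_left]; ring
  add_right u v w := by
    simp only [Prod.fst_add, Prod.snd_add, B₁.add_right, B₂.add_right]; ring
  two v := Prod.ext (B₁.two _) (B₂.two _)
  nondeg := by
    rintro ⟨v, w⟩ hne
    by_cases hv : v = 0
    · have hw : w ≠ 0 := by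
        rintro rfl
        exact hne (by rw [hv]; rfl)
      obtain ⟨w', hw'⟩ := B₂.nondeg w hw
      refine ⟨(0, w'), ?_⟩
      simp only [B₁.zero_left, B₁.zero_right]
      rw [← hw']; ring
    · obtain ⟨v', hv'⟩ := B₁.nondeg v hv
      refine ⟨(v', 0), ?_⟩
      simp only [B₂.zero_left, B₂.zero_right]
      rw [← hv']; ring

theorem prod_β {W : Type} [AddCommGroup W] (B₁ : Coc V) (B₂ : Coc W) (p q : V × W) :
    (B₁.prod B₂).β p q = B₁.β p.1 q.1 + B₂.β p.2 q.2 := rfl

/-- The hyperbolic cocycle on `m` coordinate pairs. -/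
def hyp (m : ℕ) : Coc (Fin m → ZMod 2 × ZMod 2) where
  β v w := ∑ i, (v i).2 * (w i).1
  add_left u v w := by
    simp only [Pi.add_apply, Prod.snd_add, add_mul, Finset.sum_add_distrib]
  add_right u v w := by
    simp only [Pi.add_apply, Prod.fst_add, mul_add, Finset.sum_add_distrib]
  two v := by
    funext i
    exact Prod.ext (CharTwo.add_self_eq_zero _) (CharTwo.add_self_eq_zero _)
  nondeg := by
    intro v hne
    obtain ⟨i, hi⟩ : ∃ i, v i ≠ 0 := by
      by_contra hall
      push Not at hall
      exact hne (funext hall)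
    obtain ⟨w, hw⟩ : ∃ w : ZMod 2 × ZMod 2, (v i).2 * w.1 + w.2 * (v i).1 = 1 := by
      generalize v i = u at hi
      revert u; decide
    refine ⟨Pi.single i w, ?_⟩
    rw [← Finset.sum_add_distrib, Finset.sum_eq_single i]
    · simp only [Pi.single_eq_same]
      exact hw
    · intro j _ hj
      simp [Pi.single_eq_of_ne hj]
    · intro h; exact (h (Finset.mem_univ i)).elim

theorem hyp_β (m : ℕ) (v w : Fin m → ZMod 2 × ZMod 2) :
    (hyp m).β v w = ∑ i, (v i).2 * (w i).1 := rfl

end Coc

/-- The central extension of `V` by `ZMod 2` defined by a cocycle. -/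
@[ext] structure Ext {V : Type} [AddCommGroup V] (B : Coc V) where
  c : ZMod 2
  v : V

namespace Ext

variable {V : Type} [AddCommGroup V] {B : Coc V}

instance : Mul (Ext B) := ⟨fun a b => ⟨a.c + b.c + B.β a.v b.v, a.v + b.v⟩⟩
instance : One (Ext B) := ⟨⟨0, 0⟩⟩
instance : Inv (Ext B) := ⟨fun a => ⟨a.c + B.β a.v a.v, a.v⟩⟩

theorem mul_c (a b : Ext B) : (a * b).c = a.c + b.c + B.β a.v b.v := rfl
theorem mul_v (a b : Ext B) : (a * b).v = a.v + b.v := rfl
theorem one_c : (1 : Ext B).c = 0 := rfl
theorem one_v : (1 : Ext B).v = 0 := rfl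
theorem inv_c (a : Ext B) : a⁻¹.c = a.c + B.β a.v a.v := rfl
theorem inv_v (a : Ext B) : a⁻¹.v = a.v := rfl

instance : Group (Ext B) where
  mul_assoc a b c := by
    apply Ext.ext
    · simp only [mul_c, mul_v, B.add_left, B.add_right]; ring
    · simp only [mul_v, add_assoc]
  one_mul a := by
    apply Ext.ext
    · simp only [mul_c, one_c, one_v, B.zero_left]; ring
    · simp only [mul_v, one_v, zero_add]
  mul_one a := by
    apply Ext.ext
    · simp only [mul_c, one_c, one_v, B.zero_right]; ring
    · simp only [mul_v, one_v, add_zero]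
  inv_mul_cancel a := by
    apply Ext.ext
    · simp only [mul_c, inv_c, inv_v, one_c]
      have := CharTwo.add_self_eq_zero (a.c + B.β a.v a.v)
      linear_combination this
    · simp only [mul_v, inv_v, one_v]; exact B.two _

/-- The underlying-set equivalence. -/
def equivProd : Ext B ≃ ZMod 2 × V where
  toFun a := (a.c, a.v)
  invFun p := ⟨p.1, p.2⟩
  left_inv _ := rfl
  right_inv _ := rfl

instance [Fintype V] : Fintype (Ext B) := Fintype.ofEquiv _ equivProd.symm

instance [Finite V] : Finite (Ext B) := Finite.of_equiv _ equivProd.symm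

theorem card : Nat.card (Ext B) = 2 * Nat.card V := by
  rw [Nat.card_congr equivProd, Nat.card_prod, Nat.card_zmod]

/-- The central involution. -/
def zz : Ext B := ⟨1, 0⟩

theorem zz_mul (a : Ext B) : zz * a = a * zz := by
  apply Ext.ext
  · simp only [mul_c, zz, B.zero_left, B.zero_right]; ring
  · simp only [mul_v, zz, zero_add, add_zero]

theorem zz_sq : (zz : Ext B) * zz = 1 := by
  apply Ext.ext
  · simp only [mul_c, zz, B.zero_left, one_c, add_zero]; exact CharTwo.add_self_eq_zero 1
  · simp only [mul_v, zz, one_v, add_zero]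

theorem zz_ne_one : (zz : Ext B) ≠ 1 := by
  intro h
  have h1 : (1 : ZMod 2) = 0 := congrArg Ext.c h
  exact one_ne_zero h1

theorem sq_eq_one_iff (a : Ext B) : a * a = 1 ↔ B.β a.v a.v = 0 := by
  constructor
  · intro h
    have h1 : a.c + a.c + B.β a.v a.v = 0 := congrArg Ext.c h
    have h2 := CharTwo.add_self_eq_zero a.c
    linear_combination h1 - h2
  · intro h
    apply Ext.ext
    · simp only [mul_c, one_c, h, add_zero]; exact CharTwo.add_self_eq_zero _
    · simp only [mul_v, one_v]; exact B.two _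

theorem sq_eq (a : Ext B) : a * a = 1 ∨ a * a = zz := by
  rcases Mdl.zmod_two_cases (B.β a.v a.v) with h | h
  · left; exact (sq_eq_one_iff a).mpr h
  · right
    apply Ext.ext
    · simp only [mul_c, zz, h]
      have := CharTwo.add_self_eq_zero a.c
      linear_combination this
    · simp only [mul_v, zz]; exact B.two _

theorem mul_comm_cases (a b : Ext B) : a * b = b * a ∨ a * b = zz * (b * a) := by
  rcases Mdl.zmod_two_cases (B.β a.v b.v + B.β b.v a.v) with h | h
  · left
    apply Ext.ext
    · simp only [mul_c]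
      have h2 := CharTwo.add_self_eq_zero (B.β b.v a.v)
      linear_combination h - h2
    · simp only [mul_v]; exact add_comm _ _
  · right
    apply Ext.ext
    · simp only [mul_c, mul_v, zz, B.zero_left]
      have h2 := CharTwo.add_self_eq_zero (B.β b.v a.v)
      linear_combination h - h2
    · show a.v + b.v = 0 + (b.v + a.v)
      rw [zero_add]
      exact add_comm _ _

theorem central (c : Ext B) (hc : ∀ a : Ext B, a * c = c * a) : c = 1 ∨ c = zz := by
  have hv : c.v = 0 := by
    by_contra hne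
    obtain ⟨w, hw⟩ := B.nondeg c.v hne
    have h1 := hc ⟨0, w⟩
    have h2 : (0 : ZMod 2) + c.c + B.β w c.v = c.c + 0 + B.β c.v w := congrArg Ext.c h1
    have h4 : B.β w c.v = B.β c.v w := by linear_combination h2
    rw [h4, CharTwo.add_self_eq_zero] at hw
    exact zero_ne_one hw
  rcases Mdl.zmod_two_cases c.c with h | h
  · left; exact Ext.ext h hv
  · right; exact Ext.ext h hv

theorem xs : XS (⊤ : Subgroup (Ext B)) zz where
  z_mem := Subgroup.mem_top _
  z_ne_one := zz_ne_one
  z_sq := zz_sq
  z_comm := fun a _ => zz_mul a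
  central := fun c _ hc => central c (fun a => hc a (Subgroup.mem_top _))
  comm := fun a _ b _ => by
    rcases mul_comm_cases a b with h | h
    · left; rw [h]; group
    · right; rw [h]; group

theorem nonab [Nontrivial V] : ∃ x y : Ext B, x * y ≠ y * x := by
  by_contra hall
  push Not at hall
  obtain ⟨v, hv⟩ := exists_ne (0 : V)
  rcases central (⟨0, v⟩ : Ext B) (fun a => hall a _) with h | h
  · exact hv (congrArg Ext.v h)
  · exact hv (congrArg Ext.v h)

theorem extraspecial [Finite V] [Nontrivial V] : Cfsg.IsExtraspecial 2 (Ext B) :=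
  xs_extraspecial xs sq_eq nonab

theorem q_eq (a : Ext B) : q a = Mdl.chi (B.β a.v a.v) := by
  unfold q Mdl.chi
  by_cases h : B.β a.v a.v = 0
  · rw [if_pos ((sq_eq_one_iff a).mpr h), if_pos h]
  · rw [if_neg (mt (sq_eq_one_iff a).mp h), if_neg h]

theorem ssum_eq [Fintype V] : Ssum (Ext B) = 2 * ∑ v : V, Mdl.chi (B.β v v) := by
  rw [Ssum_eq]
  have h1 : ∑ g : Ext B, q g = ∑ p : ZMod 2 × V, Mdl.chi (B.β p.2 p.2) := by
    apply Fintype.sum_equiv equivProd
    intro a
    rw [q_eq]
    rfl
  rw [h1, Fintype.sum_prod_type]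
  simp only [Finset.sum_const, Finset.card_univ, ZMod.card, nsmul_eq_mul]
  norm_num

theorem conj_c (a x : Ext B) : (a * x * a⁻¹).c = x.c + (B.β a.v x.v + B.β x.v a.v) := by
  simp only [mul_c, mul_v, inv_c, inv_v, B.add_left]
  have h1 := CharTwo.add_self_eq_zero a.c
  have h2 := CharTwo.add_self_eq_zero (B.β a.v a.v)
  linear_combination h1 + h2

theorem conj_v (a x : Ext B) : (a * x * a⁻¹).v = x.v := by
  simp only [mul_v, inv_v]
  rw [add_comm a.v x.v, add_assoc, B.two, add_zero]

/-- Inner automorphisms determine the element modulo the centre. -/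
theorem conj_inj {a b : Ext B} (h : MulAut.conj a = MulAut.conj b) : a.v = b.v := by
  by_contra hne
  have hne' : a.v + b.v ≠ 0 := by
    intro h0
    apply hne
    have := congrArg (fun t => t + b.v) h0
    simp only [add_assoc, B.two, add_zero, zero_add] at this
    exact this
  obtain ⟨w, hw⟩ := B.nondeg _ hne'
  have h1 := congrArg (fun f => (f (⟨0, w⟩ : Ext B)).c) h
  simp only [MulAut.conj_apply, conj_c] at h1
  rw [B.add_left, B.add_right] at hw
  have h2 := CharTwo.add_self_eq_zero (B.β b.v w + B.β w b.v)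
  have : (0 : ZMod 2) = 1 := by linear_combination hw - h1 - h2
  exact zero_ne_one this

end Ext

/-! ### Sums of the sign character -/

theorem chi_sum_prod {V W : Type} [AddCommGroup V] [AddCommGroup W] [Fintype V] [Fintype W]
    (B₁ : Coc V) (B₂ : Coc W) :
    ∑ p : V × W, Mdl.chi ((B₁.prod B₂).β p p) =
      (∑ v : V, Mdl.chi (B₁.β v v)) * (∑ w : W, Mdl.chi (B₂.β w w)) := by
  rw [Fintype.sum_prod_type, Finset.sum_mul_sum]
  apply Finset.sum_congr rfl
  intro v _
  apply Finset.sum_congr rfl
  intro w _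
  rw [Coc.prod_β, Mdl.chi_add]

theorem chi_sum_hyp (m : ℕ) :
    ∑ w : Fin m → ZMod 2 × ZMod 2, Mdl.chi ((Coc.hyp m).β w w) = 2 ^ m := by
  have h1 : ∀ w : Fin m → ZMod 2 × ZMod 2, Mdl.chi ((Coc.hyp m).β w w) =
      ∏ i, Mdl.chi ((w i).2 * (w i).1) := by
    intro w
    rw [Coc.hyp_β, Mdl.chi_sum]
  simp only [h1]
  rw [← Fintype.prod_sum (fun (_ : Fin m) (p : ZMod 2 × ZMod 2) => Mdl.chi (p.2 * p.1))]
  have h2 : ∑ p : ZMod 2 × ZMod 2, Mdl.chi (p.2 * p.1) = 2 := by decide
  simp only [h2, Finset.prod_const, Finset.card_univ, Fintype.card_fin]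

end Cfsg.Agent.Lib.Helper30.XSExt
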