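import Mathlib
import Cfsg.Agent.Lib.Helper30.XSExt

set_option autoImplicit false
set_option linter.unusedSectionVars false

namespace Cfsg.Agent.Lib.Helper30.XSAut

open Cfsg.Agent.Lib.Helper30.XSModel Cfsg.Agent.Lib.Helper30.XSExt

/-- `|Inn(G)| · |Z(G)| = |G|`. -/
theorem card_inn_mul {G : Type*} [Group G] :
    Nat.card (MulAut.conj : G →* MulAut G).range * Nat.card (Subgroup.center G) = Nat.card G := by
  have hker : (MulAut.conj : G →* MulAut G).ker = Subgroup.center G := by
    ext x
    rw [MonoidHom.mem_ker, Subgroup.mem_center_iff]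
    constructor
    · intro h y
      have h1 := congrArg (fun f : MulAut G => f y) h
      simp only [MulAut.conj_apply, MulAut.one_apply] at h1
      rw [mul_inv_eq_iff_eq_mul] at h1
      exact h1.symm
    · intro h
      apply MulEquiv.ext
      intro y
      rw [MulAut.conj_apply, MulAut.one_apply, mul_inv_eq_iff_eq_mul]
      exact (h y).symm
  have h1 := Subgroup.card_mul_index (MulAut.conj : G →* MulAut G).ker
  rw [Subgroup.index_ker, hker] at h1
  rw [mul_comm]
  exact h1

/-- Transport of inner automorphisms along an isomorphism. -/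
theorem conj_congr {G H : Type*} [Group G] [Group H] (e : G ≃* H) (x : G) :
    MulAut.congr e (MulAut.conj x) = MulAut.conj (e x) := by
  apply MulEquiv.ext
  intro y
  simp [MulAut.congr]

variable {V : Type} [AddCommGroup V] {B : Coc V}

theorem aut_zz (α : MulAut (Ext B)) : α Ext.zz = Ext.zz := by
  have hc : ∀ a : Ext B, a * α Ext.zz = α Ext.zz * a := by
    intro a
    have h1 := Ext.zz_mul (α.symm a)
    have h2 := congrArg α h1
    simp only [map_mul, MulEquiv.apply_symm_apply] at h2
    exact h2.symm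
  rcases Ext.central _ hc with h | h
  · exfalso
    apply Ext.zz_ne_one (B := B)
    apply α.injective
    rw [h, map_one]
  · exact h

/-- The map induced on `V` by an automorphism. -/
def abar (α : MulAut (Ext B)) (v : V) : V := (α ⟨0, v⟩).v

/-- The sign function of an automorphism. -/
def lfun (α : MulAut (Ext B)) (v : V) : ZMod 2 := (α ⟨0, v⟩).c

theorem split (x : Ext B) : x = ⟨0, x.v⟩ ∨ x = Ext.zz * ⟨0, x.v⟩ := by
  rcases Mdl.zmod_two_cases x.c with h | h
  · left; exact Ext.ext h rfl
  · right
    apply Ext.ext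
    · simp only [Ext.mul_c, Ext.zz, B.zero_left]
      rw [h]; ring
    · simp only [Ext.mul_v, Ext.zz, zero_add]

theorem aut_v (α : MulAut (Ext B)) (x : Ext B) : (α x).v = abar α x.v := by
  rcases split x with h | h
  · exact congrArg (fun y => (α y).v) h
  · have h1 : (α x).v = (α (Ext.zz * ⟨0, x.v⟩)).v := congrArg (fun y => (α y).v) h
    have ev : (Ext.zz : Ext B).v = 0 := rfl
    rw [map_mul, aut_zz, Ext.mul_v, ev, zero_add] at h1
    exact h1

theorem aut_c (α : MulAut (Ext B)) (x : Ext B) : (α x).c = x.c + lfun α x.v := by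
  rcases split x with h | h
  · have h0 : x.c = 0 := congrArg Ext.c h
    have h1 := congrArg (fun y => (α y).c) h
    rw [h0, zero_add]
    exact h1
  · have h0 : x.c = 1 := by
      have h2 := congrArg Ext.c h
      simp only [Ext.mul_c, Ext.zz, B.zero_left, add_zero] at h2
      exact h2
    have h1 : (α x).c = (α (Ext.zz * ⟨0, x.v⟩)).c := congrArg (fun y => (α y).c) h
    have ev : (Ext.zz : Ext B).v = 0 := rfl
    have ec : (Ext.zz : Ext B).c = 1 := rfl
    rw [map_mul, aut_zz, Ext.mul_c, ev, ec, B.zero_left, add_zero] at h1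
    rw [h0]
    exact h1

theorem abar_mul (α β : MulAut (Ext B)) (v : V) : abar (α * β) v = abar α (abar β v) := by
  show (α (β ⟨0, v⟩)).v = _
  rw [aut_v]
  rfl

theorem abar_one (v : V) : abar (1 : MulAut (Ext B)) v = v := rfl

theorem abar_add (α : MulAut (Ext B)) (u v : V) : abar α (u + v) = abar α u + abar α v := by
  have h := aut_v α ((⟨0, u⟩ : Ext B) * ⟨0, v⟩)
  rw [map_mul, Ext.mul_v] at h
  exact h.symm

theorem abar_zero (α : MulAut (Ext B)) : abar α 0 = 0 := by
  show (α (1 : Ext B)).v = 0
  rw [map_one]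
  rfl

theorem lfun_zero (α : MulAut (Ext B)) : lfun α 0 = 0 := by
  show (α (1 : Ext B)).c = 0
  rw [map_one]
  rfl

theorem abar_sing (α : MulAut (Ext B)) (v : V) :
    B.β (abar α v) (abar α v) = 0 ↔ B.β v v = 0 := by
  have h1 := Ext.sq_eq_one_iff (α (⟨0, v⟩ : Ext B))
  have h2 := Ext.sq_eq_one_iff (⟨0, v⟩ : Ext B)
  rw [← map_mul, MulEquiv.map_eq_one_iff] at h1
  exact h1.symm.trans h2

theorem abar_inv_cancel (α : MulAut (Ext B)) (v : V) : abar α⁻¹ (abar α v) = v := by
  rw [← abar_mul, inv_mul_cancel, abar_one]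

theorem abar_cancel_inv (α : MulAut (Ext B)) (v : V) : abar α (abar α⁻¹ v) = v := by
  rw [← abar_mul, mul_inv_cancel, abar_one]

theorem abar_ne_zero (α : MulAut (Ext B)) {v : V} (hv : v ≠ 0) : abar α v ≠ 0 := by
  intro h
  apply hv
  have h1 := abar_inv_cancel α v
  rw [h, abar_zero] at h1
  exact h1.symm

theorem abar_conj (a : Ext B) (v : V) : abar (MulAut.conj a) v = v := by
  unfold abar
  rw [MulAut.conj_apply, Ext.conj_v]

theorem lfun_add (α : MulAut (Ext B)) (h : ∀ v, abar α v = v) (u v : V) :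
    lfun α (u + v) = lfun α u + lfun α v := by
  have h1 := aut_c α ((⟨0, u⟩ : Ext B) * ⟨0, v⟩)
  rw [map_mul, Ext.mul_c] at h1
  have e1 : (α (⟨0, u⟩ : Ext B)).v = u := h u
  have e2 : (α (⟨0, v⟩ : Ext B)).v = v := h v
  rw [e1, e2] at h1
  have h2 : lfun α u + lfun α v + B.β u v = (0 + 0 + B.β u v) + lfun α (u + v) := h1
  linear_combination -h2

/-- An automorphism acting trivially on `V` whose sign function is represented by `w` is the
inner automorphism of `(0, w)`. -/
theorem eq_conj_of (α : MulAut (Ext B)) (h : ∀ v, abar α v = v) (w : V)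
    (hw : ∀ v, B.β w v + B.β v w = lfun α v) : α = MulAut.conj (⟨0, w⟩ : Ext B) := by
  apply MulEquiv.ext
  intro x
  rw [MulAut.conj_apply]
  apply Ext.ext
  · rw [aut_c, Ext.conj_c, hw]
  · rw [aut_v, Ext.conj_v, h]

/-- An involutory automorphism from an involutory isometry `g` and a compatible sign function. -/
def autOf (B : Coc V) (g : V → V) (lam : V → ZMod 2) (hadd : ∀ u v, g (u + v) = g u + g v)
    (hinv : ∀ v, g (g v) = v) (hlam : ∀ v, lam (g v) = lam v)
    (hcoc : ∀ u v, lam (u + v) + lam u + lam v = B.β (g u) (g v) + B.β u v) :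
    MulAut (Ext B) where
  toFun x := ⟨x.c + lam x.v, g x.v⟩
  invFun x := ⟨x.c + lam x.v, g x.v⟩
  left_inv x := by
    apply Ext.ext
    · show x.c + lam x.v + lam (g x.v) = x.c
      rw [hlam]
      have := CharTwo.add_self_eq_zero (lam x.v)
      linear_combination this
    · exact hinv x.v
  right_inv x := by
    apply Ext.ext
    · show x.c + lam x.v + lam (g x.v) = x.c
      rw [hlam]
      have := CharTwo.add_self_eq_zero (lam x.v)
      linear_combination this
    · exact hinv x.v
  map_mul' x y := by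
    apply Ext.ext
    · show x.c + y.c + B.β x.v y.v + lam (x.v + y.v) =
        (x.c + lam x.v) + (y.c + lam y.v) + B.β (g x.v) (g y.v)
      have h := hcoc x.v y.v
      have h2 := CharTwo.add_self_eq_zero (lam x.v + lam y.v)
      have h3 := CharTwo.add_self_eq_zero (B.β x.v y.v)
      linear_combination h - h2 + h3
    · exact hadd x.v y.v

theorem abar_autOf (B : Coc V) (g : V → V) (lam : V → ZMod 2)
    (hadd : ∀ u v, g (u + v) = g u + g v)
    (hinv : ∀ v, g (g v) = v) (hlam : ∀ v, lam (g v) = lam v)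
    (hcoc : ∀ u v, lam (u + v) + lam u + lam v = B.β (g u) (g v) + B.β u v) (v : V) :
    abar (autOf B g lam hadd hinv hlam hcoc) v = g v := rfl

end Cfsg.Agent.Lib.Helper30.XSAut
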